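import Mathlib
import Cfsg.Agent.H21.SimpleTools
import Cfsg.Agent.H21.Counting
import Cfsg.Agent.H21.OrderCount
import Cfsg.Agent.H73.Syl

/-!
# Sylow-local tools for "no simple group of order N" arguments (helper73)

`P`, `Q` Sylow subgroups of prime order `p`, `q`.

* `sylow_data`: all numerical facts for a Sylow subgroup of prime order of a non-abelian simple
  group, packaged.
* `f3`: `q ∣ |C(P)|` implies `p ∣ |N(Q)|` (and `p ∣ |C(Q)|`).
* `exists_sylow_le_centralizer`, `normalizer_le_normalizer_of_unique`, `f4`: if the Sylow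
  `q`-subgroup of `C(P)` is unique (numerically), then `N(P) ≤ N(Q)`, `|N(P)| ∣ |N(Q)|` and
  `|N(Q)| / |N(P)| ≡ 1 (mod p)`.
* `card_orderOf_mul_ge`: `n_p (p - 1) (r - 1)` elements of order `p r` when `r ∣ |C(P)|`.
-/

set_option autoImplicit false

namespace Cfsg.Agent.H73.OrdTools

open Subgroup Cfsg.Agent.H21

/-- All Sylow `p`-subgroups have normalizers of the same order. -/
theorem card_normalizer_eq {G : Type*} [Group G] [Finite G] {p : ℕ} [Fact p.Prime]
    (P Q : Sylow p G) :
    Nat.card (normalizer ((P : Subgroup G) : Set G)) =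
      Nat.card (normalizer ((Q : Subgroup G) : Set G)) := by
  have h1 := Subgroup.card_mul_index (normalizer ((P : Subgroup G) : Set G))
  have h2 := Subgroup.card_mul_index (normalizer ((Q : Subgroup G) : Set G))
  have e1 : Nat.card (Sylow p G) = (normalizer ((P : Subgroup G) : Set G)).index :=
    Sylow.card_eq_index_normalizer P
  have e2 : Nat.card (Sylow p G) = (normalizer ((Q : Subgroup G) : Set G)).index :=
    Sylow.card_eq_index_normalizer Q
  rw [← e1] at h1
  rw [← e2] at h2
  have hpos : 0 < Nat.card (Sylow p G) := Nat.card_pos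
  exact Nat.eq_of_mul_eq_mul_right hpos (h1.trans h2.symm)

/-- A subgroup of prime order is contained in its centralizer. -/
theorem le_centralizer_of_card_prime {G : Type*} [Group G] (P : Subgroup G) (p : ℕ)
    [Fact p.Prime] (hP : Nat.card P = p) : P ≤ centralizer (P : Set G) := by
  have : IsCyclic P := isCyclic_of_prime_card hP
  intro x hx
  rw [mem_centralizer_iff]
  intro y hy
  have := (IsCyclic.commGroup (α := P)).mul_comm ⟨y, hy⟩ ⟨x, hx⟩
  exact congrArg Subtype.val this

/-- Packaged Sylow data for a prime `p` with `p ∥ |G|` in a non-abelian simple group. -/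
theorem sylow_data {G : Type*} [Group G] [Finite G] [IsSimpleGroup G]
    (hG : ¬ IsMulCommutative G) (p m : ℕ) [Fact p.Prime] (hN : Nat.card G = p * m)
    (hm : ¬ p ∣ m) (P : Sylow p G) :
    Nat.card (P : Subgroup G) = p ∧
    ∃ d : ℕ, Nat.card (Sylow p G) ∣ m ∧ Nat.card (Sylow p G) % p = 1 ∧
      2 * Nat.card G ∣ (Nat.card (Sylow p G)).factorial ∧
      Nat.card (normalizer ((P : Subgroup G) : Set G)) * Nat.card (Sylow p G) = Nat.card G ∧
      d ≠ 1 ∧ d ∣ p - 1 ∧
      Nat.card (centralizer ((P : Subgroup G) : Set G)) * d =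
        Nat.card (normalizer ((P : Subgroup G) : Set G)) ∧
      p ∣ Nat.card (centralizer ((P : Subgroup G) : Set G)) := by
  obtain ⟨hPc, -, -, hdvd, hmod, -, hfact, hNn, -⟩ := simple_sylow_facts hG (p := p)
    (k := 1) (m := m) (by rw [hN, pow_one]) hm one_ne_zero P
  rw [pow_one] at hPc
  obtain ⟨d, hd, hd1, hdr, -⟩ := simple_sylow_prime_card_NC hG P hPc
  have hcardN := card_centralizer_mul_relIndex_normalizer (P : Subgroup G)
  rw [← hd] at hcardN
  refine ⟨hPc, d, hdvd, hmod, hfact, hNn, hd1, hdr, hcardN, ?_⟩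
  have h0 := Subgroup.card_dvd_of_le (le_centralizer_of_card_prime (P : Subgroup G) p hPc)
  rwa [hPc] at h0

/-- If `q ∣ |C(P)|`, some Sylow `q`-subgroup lies in `C(P)` (Sylow subgroups of prime order). -/
theorem exists_sylow_le_centralizer {G : Type*} [Group G] [Finite G] (p q : ℕ) [Fact p.Prime]
    [Fact q.Prime] (P : Sylow p G) (Q₀ : Sylow q G) (hQ₀ : Nat.card (Q₀ : Subgroup G) = q)
    (hq : q ∣ Nat.card (centralizer ((P : Subgroup G) : Set G))) :
    ∃ Q : Sylow q G, (Q : Subgroup G) ≤ centralizer ((P : Subgroup G) : Set G) := by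
  obtain ⟨y, hyC, hy⟩ := exists_mem_orderOf_eq_prime _ q hq
  have hpg : IsPGroup q (zpowers y) := by
    apply IsPGroup.of_card (n := 1)
    rw [Nat.card_zpowers, hy, pow_one]
  obtain ⟨Q, hQ⟩ := hpg.exists_le_sylow
  have hQc : Nat.card (Q : Subgroup G) = q := (Cfsg.Agent.H73.sylow_card_eq Q Q₀).trans hQ₀
  have hQeq : (Q : Subgroup G) = zpowers y :=
    eq_zpowers_of_card_prime (Q : Subgroup G) hQc y (hQ (mem_zpowers y)) hy
  refine ⟨Q, ?_⟩
  rw [hQeq, zpowers_le]
  exact hyC

/-- (F3) If `q ∣ |C(P)|` then `p ∣ |C(Q)|` and `p ∣ |N(Q)|` for every Sylow `q`-subgroup `Q`. -/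
theorem f3 {G : Type*} [Group G] [Finite G] (p q : ℕ) [Fact p.Prime]
    [Fact q.Prime] (P : Sylow p G) (hP : Nat.card (P : Subgroup G) = p) (Q : Sylow q G)
    (hQ : Nat.card (Q : Subgroup G) = q)
    (hq : q ∣ Nat.card (centralizer ((P : Subgroup G) : Set G))) :
    p ∣ Nat.card (normalizer ((Q : Subgroup G) : Set G)) := by
  obtain ⟨Q', hQ'⟩ := exists_sylow_le_centralizer p q P Q hQ hq
  rw [card_normalizer_eq Q Q']
  have h1 : (P : Subgroup G) ≤ centralizer ((Q' : Subgroup G) : Set G) :=
    le_centralizer_iff.1 hQ'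
  have h2 := Subgroup.card_dvd_of_le (h1.trans (centralizer_le_normalizer _))
  rwa [hP] at h2

/-- If `N(P) ≤ M` then `|N(P)|` divides `|M|` and `|M| / |N(P)| ≡ 1 (mod p)`. -/
theorem card_div_mod_of_normalizer_le {G : Type*} [Group G] [Finite G] (p : ℕ) [Fact p.Prime]
    (P : Sylow p G) (M : Subgroup G) (hM : normalizer ((P : Subgroup G) : Set G) ≤ M) :
    Nat.card (normalizer ((P : Subgroup G) : Set G)) ∣ Nat.card M ∧
      (Nat.card M / Nat.card (normalizer ((P : Subgroup G) : Set G))) % p = 1 := by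
  have hp : p.Prime := Fact.out
  have hPM : (P : Subgroup G) ≤ M := le_normalizer.trans hM
  have h1 := Subgroup.card_mul_index (normalizer (((P.subtype hPM : Sylow p M) : Subgroup M) : Set M))
  have e1 : Nat.card (Sylow p M) =
      (normalizer (((P.subtype hPM : Sylow p M) : Subgroup M) : Set M)).index :=
    Sylow.card_eq_index_normalizer (P.subtype hPM)
  rw [← e1] at h1
  have h2 : Nat.card (normalizer (((P.subtype hPM : Sylow p M) : Subgroup M) : Set M)) =
      Nat.card (normalizer ((P : Subgroup G) : Set G)) := by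
    rw [Sylow.coe_subtype, ← subgroupOf_normalizer_eq hPM]
    exact Nat.card_congr (Subgroup.subgroupOfEquivOfLe hM).toEquiv
  rw [h2] at h1
  have hmod : Nat.card (Sylow p M) % p = 1 := by
    have h := card_sylow_modEq_one p M
    unfold Nat.ModEq at h
    rw [h, Nat.mod_eq_of_lt hp.one_lt]
  have hpos : 0 < Nat.card (normalizer ((P : Subgroup G) : Set G)) := Nat.card_pos
  refine ⟨⟨_, h1.symm⟩, ?_⟩
  rw [← h1, Nat.mul_div_cancel_left _ hpos]
  exact hmod

/-- If numerically the Sylow `q`-subgroup of `C(P)` is unique, then `N(P) ≤ N(Q)` for a Sylow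
`q`-subgroup `Q ≤ C(P)`. -/
theorem normalizer_le_normalizer_of_unique {G : Type*} [Group G] [Finite G] (p q : ℕ)
    [Fact p.Prime] [Fact q.Prime] (hpq : p ≠ q) (P : Sylow p G)
    (hP : Nat.card (P : Subgroup G) = p) (Q : Sylow q G) (hQ : Nat.card (Q : Subgroup G) = q)
    (hQC : (Q : Subgroup G) ≤ centralizer ((P : Subgroup G) : Set G))
    (hu : ∀ d : ℕ, d ∣ Nat.card (centralizer ((P : Subgroup G) : Set G)) / (p * q) →
      d % q = 1 → d = 1) :
    normalizer ((P : Subgroup G) : Set G) ≤ normalizer ((Q : Subgroup G) : Set G) := by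
  have hp : p.Prime := Fact.out
  have hq : q.Prime := Fact.out
  have hPK : (P : Subgroup G) ≤ centralizer ((P : Subgroup G) : Set G) :=
    le_centralizer_of_card_prime (P : Subgroup G) p hP
  -- the number of Sylow `q`-subgroups of `K = C(P)` is `1`
  obtain ⟨S, hScoe⟩ : ∃ S : Sylow q (centralizer ((P : Subgroup G) : Set G)),
      (S : Subgroup (centralizer ((P : Subgroup G) : Set G))) =
        (Q : Subgroup G).subgroupOf (centralizer ((P : Subgroup G) : Set G)) :=
    ⟨Q.subtype hQC, Sylow.coe_subtype ..⟩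
  have h1 := Subgroup.card_mul_index (normalizer ((S : Subgroup (centralizer
    ((P : Subgroup G) : Set G))) : Set (centralizer ((P : Subgroup G) : Set G))))
  have e1 : Nat.card (Sylow q (centralizer ((P : Subgroup G) : Set G))) =
      (normalizer ((S : Subgroup (centralizer
        ((P : Subgroup G) : Set G))) : Set (centralizer ((P : Subgroup G) : Set G)))).index :=
    Sylow.card_eq_index_normalizer S
  rw [← e1] at h1
  have hqd : q ∣ Nat.card (normalizer ((S : Subgroup (centralizer
      ((P : Subgroup G) : Set G))) : Set (centralizer ((P : Subgroup G) : Set G)))) := by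
    have hle : (S : Subgroup (centralizer ((P : Subgroup G) : Set G))) ≤
        normalizer ((S : Subgroup (centralizer
      ((P : Subgroup G) : Set G))) : Set (centralizer ((P : Subgroup G) : Set G))) :=
      le_normalizer
    have hc : Nat.card (S : Subgroup (centralizer ((P : Subgroup G) : Set G))) = q := by
      rw [hScoe, Nat.card_congr (Subgroup.subgroupOfEquivOfLe hQC).toEquiv, hQ]
    have h := Subgroup.card_dvd_of_le hle
    rwa [hc] at h
  have hpd : p ∣ Nat.card (normalizer ((S : Subgroup (centralizer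
      ((P : Subgroup G) : Set G))) : Set (centralizer ((P : Subgroup G) : Set G)))) := by
    have hle : (P : Subgroup G).subgroupOf (centralizer ((P : Subgroup G) : Set G)) ≤
        normalizer ((S : Subgroup (centralizer
      ((P : Subgroup G) : Set G))) : Set (centralizer ((P : Subgroup G) : Set G))) := by
      intro x hx
      rw [mem_subgroupOf] at hx
      rw [mem_normalizer_iff]
      intro t
      have hcomm : x * t * x⁻¹ = t := by
        have h := (mem_centralizer_iff.1 t.2) (x : G) hx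
        apply Subtype.ext
        simp only [Subgroup.coe_mul, Subgroup.coe_inv]
        rw [h, mul_inv_cancel_right]
      rw [hcomm]
    have h := Subgroup.card_dvd_of_le hle
    rwa [Nat.card_congr (Subgroup.subgroupOfEquivOfLe hPK).toEquiv, hP] at h
  have hpqd : p * q ∣ Nat.card (normalizer ((S : Subgroup (centralizer
      ((P : Subgroup G) : Set G))) : Set (centralizer ((P : Subgroup G) : Set G)))) :=
    Nat.Coprime.mul_dvd_of_dvd_of_dvd ((Nat.coprime_primes hp hq).2 hpq) hpd hqd
  have hn1 : Nat.card (Sylow q (centralizer ((P : Subgroup G) : Set G))) = 1 := by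
    apply hu
    · obtain ⟨c, hc⟩ := hpqd
      rw [hc] at h1
      rw [← h1]
      refine ⟨c, ?_⟩
      rw [mul_assoc, Nat.mul_div_cancel_left _ (Nat.mul_pos hp.pos hq.pos)]
      ring
    · have h := card_sylow_modEq_one q (centralizer ((P : Subgroup G) : Set G))
      unfold Nat.ModEq at h
      rw [h, Nat.mod_eq_of_lt hq.one_lt]
  have hsub : Subsingleton (Sylow q (centralizer ((P : Subgroup G) : Set G))) :=
    (Nat.card_eq_one_iff_unique.1 hn1).1
  intro g hg
  have hiff : g • Q = Q ↔ g ∈ normalizer ((Q : Subgroup G) : Set G) :=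
    Sylow.smul_eq_iff_mem_normalizer
  rw [← hiff]
  have hgK : ((g • Q : Sylow q G) : Subgroup G) ≤ centralizer ((P : Subgroup G) : Set G) := by
    intro x hx
    rw [Cfsg.Agent.H73.sylow_mem_smul_iff] at hx
    rw [mem_centralizer_iff]
    intro t ht
    have ht' : g⁻¹ * t * g ∈ (P : Subgroup G) := by
      have h2 := (mem_normalizer_iff.1 (inv_mem hg) t).1 ht
      simpa using h2
    have h3 := (mem_centralizer_iff.1 (hQC hx)) (g⁻¹ * t * g) ht'
    calc t * x = g * ((g⁻¹ * t * g) * (g⁻¹ * x * g)) * g⁻¹ := by group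
      _ = g * ((g⁻¹ * x * g) * (g⁻¹ * t * g)) * g⁻¹ := by rw [h3]
      _ = x * t := by group
  have heq : ((g • Q : Sylow q G).subtype hgK : Sylow q (centralizer ((P : Subgroup G) : Set G)))
      = S := Subsingleton.elim _ _
  have heq' := congrArg (fun S : Sylow q (centralizer ((P : Subgroup G) : Set G)) =>
    (S : Subgroup (centralizer ((P : Subgroup G) : Set G)))) heq
  simp only [Sylow.coe_subtype] at heq'
  rw [hScoe] at heq'
  rw [subgroupOf_inj, inf_eq_left.2 hgK, inf_eq_left.2 hQC] at heq'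
  exact Sylow.ext heq'

/-- (F4) If the Sylow `q`-subgroup `Q` of `C(P)` is unique then `|N(P)|` divides `|N(Q)|` and
`|N(Q)| / |N(P)| ≡ 1 (mod p)`; stated for an arbitrary Sylow `q`-subgroup `Q₀`. -/
theorem f4 {G : Type*} [Group G] [Finite G] (p q : ℕ)
    [Fact p.Prime] [Fact q.Prime] (hpq : p ≠ q) (P : Sylow p G)
    (hP : Nat.card (P : Subgroup G) = p) (Q₀ : Sylow q G) (hQ₀ : Nat.card (Q₀ : Subgroup G) = q)
    (hq : q ∣ Nat.card (centralizer ((P : Subgroup G) : Set G)))
    (hu : ∀ d : ℕ, d ∣ Nat.card (centralizer ((P : Subgroup G) : Set G)) / (p * q) →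
      d % q = 1 → d = 1) :
    Nat.card (normalizer ((P : Subgroup G) : Set G)) ∣
        Nat.card (normalizer ((Q₀ : Subgroup G) : Set G)) ∧
      (Nat.card (normalizer ((Q₀ : Subgroup G) : Set G)) /
        Nat.card (normalizer ((P : Subgroup G) : Set G))) % p = 1 := by
  obtain ⟨Q, hQC⟩ := exists_sylow_le_centralizer p q P Q₀ hQ₀ hq
  have hQc : Nat.card (Q : Subgroup G) = q := (Cfsg.Agent.H73.sylow_card_eq Q Q₀).trans hQ₀
  have hle := normalizer_le_normalizer_of_unique p q hpq P hP Q hQc hQC hu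
  rw [card_normalizer_eq Q₀ Q]
  exact card_div_mod_of_normalizer_le p P _ hle

/-- If `r ∣ |C(P)|` (`r ≠ p` prime, `|P| = p`), there are at least `n_p (p - 1) (r - 1)` elements
of order `p r`. -/
theorem card_orderOf_mul_ge {G : Type*} [Group G] [Finite G] (p r : ℕ) [Fact p.Prime]
    [Fact r.Prime] (hpr : p ≠ r) (P : Sylow p G) (hP : Nat.card (P : Subgroup G) = p)
    (hr : r ∣ Nat.card (centralizer ((P : Subgroup G) : Set G))) :
    Nat.card (Sylow p G) * (p - 1) * (r - 1) ≤ Nat.card {g : G // orderOf g = p * r} := by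
  classical
  have hp : p.Prime := Fact.out
  have hrp : r.Prime := Fact.out
  have hcop : Nat.Coprime p r := (Nat.coprime_primes hp hrp).2 hpr
  obtain ⟨y, hyC, hy⟩ := exists_mem_orderOf_eq_prime _ r hr
  -- for each `h` of order `p` an element of order `r` commuting with it
  have hex : ∀ h : {g : G // orderOf g = p}, ∃ z : G, orderOf z = r ∧ Commute (h : G) z := by
    rintro ⟨h, hh⟩
    obtain ⟨c, hc⟩ := Cfsg.Agent.S1018.exists_conj_mem_sylow' P h hh
    refine ⟨c⁻¹ * y * c, ?_, ?_⟩
    · have := Cfsg.Agent.S1018.orderOf_conj_eq c⁻¹ y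
      rw [inv_inv] at this
      rw [this, hy]
    · have h1 := (mem_centralizer_iff.1 hyC) (c * h * c⁻¹) hc
      show h * (c⁻¹ * y * c) = c⁻¹ * y * c * h
      calc h * (c⁻¹ * y * c) = c⁻¹ * ((c * h * c⁻¹) * y) * c := by group
        _ = c⁻¹ * (y * (c * h * c⁻¹)) * c := by rw [h1]
        _ = c⁻¹ * y * c * h := by group
  choose z hz hzc using hex
  have hr2 : 2 ≤ r := hrp.two_le
  -- the map
  have hord : ∀ (h : {g : G // orderOf g = p}) (i : Fin (r - 1)),
      orderOf ((h : G) * z h ^ ((i : ℕ) + 1)) = p * r := by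
    intro h i
    have hi : (i : ℕ) + 1 < r := by have := i.2; omega
    have hzi : orderOf (z h ^ ((i : ℕ) + 1)) = r := by
      rw [orderOf_pow' _ (by omega), hz h]
      have hg : Nat.gcd r ((i : ℕ) + 1) = 1 := by
        exact (Nat.Prime.coprime_iff_not_dvd hrp).2 (Nat.not_dvd_of_pos_of_lt (by omega) hi)
      rw [hg, Nat.div_one]
    have hc : Commute (h : G) (z h ^ ((i : ℕ) + 1)) := (hzc h).pow_right _
    have := hc.orderOf_mul_eq_mul_orderOf_of_coprime (by rw [h.2, hzi]; exact hcop)
    rw [this, h.2, hzi]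
  let f : {g : G // orderOf g = p} × Fin (r - 1) → {g : G // orderOf g = p * r} :=
    fun x => ⟨(x.1 : G) * z x.1 ^ ((x.2 : ℕ) + 1), hord x.1 x.2⟩
  have hf : Function.Injective f := by
    rintro ⟨h, i⟩ ⟨h', i'⟩ heq
    have heq' : (h : G) * z h ^ ((i : ℕ) + 1) = (h' : G) * z h' ^ ((i' : ℕ) + 1) :=
      congrArg Subtype.val heq
    -- r-th powers
    have hpow : ∀ (h : {g : G // orderOf g = p}) (i : Fin (r - 1)),
        ((h : G) * z h ^ ((i : ℕ) + 1)) ^ r = (h : G) ^ r := by
      intro h i
      have hc : Commute (h : G) (z h ^ ((i : ℕ) + 1)) := (hzc h).pow_right _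
      rw [hc.mul_pow, ← pow_mul, mul_comm, pow_mul]
      have : z h ^ r = 1 := by rw [← hz h]; exact pow_orderOf_eq_one _
      rw [this, one_pow, mul_one]
    have hhr : (h : G) ^ r = (h' : G) ^ r := by
      rw [← hpow h i, ← hpow h' i', heq']
    obtain ⟨a, -, ha⟩ := Nat.exists_mul_mod_eq_one_of_coprime hcop.symm hp.one_lt
    have hrec : ∀ h : {g : G // orderOf g = p}, ((h : G) ^ r) ^ a = (h : G) := by
      intro h
      rw [← pow_mul, ← pow_mod_orderOf, h.2, ha, pow_one]
    have hh : (h : G) = (h' : G) := by rw [← hrec h, ← hrec h', hhr]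
    have hh' : h = h' := Subtype.ext hh
    subst hh'
    have hz' : z h ^ ((i : ℕ) + 1) = z h ^ ((i' : ℕ) + 1) := mul_left_cancel heq'
    have hi : (i : ℕ) + 1 < orderOf (z h) := by rw [hz h]; have := i.2; omega
    have hi' : (i' : ℕ) + 1 < orderOf (z h) := by rw [hz h]; have := i'.2; omega
    have := pow_injOn_Iio_orderOf hi hi' hz'
    have hii : i = i' := Fin.ext (by omega)
    rw [hii]
  have hcard := Nat.card_le_card_of_injective f hf
  rw [Nat.card_prod, card_orderOf_eq_prime p P hP, Nat.card_fin] at hcard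
  exact hcard

/-- Packaged numerical Sylow data, ready for `decide`-style candidate lemmas. `q` is a prime
dividing `2 |G|` (used for the embedding bound `q ≤ n_p`). -/
theorem pack {G : Type*} [Group G] [Finite G] [IsSimpleGroup G]
    (hG : ¬ IsMulCommutative G) (N : ℕ) (h : Nat.card G = N) (p m q : ℕ) [Fact p.Prime]
    (hN : N = p * m) (hm : ¬ p ∣ m) (hq : q.Prime) (hqN : q ∣ 2 * N) (P : Sylow p G) :
    Nat.card (P : Subgroup G) = p ∧
    ∃ n d cN cC : ℕ, n = Nat.card (Sylow p G) ∧
      cN = Nat.card (normalizer ((P : Subgroup G) : Set G)) ∧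
      cC = Nat.card (centralizer ((P : Subgroup G) : Set G)) ∧
      n ∈ Nat.divisors m ∧ d ∈ Nat.divisors (p - 1) ∧ n % p = 1 ∧ q ≤ n ∧ d ≠ 1 ∧
      p * d * n ∣ N ∧ cN * n = N ∧ cC * d = cN := by
  have hp : p.Prime := Fact.out
  obtain ⟨hPc, d, hdvd, hmod, hfact, hNn, hd1, hdr, hcardN, hpC⟩ :=
    sylow_data hG p m (h.trans hN) hm P
  refine ⟨hPc, _, d, _, _, rfl, rfl, rfl, ?_, ?_, hmod, ?_, hd1, ?_, ?_, hcardN⟩
  · refine Nat.mem_divisors.2 ⟨hdvd, ?_⟩
    rintro rfl
    exact hm (dvd_zero p)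
  · refine Nat.mem_divisors.2 ⟨hdr, ?_⟩
    have := hp.two_le
    omega
  · rw [h] at hfact
    exact (Nat.Prime.dvd_factorial hq).1 (hqN.trans hfact)
  · obtain ⟨c, hc⟩ := hpC
    rw [h] at hNn
    rw [← hNn, ← hcardN, hc]
    exact ⟨c, by ring⟩
  · rw [← h]; exact hNn

/-- The numbers of elements of the orders in a duplicate-free list add up to at most `|G|`. -/
theorem list_sum_card_orderOf_le {G : Type*} [Group G] [Finite G] (l : List ℕ) (hl : l.Nodup) :
    (l.map (fun a => Nat.card {g : G // orderOf g = a})).sum ≤ Nat.card G := by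
  classical
  have h := sum_card_orderOf_le (G := G) l.toFinset
  rwa [List.sum_toFinset _ hl] at h

end Cfsg.Agent.H73.OrdTools
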