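import Mathlib
import Cfsg.Agent.S0989

set_option autoImplicit false

namespace Cfsg.Agent.H73.A150

open Equiv Equiv.Perm

/-- S4150-SYLQ. -/
theorem sylow_count_prime_degree {α : Type*} [Fintype α] [DecidableEq α] (G : Subgroup (Perm α))
    {q : ℕ} (hq : q.Prime) (hcard : Fintype.card α = q) [MulAction.IsPretransitive G α] :
    ∃ f n : ℕ, f ∣ q - 1 ∧ Nat.card G = q * f * n ∧ n % q = 1 := by
  have : Fact q.Prime := ⟨hq⟩
  have hne : Nonempty α := by
    rw [← Fintype.card_pos_iff, hcard]; exact hq.pos
  obtain ⟨a⟩ := hne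
  -- `q ∣ |G|`
  have hqG : q ∣ Nat.card G := by
    have h1 := MulAction.index_stabilizer_of_transitive G a
    rw [Nat.card_eq_fintype_card, hcard] at h1
    rw [← h1]; exact Subgroup.index_dvd_card _
  -- `q ^ 2 ∤ q !`
  have hq2 : ¬ q ^ 2 ∣ Nat.card (Perm α) := by
    rw [Nat.card_eq_fintype_card, Fintype.card_perm, hcard]
    intro h
    have hfac : q.factorial = q * (q - 1).factorial := by
      have := Nat.factorial_succ (q - 1)
      rwa [Nat.sub_add_cancel hq.pos] at this
    rw [hfac, pow_two] at h
    have h2 : q ∣ (q - 1).factorial := Nat.dvd_of_mul_dvd_mul_left hq.pos h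
    have h3 := (Nat.Prime.dvd_factorial hq).mp h2
    have := hq.pos
    omega
  obtain ⟨S⟩ := (inferInstance : Nonempty (Sylow q G))
  have hSq : q ∣ Nat.card S := S.dvd_card_of_dvd_card hqG
  -- the image of `S` in `Perm α` and a Sylow subgroup containing it
  have hS'p : IsPGroup q ↥((S : Subgroup G).map G.subtype) := S.isPGroup'.map _
  obtain ⟨P, hP⟩ := hS'p.exists_le_sylow
  have hcardS' : Nat.card ((S : Subgroup G).map G.subtype) = Nat.card S :=
    Subgroup.card_map_of_injective G.subtype_injective
  have hPcard : Nat.card P = q := by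
    obtain ⟨k, hk⟩ := IsPGroup.iff_card.mp P.isPGroup'
    have hk1 : k ≤ 1 := by
      by_contra hcon
      apply hq2
      have : q ^ 2 ∣ q ^ k := pow_dvd_pow q (by omega)
      exact this.trans (hk ▸ Subgroup.card_subgroup_dvd_card (P : Subgroup (Perm α)))
    have hk0 : k ≠ 0 := by
      intro h0
      rw [h0, pow_zero] at hk
      have h1 : Nat.card ((S : Subgroup G).map G.subtype) ∣ Nat.card P :=
        Subgroup.card_dvd_of_le hP
      rw [hcardS', hk] at h1
      have := hSq.trans h1
      exact hq.one_lt.ne' (Nat.dvd_one.mp this)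
    have : k = 1 := by omega
    rw [hk, this, pow_one]
  have hScard : Nat.card S = q := by
    have h1 : Nat.card ((S : Subgroup G).map G.subtype) ∣ Nat.card P :=
      Subgroup.card_dvd_of_le hP
    rw [hcardS', hPcard] at h1
    rcases (Nat.dvd_prime hq).mp h1 with h | h
    · rw [h] at hSq
      exact absurd (Nat.dvd_one.mp hSq) hq.one_lt.ne'
    · exact h
  have hPeq : (S : Subgroup G).map G.subtype = (P : Subgroup (Perm α)) :=
    Subgroup.eq_of_le_of_card_ge hP (by rw [hcardS', hScard, hPcard])
  have hNP := Cfsg.Agent.S0989.result q (Or.inl hcard) P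
  -- the normalizer of `S` in `G`
  have hNle : (Subgroup.normalizer ((S : Subgroup G) : Set G)).map G.subtype ≤
      Subgroup.normalizer ((P : Subgroup (Perm α)) : Set (Perm α)) := by
    have := Subgroup.le_normalizer_map (H := (S : Subgroup G)) G.subtype
    rw [hPeq] at this
    exact this
  have hNdvd : Nat.card (Subgroup.normalizer ((S : Subgroup G) : Set G)) ∣ q * (q - 1) := by
    rw [← hNP, ← Subgroup.card_map_of_injective G.subtype_injective]
    exact Subgroup.card_dvd_of_le hNle
  have hqN : q ∣ Nat.card (Subgroup.normalizer ((S : Subgroup G) : Set G)) := by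
    have h1 : Nat.card (S : Subgroup G) ∣
        Nat.card (Subgroup.normalizer ((S : Subgroup G) : Set G)) :=
      Subgroup.card_dvd_of_le Subgroup.le_normalizer
    rwa [hScard] at h1
  obtain ⟨f, hf⟩ := hqN
  refine ⟨f, Nat.card (Sylow q G), ?_, ?_, ?_⟩
  · rw [hf] at hNdvd
    exact Nat.dvd_of_mul_dvd_mul_left hq.pos hNdvd
  · rw [← hf, S.card_eq_index_normalizer]
    exact (Subgroup.card_mul_index _).symm
  · have h := card_sylow_modEq_one q G
    have h1 : Nat.card (Sylow q G) % q = 1 % q := h
    rw [h1]; exact Nat.mod_eq_of_lt hq.one_lt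

example {α : Type*} [Fintype α] [DecidableEq α] (G : Subgroup (Perm α))
    {q : ℕ} (hq : q.Prime) (hcard : Fintype.card α = q) [MulAction.IsPretransitive G α] :
    ∃ f n : ℕ, f ∣ q - 1 ∧ Nat.card G = q * f * n ∧ n % q = 1 :=
  sylow_count_prime_degree G hq hcard

end Cfsg.Agent.H73.A150
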