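import Mathlib

set_option autoImplicit false

namespace Cfsg.Agent.H73.A150

open Equiv Equiv.Perm

/-- S4150-TRANS (1). -/
theorem isPretransitive_of_two_cycles {α : Type*} [Fintype α] [DecidableEq α] {σ τ : Perm α}
    (hσ : σ.IsCycle) (hτ : τ.IsCycle) (hcov : σ.support ∪ τ.support = Finset.univ)
    (hmeet : ¬ Disjoint σ.support τ.support) :
    MulAction.IsPretransitive (Subgroup.closure ({σ, τ} : Set (Perm α))) α := by
  rw [Finset.not_disjoint_iff] at hmeet
  obtain ⟨c, hcσ, hcτ⟩ := hmeet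
  rw [Equiv.Perm.mem_support] at hcσ hcτ
  have hσK : σ ∈ Subgroup.closure ({σ, τ} : Set (Perm α)) :=
    Subgroup.subset_closure (by simp)
  have hτK : τ ∈ Subgroup.closure ({σ, τ} : Set (Perm α)) :=
    Subgroup.subset_closure (by simp)
  rw [MulAction.isPretransitive_iff_base c]
  intro ω
  have hω : ω ∈ σ.support ∪ τ.support := hcov ▸ Finset.mem_univ ω
  rw [Finset.mem_union, Equiv.Perm.mem_support, Equiv.Perm.mem_support] at hω
  rcases hω with h | h
  · obtain ⟨i, hi⟩ := hσ.exists_zpow_eq hcσ h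
    exact ⟨⟨σ ^ i, Subgroup.zpow_mem _ hσK i⟩, hi⟩
  · obtain ⟨i, hi⟩ := hτ.exists_zpow_eq hcτ h
    exact ⟨⟨τ ^ i, Subgroup.zpow_mem _ hτK i⟩, hi⟩

/-- the cycles of a fixed-point-free permutation of prime order `p` have `p` points -/
theorem card_sameCycle {α : Type*} [Fintype α] [DecidableEq α] {σ : Perm α} {p : ℕ}
    (hp : p.Prime) (hσ : orderOf σ = p) (a : α) (ha : σ a ≠ a) :
    (Finset.univ.filter (fun ω => σ.SameCycle a ω)).card = p := by
  have hcyc := Equiv.Perm.isCycle_cycleOf σ ha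
  have h1 : orderOf (σ.cycleOf a) ∣ p := hσ ▸ Equiv.Perm.orderOf_cycleOf_dvd_orderOf σ a
  have h2 : orderOf (σ.cycleOf a) ≠ 1 := by
    intro h
    rw [orderOf_eq_one_iff] at h
    have := Equiv.Perm.cycleOf_apply_self σ a
    rw [h] at this
    exact ha this.symm
  have h3 : orderOf (σ.cycleOf a) = p := ((Nat.dvd_prime hp).mp h1).resolve_left h2
  rw [hcyc.orderOf] at h3
  rw [← h3]
  congr 1
  ext ω
  simp only [Finset.mem_filter, Finset.mem_univ, true_and]
  exact (Equiv.Perm.mem_support_cycleOf_iff' ha).symm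

/-- S4150-TRANS (2). -/
theorem isPretransitive_of_fpf {α : Type*} [Fintype α] [DecidableEq α] {σ τ : Perm α} {p q : ℕ}
    (hp : p.Prime) (hσ : orderOf σ = p) (hσs : σ.support = Finset.univ)
    (hcard : Fintype.card α = 2 * p) (hτ : τ.IsCycle) (hτq : τ.support.card = q) (hpq : p < q) :
    MulAction.IsPretransitive (Subgroup.closure ({σ, τ} : Set (Perm α))) α := by
  have hσK : σ ∈ Subgroup.closure ({σ, τ} : Set (Perm α)) :=
    Subgroup.subset_closure (by simp)
  have hτK : τ ∈ Subgroup.closure ({σ, τ} : Set (Perm α)) :=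
    Subgroup.subset_closure (by simp)
  have hfix : ∀ a : α, σ a ≠ a := by
    intro a
    rw [← Equiv.Perm.mem_support, hσs]; exact Finset.mem_univ a
  obtain ⟨c, hc⟩ : ∃ c, τ c ≠ c := by
    obtain ⟨c, hc, -⟩ := hτ
    exact ⟨c, hc⟩
  rw [MulAction.isPretransitive_iff_base c]
  by_contra hcon
  push Not at hcon
  obtain ⟨b, hb⟩ := hcon
  have hsub : τ.support ⊆ Finset.univ.filter (fun ω => ¬ σ.SameCycle b ω) := by
    intro ω hω
    rw [Equiv.Perm.mem_support] at hω
    simp only [Finset.mem_filter, Finset.mem_univ, true_and]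
    intro hsc
    obtain ⟨i, hi⟩ := hτ.exists_zpow_eq hc hω
    obtain ⟨j, hj⟩ := hsc.symm
    apply hb ⟨σ ^ j * τ ^ i, Subgroup.mul_mem _ (Subgroup.zpow_mem _ hσK j)
      (Subgroup.zpow_mem _ hτK i)⟩
    show (σ ^ j * τ ^ i) c = b
    rw [Equiv.Perm.mul_apply, hi, hj]
  have hcompl : (Finset.univ.filter (fun ω => ¬ σ.SameCycle b ω)).card = p := by
    have h := Finset.card_filter_add_card_filter_not (s := (Finset.univ : Finset α))
      (fun ω => σ.SameCycle b ω)
    rw [card_sameCycle hp hσ b (hfix b), Finset.card_univ, hcard] at h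
    omega
  have := Finset.card_le_card hsub
  rw [hτq, hcompl] at this
  omega

example {α : Type*} [Fintype α] [DecidableEq α] {σ τ : Perm α}
    (hσ : σ.IsCycle) (hτ : τ.IsCycle) (hcov : σ.support ∪ τ.support = Finset.univ)
    (hmeet : ¬ Disjoint σ.support τ.support) :
    MulAction.IsPretransitive (Subgroup.closure ({σ, τ} : Set (Perm α))) α :=
  isPretransitive_of_two_cycles hσ hτ hcov hmeet

example {α : Type*} [Fintype α] [DecidableEq α] {σ τ : Perm α} {p q : ℕ}
    (hp : p.Prime) (hσ : orderOf σ = p) (hσs : σ.support = Finset.univ)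
    (hcard : Fintype.card α = 2 * p) (hτ : τ.IsCycle) (hτq : τ.support.card = q) (hpq : p < q) :
    MulAction.IsPretransitive (Subgroup.closure ({σ, τ} : Set (Perm α))) α :=
  isPretransitive_of_fpf hp hσ hσs hcard hτ hτq hpq

end Cfsg.Agent.H73.A150
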