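import Mathlib
import Cfsg.Agent.H7.RVDefs
/-!
S3626 team project (helper7), piece RV-CARD: `M_k` is finite of order `> k`.
-/
set_option autoImplicit false

namespace Cfsg.Agent.H73.RV

open Matrix Cfsg.Agent.H7.RV

open scoped MatrixGroups

/-- (CARD) -/
theorem card : StCard := by
  intro F _ _ _ k
  have hN : Finite (Multiplicative (Fin k → Matrix (Fin 2) (Fin 2) F)) :=
    inferInstanceAs (Finite (Fin k → Matrix (Fin 2) (Fin 2) F))
  have hSL : Finite (SL(2, F)) :=
    Finite.of_injective (fun g : SL(2, F) => (g : Matrix (Fin 2) (Fin 2) F))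
      Subtype.val_injective
  have hQ : Finite ↥(linGrp F k) :=
    Finite.of_surjective (act F k).rangeRestrict (act F k).rangeRestrict_surjective
  have hfin : Finite (Mk F k) := Finite.of_equiv _ (SemidirectProduct.equivProd).symm
  refine ⟨hfin, ?_⟩
  rw [SemidirectProduct.card]
  have h1 : Nat.card (Multiplicative (Fin k → Matrix (Fin 2) (Fin 2) F)) =
      Nat.card (Matrix (Fin 2) (Fin 2) F) ^ k := by
    show Nat.card (Fin k → Matrix (Fin 2) (Fin 2) F) = _
    rw [Nat.card_fun, Nat.card_fin]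
  have h2 : 1 < Nat.card (Matrix (Fin 2) (Fin 2) F) := Finite.one_lt_card
  have h3 : k < Nat.card (Matrix (Fin 2) (Fin 2) F) ^ k :=
    lt_of_lt_of_le (Nat.lt_two_pow_self) (Nat.pow_le_pow_left h2 k)
  have h4 : 0 < Nat.card ↥(linGrp F k) := Nat.card_pos
  rw [h1]
  exact lt_of_lt_of_le h3 (Nat.le_mul_of_pos_right _ h4)

example : StCard := card

end Cfsg.Agent.H73.RV
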