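import Mathlib
import Cfsg.Agent.H7.RVDefs
/-!
S3626 team project (helper7), piece RV-EX6: `M_k` has an element of order 6.
-/
set_option autoImplicit false

namespace Cfsg.Agent.H73.RV

open Matrix Cfsg.Agent.H7.RV

open scoped MatrixGroups

section

variable (F : Type) [Field F] [CharP F 3]

theorem three_eq_zero : (3 : F) = 0 := by
  have h : ((3 : ℕ) : F) = 0 := CharP.cast_eq_zero F 3
  exact_mod_cast h

/-- the transvection `!![1, 1; 0, 1]` -/
noncomputable def uEl : SL(2, F) := ⟨!![1, 1; 0, 1], by simp [Matrix.det_fin_two]⟩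

theorem uEl_val : ((uEl F : SL(2, F)) : Matrix (Fin 2) (Fin 2) F) = !![1, 1; 0, 1] := rfl

theorem uEl_cube : uEl F ^ 3 = 1 := by
  have h3 := three_eq_zero F
  apply Subtype.ext
  rw [pow_succ, pow_two]
  simp only [Matrix.SpecialLinearGroup.coe_mul, uEl_val, Matrix.SpecialLinearGroup.coe_one]
  ext i j
  fin_cases i <;> fin_cases j <;> simp [Matrix.mul_apply, Fin.sum_univ_two]
  linear_combination h3

theorem tw_uEl : ((tw F (uEl F) : SL(2, F)) : Matrix (Fin 2) (Fin 2) F) = !![1, 1; 0, 1] := by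
  ext i j
  rw [tw_apply, uEl_val]
  fin_cases i <;> fin_cases j <;> simp

theorem actFun_uu (h3 : (3 : F) = 0) :
    actFun F (1, uEl F * uEl F) !![0, 0; 0, 1] 0 0 = 1 := by
  simp [actFun_def, map_mul, Matrix.SpecialLinearGroup.coe_mul, uEl_val, tw_uEl]
  simp [Matrix.vecMul, dotProduct, Fin.sum_univ_two]
  linear_combination h3

theorem mkEl_one (k : ℕ) : mkEl F k 0 1 = 1 := by
  refine SemidirectProduct.ext rfl (Subtype.ext ?_)
  show act F k 1 = 1
  exact map_one _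

theorem mkEl_zero_pow (k : ℕ) (p : ℤˣ × SL(2, F)) (n : ℕ) :
    mkEl F k 0 p ^ n = mkEl F k 0 (p ^ n) := by
  induction n with
  | zero => rw [pow_zero, pow_zero, mkEl_one]
  | succ n ih =>
    rw [pow_succ, ih, mkEl_mul, pow_succ]
    congr 1
    funext i
    simp [actFun_zero]

/-- if `mkEl 0 p = 1` then `p` acts trivially -/
theorem actFun_eq_of_mkEl_eq_one (k : ℕ) (hk : 1 ≤ k) (p : ℤˣ × SL(2, F))
    (T : Fin k → Matrix (Fin 2) (Fin 2) F) (h : mkEl F k T p = 1)
    (X : Matrix (Fin 2) (Fin 2) F) : actFun F p X = X := by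
  have h1 : ((mkEl F k T p).right : MulAut (Multiplicative (Fin k → Matrix (Fin 2) (Fin 2) F)))
      = 1 := by
    rw [h]
    rfl
  rw [mkEl_right] at h1
  have h2 := congrArg (fun a : MulAut (Multiplicative (Fin k → Matrix (Fin 2) (Fin 2) F)) =>
    Multiplicative.toAdd (a (Multiplicative.ofAdd (fun _ => X))) ⟨0, hk⟩) h1
  exact h2

end

/-- (EX6) -/
theorem ex6 : StEx6 := by
  intro F _ _ k hk
  have h3 := three_eq_zero F
  refine ⟨mkEl F k 0 (-1, uEl F), ?_⟩
  have hx6 : mkEl F k 0 (-1, uEl F) ^ 6 = 1 := by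
    rw [mkEl_zero_pow]
    have hp : ((-1 : ℤˣ), uEl F) ^ 6 = 1 := by
      apply Prod.ext
      · show (-1 : ℤˣ) ^ 6 = 1
        decide
      · show uEl F ^ 6 = 1
        rw [show 6 = 3 * 2 from rfl, pow_mul, uEl_cube, one_pow]
    rw [hp, mkEl_one]
  have hx2 : mkEl F k 0 (-1, uEl F) ^ 2 ≠ 1 := by
    intro h
    rw [mkEl_zero_pow] at h
    have hE := actFun_eq_of_mkEl_eq_one F k hk _ _ h !![0, 0; 0, 1]
    have h00 := congrFun (congrFun hE 0) 0
    have hp : ((-1 : ℤˣ), uEl F) ^ 2 = (1, uEl F * uEl F) := by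
      apply Prod.ext
      · show (-1 : ℤˣ) ^ 2 = 1
        decide
      · show uEl F ^ 2 = uEl F * uEl F
        rw [pow_two]
    rw [hp, actFun_uu F h3] at h00
    simp at h00
  have hx3 : mkEl F k 0 (-1, uEl F) ^ 3 ≠ 1 := by
    intro h
    rw [mkEl_zero_pow] at h
    have hE := actFun_eq_of_mkEl_eq_one F k hk _ _ h !![0, 0; 0, 1]
    have h11 := congrFun (congrFun hE 1) 1
    have hp : ((-1 : ℤˣ), uEl F) ^ 3 = (-1, 1) := by
      apply Prod.ext
      · show (-1 : ℤˣ) ^ 3 = -1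
        decide
      · show uEl F ^ 3 = 1
        exact uEl_cube F
    rw [hp, actFun_neg] at h11
    simp at h11
    exact one_ne_zero (by linear_combination h3 + h11)
  have hd : orderOf (mkEl F k 0 (-1, uEl F)) ∣ 6 := orderOf_dvd_of_pow_eq_one hx6
  have hle : orderOf (mkEl F k 0 (-1, uEl F)) ≤ 6 := Nat.le_of_dvd (by norm_num) hd
  have h2' : ¬ orderOf (mkEl F k 0 (-1, uEl F)) ∣ 2 :=
    fun h => hx2 (orderOf_dvd_iff_pow_eq_one.mp h)
  have h3' : ¬ orderOf (mkEl F k 0 (-1, uEl F)) ∣ 3 :=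
    fun h => hx3 (orderOf_dvd_iff_pow_eq_one.mp h)
  interval_cases h : orderOf (mkEl F k 0 (-1, uEl F)) <;> omega

example : StEx6 := ex6

end Cfsg.Agent.H73.RV
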