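import Mathlib
import Cfsg.Agent.H7.RVDefs
import Cfsg.Agent.H73.RVEx6
/-!
S3626 team project (helper7), piece RV-EX9: `M_k` has an element of order 9.
-/
set_option autoImplicit false

namespace Cfsg.Agent.H73.RV

open Matrix Cfsg.Agent.H7.RV

open scoped MatrixGroups

theorem actFun_u (F : Type) [Field F] [CharP F 3] :
    actFun F (1, uEl F) !![0, 0; 0, 1] 0 0 = 1 := by
  simp [actFun_def, uEl_val, tw_uEl]
  simp [Matrix.vecMul, dotProduct, Fin.sum_univ_two]

/-- (EX9) -/
theorem ex9 : StEx9 := by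
  intro F _ _ k hk
  have h3 := three_eq_zero F
  have hP : ((1 : ℤˣ), uEl F) * (1, uEl F) * (1, uEl F) = 1 := by
    apply Prod.ext
    · show (1 : ℤˣ) * 1 * 1 = 1
      simp
    · show uEl F * uEl F * uEl F = 1
      rw [← pow_two, ← pow_succ]
      exact uEl_cube F
  have hPP : ((1 : ℤˣ), uEl F) * (1, uEl F) = (1, uEl F * uEl F) := by
    apply Prod.ext
    · show (1 : ℤˣ) * 1 = 1
      simp
    · rfl
  obtain ⟨S, hS⟩ : ∃ S : Matrix (Fin 2) (Fin 2) F, S = !![0, 0; 0, 1] +
      actFun F (1, uEl F) !![0, 0; 0, 1] + actFun F (1, uEl F * uEl F) !![0, 0; 0, 1] := ⟨_, rfl⟩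
  have hS00 : S 0 0 = 2 := by
    rw [hS, Matrix.add_apply, Matrix.add_apply, actFun_u, actFun_uu F h3]
    simp
    norm_num
  have hx3 : mkEl F k (fun _ => !![0, 0; 0, 1]) (1, uEl F) ^ 3 = mkEl F k (fun _ => S) 1 := by
    rw [pow_succ, pow_two, mkEl_mul, mkEl_mul, hP, hPP, hS]
  have hx3ne : mkEl F k (fun _ => !![0, 0; 0, 1]) (1, uEl F) ^ 3 ≠ 1 := by
    rw [hx3]
    intro h
    have h1 : (mkEl F k (fun _ => S) 1).left = 1 := by
      rw [h]
      rfl
    rw [mkEl_left] at h1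
    have h2 := congrArg (fun v : Multiplicative (Fin k → Matrix (Fin 2) (Fin 2) F) =>
      Multiplicative.toAdd v ⟨0, hk⟩ 0 0) h1
    have h4 : S 0 0 = 0 := h2
    rw [hS00] at h4
    exact one_ne_zero (by linear_combination h3 - h4)
  have hx9 : (mkEl F k (fun _ => !![0, 0; 0, 1]) (1, uEl F) ^ 3) ^ 3 = 1 := by
    rw [hx3, pow_succ, pow_two, mkEl_mul, mkEl_mul]
    refine SemidirectProduct.ext ?_ (Subtype.ext ?_)
    · show Multiplicative.ofAdd (fun i : Fin k => S + actFun F 1 S + actFun F (1 * 1) S) = 1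
      apply Multiplicative.toAdd.injective
      funext i
      show S + actFun F 1 S + actFun F (1 * 1) S = 0
      rw [one_mul, actFun_one]
      ext a b
      simp only [Matrix.add_apply, Matrix.zero_apply]
      linear_combination (S a b) * h3
    · show act F k (1 * 1 * 1) = 1
      rw [one_mul, one_mul]
      exact map_one _
  refine ⟨mkEl F k (fun _ => !![0, 0; 0, 1]) (1, uEl F), ?_⟩
  have : Fact (Nat.Prime 3) := ⟨by norm_num⟩
  have h := orderOf_eq_prime_pow (p := 3) (n := 1) (by rw [pow_one]; exact hx3ne)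
    (by rw [show 3 ^ (1 + 1) = 3 * 3 from rfl, pow_mul]; exact hx9)
  rw [h]
  norm_num

example : StEx9 := ex9

end Cfsg.Agent.H73.RV
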