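import Mathlib
import Cfsg.Agent.H7.RVDefs
/-!
S3626 team project (helper7), piece RV-UP: every element of `M_k` has order dividing `6`, `9`,
`q - 1` or `(q + 1)/2`.
-/
set_option autoImplicit false

namespace Cfsg.Agent.H73.RV

open Matrix Cfsg.Agent.H7.RV

open scoped MatrixGroups

theorem three_pow_mod8 (m : ℕ) : 3 ^ (2 * m + 1) % 8 = 3 := by
  induction m with
  | zero => norm_num
  | succ n ih =>
    have e : 3 ^ (2 * (n + 1) + 1) = 9 * 3 ^ (2 * n + 1) := by ring
    rw [e]
    omega

theorem units_pow_even (e : ℤˣ) (n : ℕ) (hn : Even n) : e ^ n = 1 := by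
  obtain ⟨t, rfl⟩ := hn
  rw [← two_mul, pow_mul, Int.units_sq, one_pow]

/-- (UP) -/
theorem up (hTri : StTri) (hSq : StSq) (hFix : StFix) (hAff : StAff) : StUp := by
  intro F _ _ _ m k hq x
  obtain ⟨T, p, rfl⟩ := exists_mkEl F k x
  have hq8 := three_pow_mod8 m
  obtain ⟨q, hqv⟩ : ∃ q : ℕ, q = 3 ^ (2 * m + 1) := ⟨_, rfl⟩
  rw [← hqv] at hq8 ⊢
  have hexp3 : ∀ v : Multiplicative (Fin k → Matrix (Fin 2) (Fin 2) F), v ^ 3 = 1 := by
    intro v
    apply Multiplicative.toAdd.injective
    rw [toAdd_pow]
    funext i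
    ext a b
    show (3 : ℕ) • (Multiplicative.toAdd v i a b) = 0
    rw [nsmul_eq_mul]
    have h3 : ((3 : ℕ) : F) = 0 := CharP.cast_eq_zero F 3
    rw [h3, zero_mul]
  obtain ⟨hA1, hA2⟩ := hAff (Multiplicative (Fin k → Matrix (Fin 2) (Fin 2) F)) ↥(linGrp F k)
    (linGrp F k).subtype hexp3 (mkEl F k T p)
  have hright : ∀ n : ℕ, act F k (p ^ n) = 1 → (mkEl F k T p).right ^ n = 1 := by
    intro n h
    apply Subtype.ext
    rw [Subgroup.coe_pow, mkEl_right, ← map_pow, h]
    rfl
  have hact1 : ∀ (e : ℤˣ) (g : SL(2, F)), e = 1 → (g = 1 ∨ g = -1) → act F k (e, g) = 1 := by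
    rintro e g rfl (rfl | rfl)
    · exact map_one _
    · exact act_one_neg_one F k
  have hpow : ∀ n : ℕ, p ^ n = (p.1 ^ n, p.2 ^ n) := fun n => rfl
  by_cases hfp : ∀ w : Multiplicative (Fin k → Matrix (Fin 2) (Fin 2) F),
      (linGrp F k).subtype (mkEl F k T p).right w = w → w = 1
  · -- no non-trivial fixed point
    rcases hTri F m hq p.2 with h3 | h3 | hq1 | hq1
    · left
      apply hA1 6 hfp
      apply hright
      rw [hpow]
      refine hact1 _ _ (units_pow_even _ _ (by decide)) (Or.inl ?_)
      rw [show 6 = 3 * 2 from rfl, pow_mul, h3, one_pow]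
    · left
      apply hA1 6 hfp
      apply hright
      rw [hpow]
      refine hact1 _ _ (units_pow_even _ _ (by decide)) (Or.inl ?_)
      rw [show 6 = 3 * 2 from rfl, pow_mul, h3, neg_pow_two, one_pow]
    · right; right; left
      rw [← hqv] at hq1
      apply hA1 (q - 1) hfp
      apply hright
      rw [hpow]
      refine hact1 _ _ (units_pow_even _ _ ?_) (Or.inl hq1)
      rw [Nat.even_iff]
      omega
    · right; right; right
      rw [← hqv] at hq1
      apply hA1 ((q + 1) / 2) hfp
      apply hright
      rw [hpow]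
      refine hact1 _ _ (units_pow_even _ _ ?_) ?_
      · rw [Nat.even_iff]
        omega
      · apply hSq F
        rw [← pow_mul]
        have h2 : (q + 1) / 2 * 2 = q + 1 := by omega
        rw [h2]
        exact hq1
  · -- a non-trivial fixed point
    push Not at hfp
    obtain ⟨w, hw, hw1⟩ := hfp
    have hw' : act F k p w = w := hw
    rw [act_apply] at hw'
    have hex : ∃ i, Multiplicative.toAdd w i ≠ 0 := by
      by_contra hno
      push Not at hno
      apply hw1
      apply Multiplicative.toAdd.injective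
      funext i
      exact hno i
    obtain ⟨i, hi⟩ := hex
    have hfixi : actFun F p (Multiplicative.toAdd w i) = Multiplicative.toAdd w i := by
      have h := congrArg (fun v : Multiplicative (Fin k → Matrix (Fin 2) (Fin 2) F) =>
        Multiplicative.toAdd v i) hw'
      exact h
    rcases hFix F m hq p (Multiplicative.toAdd w i) hi hfixi with h2 | ⟨he, h3 | h3⟩
    · left
      have h := hA2 2 (by
        apply hright
        rw [hpow]
        refine hact1 _ _ (units_pow_even _ _ (by decide)) (Or.inr h2))
      exact h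
    · right; left
      have h := hA2 3 (by
        apply hright
        rw [hpow]
        refine hact1 _ _ (by rw [he, one_pow]) (Or.inl h3))
      exact h
    · right; left
      have h := hA2 3 (by
        apply hright
        rw [hpow]
        refine hact1 _ _ (by rw [he, one_pow]) (Or.inr h3))
      exact h

example (hTri : StTri) (hSq : StSq) (hFix : StFix) (hAff : StAff) : StUp :=
  up hTri hSq hFix hAff

end Cfsg.Agent.H73.RV
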