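import Mathlib

set_option autoImplicit false

namespace Cfsg.Agent.H73

open MulAction in
/-- If two orbits have coprime sizes, the stabilizer of one point is transitive on the orbit of
the other. -/
theorem exists_stab_smul_eq_of_coprime {G X : Type*} [Group G] [Finite G] [MulAction G X] (x y : X)
    (h : (Nat.card (orbit G x)).Coprime (Nat.card (orbit G y))) (g : G) :
    ∃ c ∈ stabilizer G y, c • x = g • x := by
  set L := stabilizer G x with hL
  set K := stabilizer G y with hK
  have hm : L.index = Nat.card (orbit G x) := by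
    rw [hL, index_stabilizer, Nat.card_coe_set_eq]
  have hn : K.index = Nat.card (orbit G y) := by
    rw [hK, index_stabilizer, Nat.card_coe_set_eq]
  rw [← hm, ← hn] at h
  have h1 : L.index * K.index ∣ (L ⊓ K).index :=
    Nat.Coprime.mul_dvd_of_dvd_of_dvd h (Subgroup.index_dvd_of_le inf_le_left)
      (Subgroup.index_dvd_of_le inf_le_right)
  have h2 : (L ⊓ K).index ≤ L.index * K.index := Subgroup.index_inf_le
  have hpos : 0 < (L ⊓ K).index := Nat.pos_of_ne_zero Subgroup.index_ne_zero_of_finite
  have h3 : (L ⊓ K).index = L.index * K.index := le_antisymm h2 (Nat.le_of_dvd hpos h1)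
  have h4 : (L ⊓ K).relIndex K * K.index = (L ⊓ K).index := Subgroup.relIndex_mul_index inf_le_right
  have hKpos : 0 < K.index := Nat.pos_of_ne_zero Subgroup.index_ne_zero_of_finite
  have h5 : L.relIndex K = L.index := by
    rw [Subgroup.inf_relIndex_right, h3] at h4
    exact Nat.eq_of_mul_eq_mul_right hKpos h4
  have h6 : (orbit K x).ncard = L.relIndex K := by
    rw [← index_stabilizer (G := K)]
    rfl
  have h7 : orbit K x ⊆ orbit G x := orbit_subgroup_subset K x
  have h8 : orbit K x = orbit G x := by
    apply Set.eq_of_subset_of_ncard_le h7 _ (Set.finite_range _)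
    rw [h6, h5, hL, index_stabilizer]
  have h9 : g • x ∈ orbit K x := h8 ▸ mem_orbit x g
  obtain ⟨⟨c, hc⟩, hcx⟩ := h9
  exact ⟨c, hc, hcx⟩

end Cfsg.Agent.H73
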