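import Mathlib
import Cfsg.Agent.H6.DcDefs

namespace Cfsg.Agent.H73.Dc

open Cfsg.Agent.H6.Dc Equiv

/-- DC-CENTER: the alternating group of degree 8 has trivial centre. -/
theorem center : StCenter := by
  intro z hz
  have hc : Subgroup.center (alternatingGroup (Fin 8)) = ⊥ :=
    alternatingGroup.center_eq_bot (by simp)
  have hmem : z ∈ Subgroup.center (alternatingGroup (Fin 8)) := by
    rw [Subgroup.mem_center_iff]
    exact hz
  rw [hc] at hmem
  exact Subgroup.mem_bot.mp hmem

example : StCenter := center

end Cfsg.Agent.H73.Dc
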