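import Mathlib
import Cfsg.Agent.H6.DcDefs

namespace Cfsg.Agent.H73.Dc

open Cfsg.Agent.H6.Dc Equiv MulAction

theorem a1_isThreeCycle : Equiv.Perm.IsThreeCycle a1 := by
  have h : a1 = swap (0 : Fin 8) 2 * swap (0 : Fin 8) 1 := by
    ext x
    revert x
    decide
  rw [h]
  exact Equiv.Perm.isThreeCycle_swap_mul_swap_same (by decide) (by decide) (by decide)

theorem move_zero :
    ∀ a : Fin 8, ∃ i : Fin 3, ∃ k : Fin 7, (a1 ^ (i : ℕ) * a2 ^ (k : ℕ)) a = 0 := by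
  decide

theorem move_one :
    ∀ b : Fin 8, b ≠ 0 → ∃ j : Fin 7, (a2 ^ (j : ℕ)) b = 1 ∧ (a2 ^ (j : ℕ)) 0 = 0 := by
  decide

/-- DC-GEN: a subgroup containing the 3-cycle `a1` and the 7-cycle `a2` contains the alternating
group (it is 2-transitive, hence primitive; Jordan). -/
theorem gen : StGen := by
  intro H h1 h2
  have key : ∀ a b : Fin 8, a ≠ b → ∃ g : H, g • a = 0 ∧ g • b = 1 := by
    intro a b hab
    obtain ⟨i, k, hik⟩ := move_zero a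
    have hg1 : a1 ^ (i : ℕ) * a2 ^ (k : ℕ) ∈ H := H.mul_mem (H.pow_mem h1 _) (H.pow_mem h2 _)
    have hb : (a1 ^ (i : ℕ) * a2 ^ (k : ℕ)) b ≠ 0 := by
      intro h0
      exact hab ((a1 ^ (i : ℕ) * a2 ^ (k : ℕ)).injective (hik.trans h0.symm))
    obtain ⟨j, hj1, hj0⟩ := move_one _ hb
    refine ⟨⟨a2 ^ (j : ℕ) * (a1 ^ (i : ℕ) * a2 ^ (k : ℕ)),
      H.mul_mem (H.pow_mem h2 _) hg1⟩, ?_, ?_⟩
    · show (a2 ^ (j : ℕ) * (a1 ^ (i : ℕ) * a2 ^ (k : ℕ))) a = 0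
      rw [Equiv.Perm.mul_apply, hik, hj0]
    · show (a2 ^ (j : ℕ) * (a1 ^ (i : ℕ) * a2 ^ (k : ℕ))) b = 1
      rw [Equiv.Perm.mul_apply, hj1]
  have h2t : IsMultiplyPretransitive H (Fin 8) 2 := by
    rw [is_two_pretransitive_iff]
    intro a b c d hab hcd
    obtain ⟨g₁, hg₁a, hg₁b⟩ := key a b hab
    obtain ⟨g₂, hg₂c, hg₂d⟩ := key c d hcd
    refine ⟨g₂⁻¹ * g₁, ?_, ?_⟩
    · rw [mul_smul, hg₁a, ← hg₂c, inv_smul_smul]
    · rw [mul_smul, hg₁b, ← hg₂d, inv_smul_smul]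
  have hprim : IsPreprimitive H (Fin 8) := isPreprimitive_of_is_two_pretransitive h2t
  exact Equiv.Perm.alternatingGroup_le_of_isPreprimitive_of_isThreeCycle_mem hprim
    a1_isThreeCycle h1

example : StGen := gen

end Cfsg.Agent.H73.Dc
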