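import Mathlib
import Cfsg.Agent.H6.DcDefs

namespace Cfsg.Agent.H73.Dc

open Cfsg.Agent.H6.Dc Equiv
open scoped Pointwise

/-- `IsNonsplitDoubleCover` is invariant under an isomorphism of the first argument. -/
theorem nonsplit_congr {H H' K : Type*} [Group H] [Group H'] [Group K] (f : H ≃* H')
    (h : Cfsg.IsNonsplitDoubleCover H K) : Cfsg.IsNonsplitDoubleCover H' K := by
  obtain ⟨hc, ⟨φ⟩, hL⟩ := h
  have hmap : (Subgroup.center H).map (f : H →* H') = Subgroup.center H' := by
    ext x
    rw [Subgroup.mem_map, Subgroup.mem_center_iff]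
    constructor
    · rintro ⟨z, hz, rfl⟩ y
      obtain ⟨y, rfl⟩ := f.surjective y
      show f y * f z = f z * f y
      rw [← map_mul, ← map_mul, Subgroup.mem_center_iff.mp hz y]
    · intro hx
      refine ⟨f.symm x, ?_, f.apply_symm_apply x⟩
      rw [Subgroup.mem_center_iff]
      intro y
      apply f.injective
      rw [map_mul, map_mul, f.apply_symm_apply]
      exact hx (f y)
  refine ⟨?_, ⟨?_⟩, ?_⟩
  · rw [← hc]
    exact Nat.card_congr (Subgroup.centerCongr f).symm.toEquiv
  · exact (QuotientGroup.congr (Subgroup.center H) (Subgroup.center H') f hmap).symm.trans φ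
  · intro L' hL'
    apply hL (L'.comap (f : H →* H'))
    apply Subgroup.isComplement'_of_disjoint_and_mul_eq_univ
    · rw [Subgroup.disjoint_def]
      intro x hx1 hx2
      have h1 : f x ∈ Subgroup.center H' := by
        rw [← hmap]
        exact Subgroup.mem_map_of_mem _ hx1
      have h2 : f x ∈ L' := hx2
      have h3 := (Subgroup.disjoint_def.mp hL'.disjoint) h1 h2
      exact f.injective (by rw [h3, map_one])
    · rw [Set.eq_univ_iff_forall]
      intro h
      have hmul : ((Subgroup.center H' : Set H') * (L' : Set H')) = Set.univ :=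
        Subgroup.IsComplement.mul_eq hL'
      obtain ⟨z', hz', l', hl', hzl⟩ := Set.eq_univ_iff_forall.mp hmul (f h)
      refine ⟨f.symm z', ?_, f.symm l', ?_, ?_⟩
      · rw [← hmap] at hz'
        obtain ⟨z, hz, rfl⟩ := hz'
        show f.symm (f z) ∈ Subgroup.center H
        rw [f.symm_apply_apply]
        exact hz
      · show f (f.symm l') ∈ L'
        rw [f.apply_symm_apply]
        exact hl'
      · apply f.injective
        show f (f.symm z' * f.symm l') = f h
        rw [map_mul, f.apply_symm_apply, f.apply_symm_apply]
        exact hzl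

/-- The isomorphism of centralizers induced by an isomorphism of groups. -/
def centEquiv {G G' : Type*} [Group G] [Group G'] (e : G ≃* G') (t : G) :
    ↥(Subgroup.centralizer ({t} : Set G)) ≃* ↥(Subgroup.centralizer ({e t} : Set G')) where
  toFun x := ⟨e x, by
    rw [Subgroup.mem_centralizer_iff]
    intro h hh
    rw [Set.mem_singleton_iff] at hh
    subst hh
    have h1 := (Subgroup.mem_centralizer_iff.mp x.2) t rfl
    rw [← map_mul, h1, map_mul]⟩
  invFun y := ⟨e.symm y, by
    rw [Subgroup.mem_centralizer_iff]
    intro h hh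
    rw [Set.mem_singleton_iff] at hh
    subst hh
    have h1 := (Subgroup.mem_centralizer_iff.mp y.2) (e h) rfl
    apply e.injective
    rw [map_mul, map_mul, e.apply_symm_apply]
    exact h1⟩
  left_inv x := by
    ext
    simp
  right_inv y := by
    ext
    simp
  map_mul' x y := by
    ext
    simp

/-- DC-TRANSFER. -/
theorem transfer : StTransfer := by
  intro G G' _ _ e t h
  exact nonsplit_congr (centEquiv e t) h

example : StTransfer := transfer

end Cfsg.Agent.H73.Dc
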