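import Mathlib

set_option autoImplicit false

namespace Cfsg.Agent.H73

/-- Over `ZMod p`, a set spans the module iff it generates it as an additive group. -/
theorem span_zmod_eq_top_iff {p : ℕ} {V : Type*} [AddCommGroup V] [Module (ZMod p) V] (s : Set V) :
    Submodule.span (ZMod p) s = ⊤ ↔ AddSubgroup.closure s = ⊤ := by
  have key : Submodule.span (ZMod p) s = AddSubgroup.toZModSubmodule p (AddSubgroup.closure s) := by
    apply le_antisymm
    · rw [Submodule.span_le]
      intro x hx
      exact AddSubgroup.subset_closure hx
    · intro x hx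
      have hx' : x ∈ AddSubgroup.closure s := hx
      have hle : AddSubgroup.closure s ≤ (Submodule.span (ZMod p) s).toAddSubgroup := by
        rw [AddSubgroup.closure_le]
        exact Submodule.subset_span
      exact hle hx'
  rw [key]
  constructor
  · intro h
    ext x
    have : x ∈ AddSubgroup.toZModSubmodule p (AddSubgroup.closure s) := by rw [h]; trivial
    simpa using this
  · intro h
    ext x
    simp [h]

/-- The number of generating `r`-tuples of a `ZMod p`-vector space of order `p ^ r`. -/
theorem card_generating_tuples_module {p r : ℕ} [Fact p.Prime] {V : Type*} [AddCommGroup V]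
    [Module (ZMod p) V] [Finite V] (hcard : Nat.card V = p ^ r) :
    Nat.card {f : Fin r → V // AddSubgroup.closure (Set.range f) = ⊤}
      = ∏ i ∈ Finset.range r, (p ^ r - p ^ i) := by
  classical
  have hp : p.Prime := Fact.out
  have hfr : Module.finrank (ZMod p) V = r := by
    have h1 := Module.natCard_eq_pow_finrank (K := ZMod p) (V := V)
    rw [Nat.card_zmod, hcard] at h1
    exact (Nat.pow_right_injective hp.two_le h1).symm
  have hLI := card_linearIndependent (K := ZMod p) (V := V) (k := r) (by rw [hfr])
  rw [hfr, ZMod.card, Fin.prod_univ_eq_prod_range (fun i => p ^ r - p ^ i) r] at hLI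
  rw [← hLI]
  apply Nat.card_congr
  refine Equiv.subtypeEquivRight ?_
  intro f
  rw [← span_zmod_eq_top_iff (p := p), linearIndependent_iff_card_eq_finrank_span,
    Fintype.card_fin, Set.finrank]
  constructor
  · intro h
    rw [h, finrank_top, hfr]
  · intro h
    apply Submodule.eq_top_of_finrank_eq
    rw [← h, hfr]

/-- The number of generating `r`-tuples of an elementary abelian group of order `p ^ r`. -/
theorem card_generating_tuples {Q : Type*} [CommGroup Q] [Finite Q] {p r : ℕ} [Fact p.Prime]
    (hexp : ∀ a : Q, a ^ p = 1) (hcard : Nat.card Q = p ^ r) :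
    Nat.card {f : Fin r → Q // Subgroup.closure (Set.range f) = ⊤}
      = ∏ i ∈ Finset.range r, (p ^ r - p ^ i) := by
  classical
  have inst : Module (ZMod p) (Additive Q) := AddCommGroup.zmodModule (n := p) (fun a => by
    show Additive.ofMul ((Additive.toMul a) ^ p) = 0
    rw [hexp]; rfl)
  have hfinV : Finite (Additive Q) := ‹Finite Q›
  have key := @card_generating_tuples_module p r _ (Additive Q) _ inst hfinV hcard
  rw [← key]
  apply Nat.card_congr
  refine Equiv.subtypeEquiv (Equiv.piCongrRight (fun _ => Additive.ofMul)) ?_
  intro f
  show Subgroup.closure (Set.range f) = ⊤ ↔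
    AddSubgroup.closure (Set.range (fun i => Additive.ofMul (f i))) = ⊤
  have hrange : (Additive.toMul ⁻¹' Set.range f : Set (Additive Q))
      = Set.range (fun i => Additive.ofMul (f i)) := by
    ext x
    constructor
    · rintro ⟨i, hi⟩
      refine ⟨i, ?_⟩
      show Additive.ofMul (f i) = x
      rw [hi]; rfl
    · rintro ⟨i, rfl⟩
      exact ⟨i, rfl⟩
  rw [← hrange, ← Subgroup.toAddSubgroup_closure]
  constructor
  · intro h; rw [h]; rfl
  · intro h
    have := congrArg (Subgroup.toAddSubgroup (G := Q)).symm h
    simpa using this

end Cfsg.Agent.H73
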