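import Mathlib
import Cfsg.Agent.H64.MgDefs

/-!
# S3620 piece MG-LCG (helper73): the core of Lemma C
(no nontrivial block of a point stabilizer of a 2-transitive Jordan group), from the design
property of the translates of the Jordan set and two counting lemmas.
-/

set_option autoImplicit false
open scoped Pointwise
open MulAction

namespace Cfsg.Agent.H73.Mg

open Cfsg.Agent.H64.Mg

universe u v

theorem lcg : DESStmt.{u, v} → CNTBStmt.{v} → CNTCStmt.{v} → LCcoreStmt.{u, v} := by
  intro hDES hB hC M α _ _ _ _ hKT Δ hΔ hΔN hNΔ a ha B haB hb hbN hblock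
  classical
  -- the Jordan set
  have hΓcard : (Finset.univ \ Δ).card = Fintype.card α - Δ.card := Finset.card_univ_sdiff Δ
  have hmemΓ : ∀ z, z ∈ Finset.univ \ Δ ↔ z ∉ Δ := by intro z; simp
  generalize hΓ : Finset.univ \ Δ = Γ at hΓcard hmemΓ
  have hsmulΓ : ∀ (g : M) (z : α), z ∈ g • Γ ↔ z ∉ g • Δ := by
    intro g z
    rw [← Finset.inv_smul_mem_iff, ← Finset.inv_smul_mem_iff (s := Δ), hmemΓ]
  -- (J): inside a translate `T` of `Γ`, the pointwise stabilizer of the complement is transitive
  have hJ : ∀ T : Finset α, (∃ g : M, g • Γ = T) → ∀ u ∈ T, ∀ v ∈ T,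
      ∃ j : M, (∀ w, w ∉ T → j • w = w) ∧ j • u = v := by
    rintro T ⟨g, rfl⟩ u hu v hv
    have hJC := hΔ.smul g
    obtain ⟨j, hj, hju⟩ := hJC u ((hsmulΓ g u).mp hu) v ((hsmulΓ g v).mp hv)
    refine ⟨j, fun w hw => hj w ?_, hju⟩
    by_contra hcon
    exact hw ((hsmulΓ g w).mpr hcon)
  -- (1) `2b + 1 ≤ N`
  have hexz : ∃ z, z ∉ B ∧ z ≠ a := by
    by_contra hcon
    push Not at hcon
    have hsub : (Finset.univ : Finset α) ⊆ insert a B := by
      intro z _
      by_cases hz : z ∈ B
      · exact Finset.mem_insert_of_mem hz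
      · rw [hcon z hz]; exact Finset.mem_insert_self _ _
    have h1 := Finset.card_le_card hsub
    rw [Finset.card_univ, Finset.card_insert_of_notMem haB] at h1
    omega
  obtain ⟨z, hzB, hza⟩ := hexz
  obtain ⟨x, hxB⟩ : ∃ x, x ∈ B := Finset.card_pos.mp (by omega)
  have hxa : x ≠ a := fun h => haB (h ▸ hxB)
  have hJCa : JC M ({a} : Finset α) := hKT {a} (by simp)
  have h2b : 2 * B.card + 1 ≤ Fintype.card α := by
    obtain ⟨h, hh, hhx⟩ := hJCa x (by simpa using hxa) z (by simpa using hza)
    have hha : h • a = a := hh a (by simp)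
    have hdisj : Disjoint (h • B) B := by
      rcases hblock h hha with heq | hd
      · exfalso
        apply hzB
        have : h • x ∈ h • B := Finset.smul_mem_smul_finset hxB
        rwa [hhx, heq] at this
      · exact hd
    have hahB : a ∉ h • B := by
      intro hmem
      rw [← Finset.inv_smul_mem_iff] at hmem
      have : h⁻¹ • a = a := by rw [inv_smul_eq_iff, hha]
      rw [this] at hmem
      exact haB hmem
    have hunion : (insert a (h • B ∪ B)).card = 2 * B.card + 1 := by
      rw [Finset.card_insert_of_notMem, Finset.card_union_of_disjoint hdisj,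
        Finset.card_smul_finset]
      · ring
      · simp [hahB, haB]
    have := Finset.card_le_card (Finset.subset_univ (insert a (h • B ∪ B)))
    rw [hunion, Finset.card_univ] at this
    exact this
  -- (2) the design
  have hmem𝒯 : ∀ T, T ∈ (Finset.univ.filter (fun T : Finset α => ∃ g : M, g • Γ = T)) ↔
      ∃ g : M, g • Γ = T := by intro T; simp
  generalize h𝒯 : (Finset.univ.filter (fun T : Finset α => ∃ g : M, g • Γ = T)) = 𝒯 at hmem𝒯
  have hTcard : ∀ T ∈ 𝒯, T.card = Γ.card := by
    intro T hT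
    obtain ⟨g, rfl⟩ := (hmem𝒯 T).mp hT
    exact Finset.card_smul_finset g Γ
  have hΓ2 : 2 ≤ Γ.card := by rw [hΓcard]; omega
  obtain ⟨x₀, hx₀, y₀, hy₀, hxy₀⟩ := Finset.one_lt_card.mp (by omega : 1 < Γ.card)
  have hfilter : ∀ x y : α,
      ((𝒯.filter (fun T => x ∈ T ∧ y ∈ T) : Finset (Finset α)) : Set (Finset α)) =
        {T : Finset α | (∃ g : M, g • Γ = T) ∧ x ∈ T ∧ y ∈ T} := by
    intro x y
    ext T
    simp [hmem𝒯]
  have hlam : ∀ x y : α, x ≠ y → (𝒯.filter (fun T => x ∈ T ∧ y ∈ T)).card =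
      (𝒯.filter (fun T => x₀ ∈ T ∧ y₀ ∈ T)).card := by
    intro x y hxy
    rw [← Set.ncard_coe_finset, ← Set.ncard_coe_finset, hfilter, hfilter]
    exact hDES M α hKT Γ x y x₀ y₀ hxy hxy₀
  have hlam1 : 1 ≤ (𝒯.filter (fun T => x₀ ∈ T ∧ y₀ ∈ T)).card := by
    apply Finset.card_pos.mpr
    exact ⟨Γ, Finset.mem_filter.mpr ⟨(hmem𝒯 Γ).mpr ⟨1, one_smul _ _⟩, hx₀, hy₀⟩⟩
  rcases lt_or_ge B.card Γ.card with hlt | hge
  · -- (3) `b < m`
    obtain ⟨x', hx', y', hy', hxy'⟩ := Finset.one_lt_card.mp (by omega : 1 < B.card)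
    have hclaim : ∀ T ∈ 𝒯, a ∉ T → x' ∈ T → y' ∈ T := by
      intro T hT haT hxT
      by_contra hyT
      have hsub : T ⊆ B := by
        intro w hw
        obtain ⟨j, hj, hjw⟩ := hJ T ((hmem𝒯 T).mp hT) x' hxT w hw
        have hja := hj a haT
        have hjy := hj y' hyT
        rcases hblock j hja with heq | hd
        · have : j • x' ∈ j • B := Finset.smul_mem_smul_finset hx'
          rwa [hjw, heq] at this
        · exfalso
          have : j • y' ∈ j • B := Finset.smul_mem_smul_finset hy'
          rw [hjy] at this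
          exact Finset.disjoint_left.mp hd this hy'
      have := Finset.card_le_card hsub
      rw [hTcard T hT] at this
      omega
    have hx'a : x' ≠ a := fun h => haB (h ▸ hx')
    have hy'a : y' ≠ a := fun h => haB (h ▸ hy')
    have := hB α 𝒯 Γ.card _ hTcard hlam hlam1 hΓ2 a x' y' hx'a hy'a hxy' hclaim
    omega
  · -- (4) `m ≤ b`
    have hclaim : ∀ T ∈ 𝒯, a ∉ T → x ∈ T → T ⊆ B := by
      intro T hT haT hxT
      by_contra hsub
      rw [Finset.not_subset] at hsub
      obtain ⟨y, hyT, hyB⟩ := hsub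
      obtain ⟨j, hj, hjx⟩ := hJ T ((hmem𝒯 T).mp hT) x hxT y hyT
      have hja := hj a haT
      have hd : Disjoint (j • B) B := by
        rcases hblock j hja with heq | hd
        · exfalso
          apply hyB
          have : j • x ∈ j • B := Finset.smul_mem_smul_finset hxB
          rwa [hjx, heq] at this
        · exact hd
      have hBT : B ⊆ T := by
        intro w hw
        by_contra hwT
        have hjw := hj w hwT
        have : j • w ∈ j • B := Finset.smul_mem_smul_finset hw
        rw [hjw] at this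
        exact Finset.disjoint_left.mp hd this hw
      have hcardle : T.card ≤ B.card := by rw [hTcard T hT]; exact hge
      have hEq : B = T := Finset.eq_of_subset_of_card_le hBT hcardle
      exact hyB (hEq ▸ hyT)
    have := hC α 𝒯 Γ.card _ hTcard hlam hlam1 hΓ2 a x B hxa hxB haB hclaim
    omega

example : DESStmt.{u, v} → CNTBStmt.{v} → CNTCStmt.{v} → LCcoreStmt.{u, v} := lcg

end Cfsg.Agent.H73.Mg

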