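import Mathlib

set_option autoImplicit false

namespace Cfsg.Agent.H73.S3D8

open Module

variable {S : Type*} [Group S] {M : Type*} [AddCommGroup M] [Module (ZMod 2) M]

/-- the fixed submodule of a group element -/
def fixSub (ρ : Representation (ZMod 2) S M) (g : S) : Submodule (ZMod 2) M :=
  LinearMap.eqLocus (ρ g) LinearMap.id

lemma mem_fixSub (ρ : Representation (ZMod 2) S M) (g : S) (m : M) :
    m ∈ fixSub ρ g ↔ ρ g m = m := by
  simp [fixSub, LinearMap.mem_eqLocus]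

lemma rho_mul (ρ : Representation (ZMod 2) S M) (g h : S) (m : M) :
    ρ (g * h) m = ρ g (ρ h m) := by
  rw [map_mul]; rfl

lemma rho_one (ρ : Representation (ZMod 2) S M) (m : M) : ρ 1 m = m := by
  rw [map_one]; rfl

lemma rho_rel (ρ : Representation (ZMod 2) S M) {g h k l : S} (e : g * h = k * l) (m : M) :
    ρ g (ρ h m) = ρ k (ρ l m) := by
  rw [← rho_mul, ← rho_mul, e]

lemma rho_sq (ρ : Representation (ZMod 2) S M) {g : S} (e : g ^ 2 = 1) (m : M) :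
    ρ g (ρ g m) = m := by
  rw [← rho_mul, ← sq, e, rho_one]

lemma rho_cube (ρ : Representation (ZMod 2) S M) {g : S} (e : g ^ 3 = 1) (m : M) :
    ρ g (ρ g (ρ g m)) = m := by
  have h : g * g * g = 1 := by rw [← e, pow_succ, pow_two]
  rw [← rho_mul, ← rho_mul, h, rho_one]

lemma zmod2_cases (c : ZMod 2) : c = 0 ∨ c = 1 := by
  revert c; decide

/-- an involution of a nonzero invariant subspace in characteristic 2 has a nonzero fixed vector -/
lemma exists_fixed_of_invol (f : M → M) (hadd : ∀ u w, f (u + w) = f u + f w)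
    (hf2 : ∀ m, f (f m) = m) (N : Submodule (ZMod 2) M) (hN : ∀ m ∈ N, f m ∈ N)
    (m0 : M) (hm0 : m0 ∈ N) (hne : m0 ≠ 0) : ∃ v ∈ N, v ≠ 0 ∧ f v = v := by
  by_cases h : m0 + f m0 = 0
  · refine ⟨m0, hm0, hne, ?_⟩
    have : f m0 = -m0 := by
      rw [eq_neg_iff_add_eq_zero, add_comm]; exact h
    rw [this, ZModModule.neg_eq_self]
  · refine ⟨m0 + f m0, N.add_mem hm0 (hN _ hm0), h, ?_⟩
    rw [hadd, hf2, add_comm]

/-- Core: the module argument. -/
theorem core [Finite M]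
    (ρ : Representation (ZMod 2) S M) (hfaith : Function.Injective ρ)
    (a b x x' z : S)
    (ha3 : a ^ 3 = 1) (hb3 : b ^ 3 = 1) (hab : a * b = b * a) (ha1 : a ≠ 1)
    (hx2 : x ^ 2 = 1) (hx'2 : x' ^ 2 = 1) (hz2 : z ^ 2 = 1)
    (hxa : x * a = a * x) (hxb : x * b = b⁻¹ * x) (hx'a : x' * a = b * x')
    (hzx : z * x = x * z) (hzx' : z * x' = x' * z) (hza : z * a = a⁻¹ * z) (hzb : z * b = b⁻¹ * z)
    (hrel : x' * x * x' = x * z)
    (hirr : ∀ N : Submodule (ZMod 2) M, (∀ m ∈ N, ρ a m ∈ N) → (∀ m ∈ N, ρ b m ∈ N) →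
        (∀ m ∈ N, ρ x m ∈ N) → (∀ m ∈ N, ρ x' m ∈ N) → N = ⊥ ∨ N = ⊤)
    (hfix : ∃ m : M, m ≠ 0 ∧ ρ a m = m) :
    Nat.card M = 16 ∧
    Nat.card {m : M // ρ x' m = m ∧ ρ z m = m} = 2 ∧
    Nat.card {m : M // ρ x m = m ∧ ρ z m = m} ≠ 2 := by
  classical
  -- operator relations
  have A3 : ∀ m, ρ a (ρ a (ρ a m)) = m := rho_cube ρ ha3
  have B3 : ∀ m, ρ b (ρ b (ρ b m)) = m := rho_cube ρ hb3
  have AB : ∀ m, ρ a (ρ b m) = ρ b (ρ a m) := rho_rel ρ hab
  have X2 : ∀ m, ρ x (ρ x m) = m := rho_sq ρ hx2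
  have X'2 : ∀ m, ρ x' (ρ x' m) = m := rho_sq ρ hx'2
  have Z2 : ∀ m, ρ z (ρ z m) = m := rho_sq ρ hz2
  have XA : ∀ m, ρ x (ρ a m) = ρ a (ρ x m) := rho_rel ρ hxa
  have hbinv : b⁻¹ = b * b := by
    apply inv_eq_of_mul_eq_one_right
    rw [← mul_assoc, ← hb3, pow_succ, pow_two]
  have hainv : a⁻¹ = a * a := by
    apply inv_eq_of_mul_eq_one_right
    rw [← mul_assoc, ← ha3, pow_succ, pow_two]
  have XB : ∀ m, ρ x (ρ b m) = ρ b (ρ b (ρ x m)) := by
    intro m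
    have h := rho_rel ρ hxb m
    rw [hbinv, rho_mul] at h
    exact h
  have X'A : ∀ m, ρ x' (ρ a m) = ρ b (ρ x' m) := rho_rel ρ hx'a
  have hx'b : x' * b = a * x' := by
    have h1 : x'⁻¹ = x' := by
      apply inv_eq_of_mul_eq_one_right
      rw [← sq, hx'2]
    have h2 : b = x' * a * x'⁻¹ := by
      rw [hx'a]; group
    rw [h2, h1]
    have h3 : x' * (x' * a * x') = (x' ^ 2) * a * x' := by
      rw [pow_two]; simp only [mul_assoc]
    rw [h3, hx'2, one_mul]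
  have X'B : ∀ m, ρ x' (ρ b m) = ρ a (ρ x' m) := rho_rel ρ hx'b
  have ZX : ∀ m, ρ z (ρ x m) = ρ x (ρ z m) := rho_rel ρ hzx
  have ZX' : ∀ m, ρ z (ρ x' m) = ρ x' (ρ z m) := rho_rel ρ hzx'
  have ZA : ∀ m, ρ z (ρ a m) = ρ a (ρ a (ρ z m)) := by
    intro m
    have h := rho_rel ρ hza m
    rw [hainv, rho_mul] at h
    exact h
  have ZB : ∀ m, ρ z (ρ b m) = ρ b (ρ b (ρ z m)) := by
    intro m
    have h := rho_rel ρ hzb m
    rw [hbinv, rho_mul] at h
    exact h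
  have REL : ∀ m, ρ x' (ρ x (ρ x' m)) = ρ x (ρ z m) := by
    intro m
    rw [← rho_mul, ← rho_mul, hrel, rho_mul]
  have XBB : ∀ m, ρ x (ρ b (ρ b m)) = ρ b (ρ x m) := by
    intro m
    rw [XB, XB, B3]
  -- the two fixed submodules
  set M1 : Submodule (ZMod 2) M := fixSub ρ a with hM1
  set M2 : Submodule (ZMod 2) M := fixSub ρ b with hM2
  have m1 : ∀ m, m ∈ M1 ↔ ρ a m = m := mem_fixSub ρ a
  have m2 : ∀ m, m ∈ M2 ↔ ρ b m = m := mem_fixSub ρ b
  -- stability facts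
  have aM1 : ∀ m ∈ M1, ρ a m ∈ M1 := fun m hm => by rw [(m1 m).1 hm]; exact hm
  have bM1 : ∀ m ∈ M1, ρ b m ∈ M1 := fun m hm => by
    rw [m1, AB, (m1 m).1 hm]
  have xM1 : ∀ m ∈ M1, ρ x m ∈ M1 := fun m hm => by
    rw [m1, ← XA, (m1 m).1 hm]
  have aM2 : ∀ m ∈ M2, ρ a m ∈ M2 := fun m hm => by
    rw [m2, ← AB, (m2 m).1 hm]
  have bM2 : ∀ m ∈ M2, ρ b m ∈ M2 := fun m hm => by rw [(m2 m).1 hm]; exact hm
  have xM2 : ∀ m ∈ M2, ρ x m ∈ M2 := fun m hm => by
    rw [m2]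
    have h := XB m
    rw [(m2 m).1 hm] at h
    have h' := congrArg (ρ b) h
    rw [B3] at h'
    exact h'
  have x'M1 : ∀ m ∈ M1, ρ x' m ∈ M2 := fun m hm => by
    rw [m2, ← X'A, (m1 m).1 hm]
  have x'M2 : ∀ m ∈ M2, ρ x' m ∈ M1 := fun m hm => by
    rw [m1, ← X'B, (m2 m).1 hm]
  have zM1 : ∀ m ∈ M1, ρ z m ∈ M1 := fun m hm => by
    rw [m1]
    have h := ZA m
    rw [(m1 m).1 hm] at h
    have h' := congrArg (ρ a) h
    rw [A3] at h'
    exact h'
  -- Step 1: M1 ⊓ M2 = ⊥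
  have hinf : M1 ⊓ M2 = ⊥ := by
    rcases hirr (M1 ⊓ M2)
      (fun m hm => ⟨aM1 m hm.1, aM2 m hm.2⟩) (fun m hm => ⟨bM1 m hm.1, bM2 m hm.2⟩)
      (fun m hm => ⟨xM1 m hm.1, xM2 m hm.2⟩) (fun m hm => ⟨x'M2 m hm.2, x'M1 m hm.1⟩) with h | h
    · exact h
    · exfalso
      apply ha1
      apply hfaith
      ext m
      have hm : m ∈ M1 ⊓ M2 := by rw [h]; trivial
      rw [(m1 m).1 hm.1, rho_one]
  have hdisj : ∀ m, m ∈ M1 → m ∈ M2 → m = 0 := by
    intro m h1 h2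
    have : m ∈ M1 ⊓ M2 := ⟨h1, h2⟩
    rw [hinf] at this
    simpa using this
  obtain ⟨m0, hm0, hm0a⟩ := hfix
  have hm0M1 : m0 ∈ M1 := (m1 m0).2 hm0a
  -- Step 2: M1 ⊔ M2 = ⊤
  have hsup : M1 ⊔ M2 = ⊤ := by
    have inv : ∀ f : M →ₗ[ZMod 2] M, (∀ m ∈ M1, f m ∈ M1 ⊔ M2) → (∀ m ∈ M2, f m ∈ M1 ⊔ M2) →
        ∀ m ∈ M1 ⊔ M2, f m ∈ M1 ⊔ M2 := by
      intro f h1 h2 m hm
      obtain ⟨u, hu, w, hw, rfl⟩ := Submodule.mem_sup.1 hm
      rw [map_add]
      exact Submodule.add_mem _ (h1 u hu) (h2 w hw)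
    rcases hirr (M1 ⊔ M2)
      (inv (ρ a) (fun m hm => Submodule.mem_sup_left (aM1 m hm))
        (fun m hm => Submodule.mem_sup_right (aM2 m hm)))
      (inv (ρ b) (fun m hm => Submodule.mem_sup_left (bM1 m hm))
        (fun m hm => Submodule.mem_sup_right (bM2 m hm)))
      (inv (ρ x) (fun m hm => Submodule.mem_sup_left (xM1 m hm))
        (fun m hm => Submodule.mem_sup_right (xM2 m hm)))
      (inv (ρ x') (fun m hm => Submodule.mem_sup_right (x'M1 m hm))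
        (fun m hm => Submodule.mem_sup_left (x'M2 m hm))) with h | h
    · exfalso
      apply hm0
      have : m0 ∈ M1 ⊔ M2 := Submodule.mem_sup_left hm0M1
      rw [h] at this
      simpa using this
    · exact h
  -- a general principle: an invariant N ⊔ ξ' N with N ≤ M1, N ≠ ⊥ forces N = M1
  have key : ∀ N : Submodule (ZMod 2) M, N ≤ M1 → N ≠ ⊥ →
      (∀ m ∈ N, ρ b m ∈ N) → (∀ m ∈ N, ρ x m ∈ N) → (∀ m ∈ N, ρ x (ρ x' m) = ρ x' m) →
      ∀ m ∈ M1, m ∈ N := by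
    intro N hN1 hNne hNb hNx hNxx'
    have hmem : ∀ n, n ∈ N.map (ρ x') ↔ ∃ u ∈ N, ρ x' u = n := fun n => Submodule.mem_map
    have inv : ∀ f : M →ₗ[ZMod 2] M, (∀ m ∈ N, f m ∈ N ⊔ N.map (ρ x')) →
        (∀ m ∈ N, f (ρ x' m) ∈ N ⊔ N.map (ρ x')) →
        ∀ m ∈ N ⊔ N.map (ρ x'), f m ∈ N ⊔ N.map (ρ x') := by
      intro f h1 h2 m hm
      obtain ⟨u, hu, w, hw, rfl⟩ := Submodule.mem_sup.1 hm
      obtain ⟨w', hw', rfl⟩ := (hmem w).1 hw
      rw [map_add]
      exact Submodule.add_mem _ (h1 u hu) (h2 w' hw')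
    have hT : N ⊔ N.map (ρ x') = ⊤ := by
      rcases hirr (N ⊔ N.map (ρ x'))
        (inv (ρ a) (fun m hm => Submodule.mem_sup_left (by rw [(m1 m).1 (hN1 hm)]; exact hm))
          (fun m hm => Submodule.mem_sup_right ((hmem _).2 ⟨ρ b m, hNb m hm, by rw [X'B]⟩)))
        (inv (ρ b) (fun m hm => Submodule.mem_sup_left (hNb m hm))
          (fun m hm => Submodule.mem_sup_right ((hmem _).2 ⟨m, hm, by
            rw [← X'A, (m1 m).1 (hN1 hm)]⟩)))
        (inv (ρ x) (fun m hm => Submodule.mem_sup_left (hNx m hm))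
          (fun m hm => Submodule.mem_sup_right ((hmem _).2 ⟨m, hm, (hNxx' m hm).symm⟩)))
        (inv (ρ x') (fun m hm => Submodule.mem_sup_right ((hmem _).2 ⟨m, hm, rfl⟩))
          (fun m hm => Submodule.mem_sup_left (by rw [X'2]; exact hm))) with h | h
      · exfalso
        apply hNne
        rw [eq_bot_iff]
        exact le_trans le_sup_left (le_of_eq h)
      · exact h
    intro m hm
    have hmT : m ∈ N ⊔ N.map (ρ x') := by rw [hT]; trivial
    obtain ⟨u, hu, w, hw, huw⟩ := Submodule.mem_sup.1 hmT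
    obtain ⟨w', hw', rfl⟩ := (hmem w).1 hw
    have hw2 : ρ x' w' ∈ M2 := x'M1 w' (hN1 hw')
    have hw1 : ρ x' w' ∈ M1 := by
      have : ρ x' w' = m - u := by rw [← huw]; abel
      rw [this]
      exact Submodule.sub_mem _ hm (hN1 hu)
    have hw0 : ρ x' w' = 0 := hdisj _ hw1 hw2
    rw [hw0, add_zero] at huw
    rw [← huw]
    exact hu
  -- Step 3: υ = ρ x ∘ ρ z is the identity on M1
  have hups : ∀ m ∈ M1, ρ x (ρ z m) = m := by
    set N1 : Submodule (ZMod 2) M := M1 ⊓ LinearMap.eqLocus ((ρ x).comp (ρ z)) LinearMap.id with hN1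
    have n1 : ∀ m, m ∈ N1 ↔ m ∈ M1 ∧ ρ x (ρ z m) = m := by
      intro m
      simp [hN1, LinearMap.mem_eqLocus]
    have hN1ne : N1 ≠ ⊥ := by
      obtain ⟨v, hv, hvne, hvfix⟩ := exists_fixed_of_invol (fun m => ρ x (ρ z m))
        (fun u w => by simp [map_add]) (fun m => by
          show ρ x (ρ z (ρ x (ρ z m))) = m
          rw [ZX, X2, Z2]) M1
        (fun m hm => xM1 _ (zM1 m hm)) m0 hm0M1 hm0
      intro h
      apply hvne
      have : v ∈ N1 := (n1 v).2 ⟨hv, hvfix⟩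
      rw [h] at this
      simpa using this
    have h := key N1 inf_le_left hN1ne
      (fun m hm => by
        rw [n1] at hm ⊢
        refine ⟨bM1 m hm.1, ?_⟩
        rw [ZB, XBB, hm.2])
      (fun m hm => by
        rw [n1] at hm ⊢
        refine ⟨xM1 m hm.1, ?_⟩
        rw [ZX, X2]
        have h := congrArg (ρ x) hm.2
        rw [X2] at h
        exact h)
      (fun m hm => by
        rw [n1] at hm
        have h1 : ρ x (ρ x' m) = ρ x' (ρ x' (ρ x (ρ x' m))) := by rw [X'2]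
        rw [h1, REL, hm.2])
    intro m hm
    exact ((n1 m).1 (h m hm)).2
  have hzx1 : ∀ m ∈ M1, ρ z m = ρ x m := by
    intro m hm
    have h := congrArg (ρ x) (hups m hm)
    rw [X2] at h
    exact h
  -- Step 4: a nonzero x-fixed vector in M1
  obtain ⟨v, hvM1, hvne, hxv⟩ := exists_fixed_of_invol (fun m => ρ x m)
    (fun u w => by simp [map_add]) X2 M1 xM1 m0 hm0M1 hm0
  have hbvM1 : ρ b v ∈ M1 := bM1 v hvM1
  -- β² v = v + β v
  have hbbv : ρ b (ρ b v) = v + ρ b v := by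
    have hE1 : v + ρ b v + ρ b (ρ b v) ∈ M1 :=
      Submodule.add_mem _ (Submodule.add_mem _ hvM1 hbvM1) (bM1 _ hbvM1)
    have hE2 : v + ρ b v + ρ b (ρ b v) ∈ M2 := by
      rw [m2, map_add, map_add, B3]
      abel
    have h0 := hdisj _ hE1 hE2
    have : ρ b (ρ b v) = -(v + ρ b v) := by
      rw [eq_neg_iff_add_eq_zero, add_comm]; exact h0
    rw [this, ZModModule.neg_eq_self]
  -- Step 5: M1 = span {v, β v}
  set U : Submodule (ZMod 2) M := Submodule.span (ZMod 2) {v, ρ b v} with hU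
  have hvU : v ∈ U := Submodule.subset_span (by simp)
  have hbvU : ρ b v ∈ U := Submodule.subset_span (by simp)
  have hUM1 : U ≤ M1 := by
    rw [hU, Submodule.span_le]
    intro w hw
    rcases hw with rfl | rfl
    · exact hvM1
    · exact hbvM1
  have hUne : U ≠ ⊥ := by
    intro h
    apply hvne
    have := hvU
    rw [h] at this
    simpa using this
  have hUinv : ∀ f : M →ₗ[ZMod 2] M, f v ∈ U → f (ρ b v) ∈ U → ∀ m ∈ U, f m ∈ U := by
    intro f h1 h2 m hm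
    have : U.map f ≤ U := by
      rw [hU, Submodule.map_span, Submodule.span_le]
      rintro w ⟨u, hu, rfl⟩
      rcases hu with rfl | rfl
      · exact h1
      · exact h2
    exact this (Submodule.mem_map_of_mem hm)
  have hM1U : ∀ m ∈ M1, m ∈ U := by
    apply key U hUM1 hUne
    · apply hUinv (ρ b) hbvU
      rw [hbbv]; exact Submodule.add_mem _ hvU hbvU
    · apply hUinv (ρ x)
      · rw [hxv]; exact hvU
      · rw [XB, hxv, hbbv]; exact Submodule.add_mem _ hvU hbvU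
    · intro m hm
      have h1 : ρ x (ρ x' m) = ρ x' (ρ x' (ρ x (ρ x' m))) := by rw [X'2]
      rw [h1, REL, hups m (hUM1 hm)]
  have hspan : ∀ m ∈ M1, ∃ c d : ZMod 2, c • v + d • ρ b v = m := by
    intro m hm
    exact Submodule.mem_span_pair.1 (hM1U m hm)
  have hbv_ne : ρ b v ≠ v := by
    intro h
    exact hvne (hdisj v hvM1 ((m2 v).2 h))
  -- x-fixed vectors of M1
  have hfixM1 : ∀ m ∈ M1, ρ x m = m → m = 0 ∨ m = v := by
    intro m hm hxm
    obtain ⟨c, d, rfl⟩ := hspan m hm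
    have hd : d = 0 := by
      rcases zmod2_cases d with hd | hd
      · exact hd
      · exfalso
        subst hd
        simp only [one_smul] at hxm
        rw [map_add, map_smul, XB, hxv, hbbv] at hxm
        have h2 := add_left_cancel hxm
        exact hvne (by simpa using h2)
    subst hd
    rcases zmod2_cases c with rfl | rfl
    · left; simp
    · right; simp
  have hx'v_ne : ρ x' v ≠ 0 := by
    intro h
    apply hvne
    have := congrArg (ρ x') h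
    rw [X'2, map_zero] at this
    exact this
  have hx'vM2 : ρ x' v ∈ M2 := x'M1 v hvM1
  have hv_ne_x'v : v ≠ ρ x' v := by
    intro h
    apply hvne
    apply hdisj v hvM1
    rw [h]; exact hx'vM2
  have hzv : ρ z v = v := by rw [hzx1 v hvM1, hxv]
  refine ⟨?_, ?_, ?_⟩
  · -- cardinality
    have hcompl : IsCompl M1 M2 := IsCompl.of_eq hinf hsup
    have hli : LinearIndependent (ZMod 2) ![v, ρ b v] := by
      rw [LinearIndependent.pair_iff]
      intro s t hst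
      rcases zmod2_cases s with rfl | rfl <;> rcases zmod2_cases t with rfl | rfl
      · exact ⟨rfl, rfl⟩
      · exfalso
        simp only [zero_smul, one_smul, zero_add] at hst
        apply hvne
        have := congrArg (ρ b) (congrArg (ρ b) hst)
        rw [B3, map_zero, map_zero] at this
        exact this
      · exfalso
        simp only [zero_smul, one_smul, add_zero] at hst
        exact hvne hst
      · exfalso
        simp only [one_smul] at hst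
        apply hbv_ne
        have : ρ b v = -v := by
          rw [eq_neg_iff_add_eq_zero, add_comm]; exact hst
        rw [this, ZModModule.neg_eq_self]
    have hM1eq : M1 = Submodule.span (ZMod 2) (Set.range ![v, ρ b v]) := by
      have hr : Set.range ![v, ρ b v] = {v, ρ b v} := by
        simp [Matrix.range_cons, Set.pair_comm]
      rw [hr]
      exact le_antisymm (fun m hm => hM1U m hm) hUM1
    have hf1 : Module.finrank (ZMod 2) M1 = 2 := by
      rw [hM1eq, finrank_span_eq_card hli]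
      simp
    -- M2 is the image of M1 under the linear equivalence ρ x'
    let e' : M ≃ₗ[ZMod 2] M := LinearEquiv.ofLinearMap (ρ x') (ρ x')
      (by ext m; simp [X'2]) (by ext m; simp [X'2])
    have hM2eq : M2 = M1.map (e' : M →ₗ[ZMod 2] M) := by
      ext m
      constructor
      · intro hm
        exact Submodule.mem_map.2 ⟨ρ x' m, x'M2 m hm, X'2 m⟩
      · intro hm
        obtain ⟨u, hu, rfl⟩ := Submodule.mem_map.1 hm
        exact x'M1 u hu
    have hf2 : Module.finrank (ZMod 2) M2 = 2 := by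
      rw [hM2eq, LinearEquiv.finrank_map_eq, hf1]
    have hf : Module.finrank (ZMod 2) M = 4 := by
      rw [← Submodule.finrank_add_eq_of_isCompl hcompl, hf1, hf2]
    rw [Module.natCard_eq_pow_finrank (K := ZMod 2) (V := M), hf]
    simp
  · -- fixed points of ⟨x', z⟩
    rw [Nat.card_eq_two_iff]
    have hw0 : ρ x' (v + ρ x' v) = v + ρ x' v ∧ ρ z (v + ρ x' v) = v + ρ x' v := by
      refine ⟨?_, ?_⟩
      · rw [map_add, X'2, add_comm]
      · rw [map_add, ZX', hzv]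
    have hwne : v + ρ x' v ≠ 0 := by
      intro h
      apply hv_ne_x'v
      have : v = -ρ x' v := by
        rw [eq_neg_iff_add_eq_zero]; exact h
      exact this.trans (ZModModule.neg_eq_self _)
    refine ⟨⟨0, by simp⟩, ⟨v + ρ x' v, hw0⟩, ?_, ?_⟩
    · intro h
      apply hwne
      have := congrArg Subtype.val h
      exact this.symm
    · ext ⟨m, hm1, hm2⟩
      simp only [Set.mem_insert_iff, Set.mem_singleton_iff, Set.mem_univ, iff_true, Subtype.mk.injEq]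
      have hmT : m ∈ M1 ⊔ M2 := by rw [hsup]; trivial
      obtain ⟨u, hu, w, hw, rfl⟩ := Submodule.mem_sup.1 hmT
      -- x' swaps: w = x' u
      have hwu : w = ρ x' u := by
        rw [map_add] at hm1
        have h1 : w - ρ x' u ∈ M2 := Submodule.sub_mem _ hw (x'M1 u hu)
        have h2 : w - ρ x' u ∈ M1 := by
          have : w - ρ x' u = ρ x' w - u := by
            have h3 : ρ x' w - u = (ρ x' u + ρ x' w) - (u + ρ x' u) := by abel
            rw [h3, hm1]; abel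
          rw [this]
          exact Submodule.sub_mem _ (x'M2 w hw) hu
        have := hdisj _ h2 h1
        exact sub_eq_zero.1 this
      subst hwu
      -- z fixes u
      have hzu : ρ z u = u := by
        rw [map_add, ZX'] at hm2
        have h1 : ρ z u - u ∈ M1 := Submodule.sub_mem _ (zM1 u hu) hu
        have h2 : ρ z u - u ∈ M2 := by
          have : ρ z u - u = ρ x' u - ρ x' (ρ z u) := by
            have h3 : ρ x' u - ρ x' (ρ z u) = (u + ρ x' u) - (ρ z u + ρ x' (ρ z u)) + (ρ z u - u) := by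
              abel
            rw [h3, hm2]; abel
          rw [this]
          exact Submodule.sub_mem _ (x'M1 u hu) (x'M1 _ (zM1 u hu))
        exact sub_eq_zero.1 (hdisj _ h1 h2)
      have hxu : ρ x u = u := by rw [← hzx1 u hu, hzu]
      rcases hfixM1 u hu hxu with rfl | rfl
      · left; simp
      · right; rfl
  · -- fixed points of ⟨x, z⟩: at least three
    intro hcard
    have hxx'v : ρ x (ρ x' v) = ρ x' v := by
      have h1 : ρ x (ρ x' v) = ρ x' (ρ x' (ρ x (ρ x' v))) := by rw [X'2]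
      rw [h1, REL, hups v hvM1]
    have hzx'v : ρ z (ρ x' v) = ρ x' v := by rw [ZX', hzv]
    rw [Nat.card_eq_two_iff] at hcard
    obtain ⟨p, q, hpq, huniv⟩ := hcard
    have h0 : (⟨0, by simp⟩ : {m : M // ρ x m = m ∧ ρ z m = m}) ∈ ({p, q} : Set _) := by
      rw [huniv]; trivial
    have h1 : (⟨v, hxv, hzv⟩ : {m : M // ρ x m = m ∧ ρ z m = m}) ∈ ({p, q} : Set _) := by
      rw [huniv]; trivial
    have h2 : (⟨ρ x' v, hxx'v, hzx'v⟩ : {m : M // ρ x m = m ∧ ρ z m = m}) ∈ ({p, q} : Set _) := by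
      rw [huniv]; trivial
    simp only [Set.mem_insert_iff, Set.mem_singleton_iff] at h0 h1 h2
    have e01 : (⟨0, by simp⟩ : {m : M // ρ x m = m ∧ ρ z m = m}) ≠ ⟨v, hxv, hzv⟩ := by
      intro h; exact hvne (congrArg Subtype.val h).symm
    have e02 : (⟨0, by simp⟩ : {m : M // ρ x m = m ∧ ρ z m = m}) ≠ ⟨ρ x' v, hxx'v, hzx'v⟩ := by
      intro h; exact hx'v_ne (congrArg Subtype.val h).symm
    have e12 : (⟨v, hxv, hzv⟩ : {m : M // ρ x m = m ∧ ρ z m = m}) ≠ ⟨ρ x' v, hxx'v, hzx'v⟩ := by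
      intro h; exact hv_ne_x'v (congrArg Subtype.val h)
    rcases h0 with h0 | h0 <;> rcases h1 with h1 | h1 <;> rcases h2 with h2 | h2
    · exact e01 (h0.trans h1.symm)
    · exact e01 (h0.trans h1.symm)
    · exact e02 (h0.trans h2.symm)
    · exact e12 (h1.trans h2.symm)
    · exact e12 (h1.trans h2.symm)
    · exact e02 (h0.trans h2.symm)
    · exact e01 (h0.trans h1.symm)
    · exact e01 (h0.trans h1.symm)


open DihedralGroup

lemma d8_r4 : (r 1 : DihedralGroup 4) ^ 4 = 1 := by decide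
lemma d8_s2 : (sr 0 : DihedralGroup 4) ^ 2 = 1 := by decide
lemma d8_srs : (sr 0 : DihedralGroup 4) * r 1 * sr 0 = (r 1)⁻¹ := by decide
lemma d8_r2 : (r 1 : DihedralGroup 4) ^ 2 ≠ 1 := by decide
lemma d8_s_ne : (sr 0 : DihedralGroup 4) ≠ (r 1) ^ 2 := by decide
lemma d8_gen : ∀ g : DihedralGroup 4, ∃ k < 2, ∃ l < 4, g = (sr 0) ^ k * (r 1) ^ l := by decide

/-- first four-group of `D₈` -/
def W1 : Subgroup (DihedralGroup 4) where
  carrier := {g | g = 1 ∨ g = r 2 ∨ g = sr 0 ∨ g = sr 2}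
  mul_mem' := by
    intro a b ha hb
    revert a b
    show ∀ a b : DihedralGroup 4, (a = 1 ∨ a = r 2 ∨ a = sr 0 ∨ a = sr 2) →
      (b = 1 ∨ b = r 2 ∨ b = sr 0 ∨ b = sr 2) → (a * b = 1 ∨ a * b = r 2 ∨ a * b = sr 0 ∨ a * b = sr 2)
    decide
  one_mem' := Or.inl rfl
  inv_mem' := by
    intro a ha
    revert a
    show ∀ a : DihedralGroup 4, (a = 1 ∨ a = r 2 ∨ a = sr 0 ∨ a = sr 2) →
      (a⁻¹ = 1 ∨ a⁻¹ = r 2 ∨ a⁻¹ = sr 0 ∨ a⁻¹ = sr 2)
    decide

/-- second four-group of `D₈` -/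
def W2 : Subgroup (DihedralGroup 4) where
  carrier := {g | g = 1 ∨ g = r 2 ∨ g = sr 1 ∨ g = sr 3}
  mul_mem' := by
    intro a b ha hb
    revert a b
    show ∀ a b : DihedralGroup 4, (a = 1 ∨ a = r 2 ∨ a = sr 1 ∨ a = sr 3) →
      (b = 1 ∨ b = r 2 ∨ b = sr 1 ∨ b = sr 3) → (a * b = 1 ∨ a * b = r 2 ∨ a * b = sr 1 ∨ a * b = sr 3)
    decide
  one_mem' := Or.inl rfl
  inv_mem' := by
    intro a ha
    revert a
    show ∀ a : DihedralGroup 4, (a = 1 ∨ a = r 2 ∨ a = sr 1 ∨ a = sr 3) →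
      (a⁻¹ = 1 ∨ a⁻¹ = r 2 ∨ a⁻¹ = sr 1 ∨ a⁻¹ = sr 3)
    decide

lemma mem_W1 (g : DihedralGroup 4) : g ∈ W1 ↔ (g = 1 ∨ g = r 2 ∨ g = sr 0 ∨ g = sr 2) := Iff.rfl
lemma mem_W2 (g : DihedralGroup 4) : g ∈ W2 ↔ (g = 1 ∨ g = r 2 ∨ g = sr 1 ∨ g = sr 3) := Iff.rfl

instance : DecidablePred (· ∈ W1) := fun g =>
  decidable_of_iff _ (mem_W1 g).symm
instance : DecidablePred (· ∈ W2) := fun g =>
  decidable_of_iff _ (mem_W2 g).symm

lemma card_W1 : Nat.card W1 = 4 := by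
  rw [Nat.card_eq_fintype_card]; decide
lemma card_W2 : Nat.card W2 = 4 := by
  rw [Nat.card_eq_fintype_card]; decide

lemma d8_key : ∀ b : DihedralGroup 4, b ^ 2 = 1 → b ≠ 1 → b ≠ r 2 →
    (∀ h : DihedralGroup 4, h ^ 2 = 1 → (b * h) ^ 2 = 1 →
      (h = 1 ∨ h = r 2 ∨ h = sr 0 ∨ h = sr 2)) ∨
    (∀ h : DihedralGroup 4, h ^ 2 = 1 → (b * h) ^ 2 = 1 →
      (h = 1 ∨ h = r 2 ∨ h = sr 1 ∨ h = sr 3)) := by decide

lemma d8_sub (B : Subgroup (DihedralGroup 4)) (hc : Nat.card B = 4) (he : ∀ b ∈ B, b ^ 2 = 1) :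
    B = W1 ∨ B = W2 := by
  have hex : ∃ b ∈ B, b ≠ 1 ∧ b ≠ r 2 := by
    by_contra hcon
    push Not at hcon
    have hsub : (B : Set (DihedralGroup 4)) ⊆ {1, r 2} := by
      intro b hb
      by_cases h1 : b = 1
      · left; exact h1
      · right; exact hcon b hb h1
    have h1 : Nat.card B ≤ 2 := by
      show Nat.card (B : Set (DihedralGroup 4)) ≤ 2
      rw [Nat.card_coe_set_eq]
      refine le_trans (Set.ncard_le_ncard hsub (Set.toFinite _)) ?_
      refine le_trans (Set.ncard_insert_le _ _) ?_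
      rw [Set.ncard_singleton]
    omega
  obtain ⟨b, hbB, hb1, hb2⟩ := hex
  rcases d8_key b (he b hbB) hb1 hb2 with h | h
  · left
    apply Subgroup.eq_of_le_of_card_ge
    · intro g hg
      exact h g (he g hg) (he _ (B.mul_mem hbB hg))
    · rw [hc, card_W1]
  · right
    apply Subgroup.eq_of_le_of_card_ge
    · intro g hg
      exact h g (he g hg) (he _ (B.mul_mem hbB hg))
    · rw [hc, card_W2]

lemma W1_sq : ∀ g : DihedralGroup 4, g ∈ W1 → g ^ 2 = 1 := by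
  show ∀ g : DihedralGroup 4, (g = 1 ∨ g = r 2 ∨ g = sr 0 ∨ g = sr 2) → g ^ 2 = 1
  decide
lemma W2_sq : ∀ g : DihedralGroup 4, g ∈ W2 → g ^ 2 = 1 := by
  show ∀ g : DihedralGroup 4, (g = 1 ∨ g = r 2 ∨ g = sr 1 ∨ g = sr 3) → g ^ 2 = 1
  decide


section grp

variable {S : Type*} [Group S]

/-- conjugation -/
def cj (g a : S) : S := g * a * g⁻¹

lemma cj_mul (g a b : S) : cj g (a * b) = cj g a * cj g b := by simp [cj]
lemma cj_inv (g a : S) : cj g a⁻¹ = (cj g a)⁻¹ := by simp [cj, mul_assoc]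
lemma cj_cj (g h a : S) : cj g (cj h a) = cj (g * h) a := by simp [cj, mul_assoc]
lemma cj_one (a : S) : cj 1 a = a := by simp [cj]
lemma cj_one' (g : S) : cj g 1 = 1 := by simp [cj]
lemma mul_eq_cj_mul (g a : S) : g * a = cj g a * g := by simp [cj]

lemma one_of_sq_cube {g : S} (h2 : g ^ 2 = 1) (h3 : g ^ 3 = 1) : g = 1 := by
  have h : g ^ 3 = g ^ 2 * g := pow_succ g 2
  rw [h3, h2, one_mul] at h
  exact h.symm

lemma zmod3_sq_add_one : ∀ t : ZMod 3, t * t + 1 ≠ 0 := by decide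

lemma z_inverts [Finite S] (A : Subgroup S) [hAN : A.Normal]
    (hAc : ∀ a ∈ A, ∀ b ∈ A, a * b = b * a) (hA3 : ∀ a ∈ A, a ^ 3 = 1) (hA9 : Nat.card A = 9)
    (hAC : Subgroup.centralizer (A : Set S) = A) (r : S) (hr4 : r ^ 4 = 1) (hr2 : r ^ 2 ≠ 1) :
    ∀ a ∈ A, cj (r ^ 2) a = a⁻¹ := by
  set z := r ^ 2 with hz
  have hz2 : z ^ 2 = 1 := by rw [hz, ← pow_mul]; exact hr4
  have hzz : z * z = 1 := by rw [← sq]; exact hz2
  have hAn : ∀ g : S, ∀ a ∈ A, cj g a ∈ A := fun g a ha => hAN.conj_mem a ha g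
  have h1 : ∃ a1 ∈ A, cj z a1 ≠ a1 := by
    by_contra hcon
    push Not at hcon
    have hzA : z ∈ A := by
      rw [← hAC, Subgroup.mem_centralizer_iff]
      intro a ha
      have h := hcon a ha
      unfold cj at h
      calc a * z = (z * a * z⁻¹) * z := by rw [h]
        _ = z * a := by group
    exact hr2 (one_of_sq_cube hz2 (hA3 z hzA))
  obtain ⟨a1, ha1, hne⟩ := h1
  set w := a1 * (cj z a1)⁻¹ with hw
  have hwA : w ∈ A := A.mul_mem ha1 (A.inv_mem (hAn z a1 ha1))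
  have hw1 : w ≠ 1 := by
    intro h
    apply hne
    exact (mul_inv_eq_one.1 h).symm
  have hzw : cj z w = w⁻¹ := by
    rw [hw, cj_mul, cj_inv, cj_cj, hzz, cj_one, mul_inv_rev, inv_inv]
  let I : Subgroup S :=
    { carrier := {a | a ∈ A ∧ cj z a = a⁻¹}
      mul_mem' := by
        rintro a b ⟨ha, ha'⟩ ⟨hb, hb'⟩
        refine ⟨A.mul_mem ha hb, ?_⟩
        rw [cj_mul, ha', hb', mul_inv_rev]
        exact hAc _ (A.inv_mem ha) _ (A.inv_mem hb)
      one_mem' := ⟨A.one_mem, by simp [cj]⟩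
      inv_mem' := by
        rintro a ⟨ha, ha'⟩
        exact ⟨A.inv_mem ha, by rw [cj_inv, ha']⟩ }
  have hIA : I ≤ A := fun a ha => ha.1
  by_contra hcon
  push Not at hcon
  obtain ⟨a2, ha2, hne2⟩ := hcon
  have hIne : I ≠ A := by
    intro h
    have h' : a2 ∈ I := by rw [h]; exact ha2
    exact hne2 h'.2
  have hdvd : Nat.card I ∣ 9 := by rw [← hA9]; exact Subgroup.card_dvd_of_le hIA
  have hwI : w ∈ I := ⟨hwA, hzw⟩
  have hcard : Nat.card I = 3 := by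
    have h9 : (9 : ℕ) = 3 ^ 2 := by norm_num
    rw [h9] at hdvd
    obtain ⟨k, hk, hk'⟩ := (Nat.dvd_prime_pow Nat.prime_three).1 hdvd
    interval_cases k
    · exfalso
      have hb : I = ⊥ := Subgroup.card_eq_one.1 (by simpa using hk')
      rw [hb] at hwI
      exact hw1 (Subgroup.mem_bot.1 hwI)
    · simpa using hk'
    · exfalso
      apply hIne
      exact Subgroup.eq_of_le_of_card_ge hIA (by rw [hA9, hk']; norm_num)
  have htI : cj r w ∈ I := by
    refine ⟨hAn r w hwA, ?_⟩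
    have hzr : z * r = r * z := by rw [hz]; group
    rw [cj_cj, hzr, ← cj_cj, hzw, cj_inv]
  have : Fact (Nat.Prime 3) := ⟨Nat.prime_three⟩
  have hgen := zpowers_eq_top_of_prime_card (G := I) hcard (g := ⟨w, hwI⟩)
    (by intro h; exact hw1 (congrArg Subtype.val h))
  have hmem : (⟨cj r w, htI⟩ : I) ∈ Subgroup.zpowers (⟨w, hwI⟩ : I) := by rw [hgen]; trivial
  obtain ⟨k, hk⟩ := Subgroup.mem_zpowers_iff.1 hmem
  have hk' : w ^ k = cj r w := by
    have h := congrArg Subtype.val hk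
    simpa using h
  have h2 : cj z w = w ^ (k * k) := by
    have h : cj r (w ^ k) = (cj r w) ^ k := by unfold cj; exact (conj_zpow).symm
    rw [hz, sq, ← cj_cj, ← hk', h, ← hk', ← zpow_mul]
  have h3 : w ^ (k * k + 1) = 1 := by
    rw [zpow_add, zpow_one, ← h2, hzw]; group
  have ho : orderOf w = 3 := orderOf_eq_prime (hA3 w hwA) hw1
  have h4 : (3 : ℤ) ∣ k * k + 1 := by
    have h := orderOf_dvd_iff_zpow_eq_one.2 h3
    rw [ho] at h
    exact_mod_cast h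
  have h5 : ((k * k + 1 : ℤ) : ZMod 3) = 0 := (ZMod.intCast_zmod_eq_zero_iff_dvd _ 3).2 h4
  push_cast at h5
  exact zmod3_sq_add_one _ h5

lemma exists_fixed (A : Subgroup S) [hAN : A.Normal]
    (hAc : ∀ a ∈ A, ∀ b ∈ A, a * b = b * a) (hA3 : ∀ a ∈ A, a ^ 3 = 1)
    (hAC : Subgroup.centralizer (A : Set S) = A) (x z : S) (hx2 : x ^ 2 = 1) (hz2 : z ^ 2 = 1)
    (hxz : x * z = z * x) (hne : x ≠ z) (hzinv : ∀ a ∈ A, cj z a = a⁻¹) :
    ∃ a0 ∈ A, a0 ≠ 1 ∧ cj x a0 = a0 := by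
  have hxx : x * x = 1 := by rw [← sq]; exact hx2
  have hzz : z * z = 1 := by rw [← sq]; exact hz2
  have hAn : ∀ g : S, ∀ a ∈ A, cj g a ∈ A := fun g a ha => hAN.conj_mem a ha g
  have h1 : ∃ a ∈ A, cj x a ≠ a⁻¹ := by
    by_contra hcon
    push Not at hcon
    have hxzA : x * z ∈ A := by
      rw [← hAC, Subgroup.mem_centralizer_iff]
      intro a ha
      have h : cj (x * z) a = a := by
        rw [← cj_cj, hzinv a ha, cj_inv, hcon a ha, inv_inv]
      unfold cj at h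
      calc a * (x * z) = (x * z * a * (x * z)⁻¹) * (x * z) := by rw [h]
        _ = x * z * a := by group
    have h2 : (x * z) ^ 2 = 1 := by
      rw [sq]
      calc x * z * (x * z) = x * (z * x) * z := by group
        _ = x * (x * z) * z := by rw [hxz]
        _ = (x * x) * (z * z) := by group
        _ = 1 := by rw [hxx, hzz, one_mul]
    have h3 := one_of_sq_cube h2 (hA3 _ hxzA)
    apply hne
    calc x = x * (z * z) := by rw [hzz, mul_one]
      _ = (x * z) * z := by group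
      _ = z := by rw [h3, one_mul]
  obtain ⟨a, ha, hne'⟩ := h1
  refine ⟨a * cj x a, A.mul_mem ha (hAn x a ha), ?_, ?_⟩
  · intro h
    apply hne'
    exact eq_inv_of_mul_eq_one_right h
  · rw [cj_mul, cj_cj, hxx, cj_one]
    exact hAc _ (hAn x a ha) _ ha

lemma basis [Finite S] (A : Subgroup S) (hA3 : ∀ a ∈ A, a ^ 3 = 1) (hA9 : Nat.card A = 9)
    (x a0 b0 : S) (ha0 : a0 ∈ A) (hb0 : b0 ∈ A) (ha01 : a0 ≠ 1) (hb01 : b0 ≠ 1)
    (hxa : cj x a0 = a0) (hxb : cj x b0 = b0⁻¹) :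
    ∀ a ∈ A, ∃ i j : ℕ, a = a0 ^ i * b0 ^ j := by
  have : Fact (Nat.Prime 3) := ⟨Nat.prime_three⟩
  have hoa : orderOf a0 = 3 := orderOf_eq_prime (hA3 a0 ha0) ha01
  have hob : orderOf b0 = 3 := orderOf_eq_prime (hA3 b0 hb0) hb01
  have hdisj : Disjoint (Subgroup.zpowers a0) (Subgroup.zpowers b0) := by
    rw [Subgroup.disjoint_def]
    intro t ht1 ht2
    obtain ⟨i, rfl⟩ := Subgroup.mem_zpowers_iff.1 ht1
    obtain ⟨j, hj⟩ := Subgroup.mem_zpowers_iff.1 ht2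
    have h1 : cj x (a0 ^ i) = a0 ^ i := by
      unfold cj at hxa ⊢
      rw [← conj_zpow, hxa]
    have h2 : cj x (a0 ^ i) = (a0 ^ i)⁻¹ := by
      rw [← hj]
      unfold cj at hxb ⊢
      rw [← conj_zpow, hxb, inv_zpow]
    have h3 : (a0 ^ i) ^ 2 = 1 := by
      have h4 : a0 ^ i = (a0 ^ i)⁻¹ := h1.symm.trans h2
      rw [sq]
      nth_rewrite 1 [h4]
      rw [inv_mul_cancel]
    have hmem : a0 ^ i ∈ A := A.zpow_mem ha0 i
    exact one_of_sq_cube h3 (hA3 _ hmem)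
  have hinj := Subgroup.mul_injective_of_disjoint hdisj
  let f : Subgroup.zpowers a0 × Subgroup.zpowers b0 → A := fun p =>
    ⟨(p.1 : S) * (p.2 : S), A.mul_mem ((Subgroup.zpowers_le.2 ha0) p.1.2)
      ((Subgroup.zpowers_le.2 hb0) p.2.2)⟩
  have hfinj : Function.Injective f := by
    intro p q hpq
    apply hinj
    exact congrArg Subtype.val hpq
  have hcard : Nat.card A ≤ Nat.card (Subgroup.zpowers a0 × Subgroup.zpowers b0) := by
    rw [Nat.card_prod, Nat.card_zpowers, Nat.card_zpowers, hoa, hob, hA9]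
  have hbij := hfinj.bijective_of_nat_card_le hcard
  intro a ha
  obtain ⟨⟨p1, p2⟩, hp⟩ := hbij.2 ⟨a, ha⟩
  have hp' : (p1 : S) * (p2 : S) = a := congrArg Subtype.val hp
  obtain ⟨i, hi⟩ := (Submonoid.mem_powers_iff _ _).1 (mem_powers_iff_mem_zpowers.2 p1.2)
  obtain ⟨j, hj⟩ := (Submonoid.mem_powers_iff _ _).1 (mem_powers_iff_mem_zpowers.2 p2.2)
  exact ⟨i, j, by rw [← hp', ← hi, ← hj]⟩

lemma no_fix_contra {M : Type*} [AddCommGroup M] [Module (ZMod 2) M]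
    (ρ : Representation (ZMod 2) S M) (a b : S)
    (ha3 : a ^ 3 = 1) (hb3 : b ^ 3 = 1) (hab : a * b = b * a)
    (h1 : ∀ m, ρ a m = m → m = 0) (h2 : ∀ m, ρ b m = m → m = 0)
    (h3 : ∀ m, ρ (a * b) m = m → m = 0) (h4 : ∀ m, ρ (a * b⁻¹) m = m → m = 0) (m : M) :
    m = 0 := by
  have rule : ∀ g : S, g ^ 3 = 1 → (∀ m, ρ g m = m → m = 0) →
      ∀ m, ρ g (ρ g m) = m + ρ g m := by
    intro g hg hfix m
    have h0 : m + ρ g m + ρ g (ρ g m) = 0 := by
      apply hfix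
      rw [map_add, map_add, rho_cube ρ hg]; abel
    have h : ρ g (ρ g m) = -(m + ρ g m) := by rw [eq_neg_iff_add_eq_zero, add_comm]; exact h0
    rw [h, ZModModule.neg_eq_self]
  have hcomm : Commute a b := hab
  have hc3 : (a * b) ^ 3 = 1 := by rw [hcomm.mul_pow, ha3, hb3, one_mul]
  have AB : ∀ m, ρ a (ρ b m) = ρ b (ρ a m) := rho_rel ρ hab
  have RA := rule a ha3 h1
  have RB := rule b hb3 h2
  have key : ∀ m, ρ a m = ρ b m := by
    intro m
    have RC := rule (a * b) hc3 h3 m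
    simp only [rho_mul] at RC
    have e : ρ a (ρ b (ρ a (ρ b m))) = ρ a (ρ a (ρ b (ρ b m))) := by rw [AB (ρ b m)]
    rw [e, RB m, map_add, map_add, RA m, RA (ρ b m)] at RC
    have h : ρ a m + ρ b m = 0 := by
      have h' : (m + ρ a m) + (ρ b m + ρ a (ρ b m)) - (m + ρ a (ρ b m)) = 0 := sub_eq_zero.2 RC
      rw [← h']; abel
    have h'' : ρ a m = -ρ b m := eq_neg_of_add_eq_zero_left h
    rw [h'', ZModModule.neg_eq_self]
  apply h4 m
  rw [rho_mul, key, ← rho_mul, mul_inv_cancel, rho_one]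

end grp


section main

open DihedralGroup

variable {S : Type*} [Group S] [Finite S] {M : Type*} [AddCommGroup M] [Module (ZMod 2) M]
  [Finite M]

lemma d8_sr2 : (sr 0 * r 1 : DihedralGroup 4) ^ 2 = 1 := by decide
lemma d8_z2 : ((r 1 : DihedralGroup 4) ^ 2) ^ 2 = 1 := by decide
lemma d8_zs : (r 1 : DihedralGroup 4) ^ 2 * sr 0 = sr 0 * (r 1) ^ 2 := by decide
lemma d8_zsr : (r 1 : DihedralGroup 4) ^ 2 * (sr 0 * r 1) = (sr 0 * r 1) * (r 1) ^ 2 := by decide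
lemma d8_rel : (sr 0 * r 1 : DihedralGroup 4) * sr 0 * (sr 0 * r 1) = sr 0 * (r 1) ^ 2 := by
  decide
lemma d8_rel' : (sr 0 : DihedralGroup 4) * (sr 0 * r 1) * sr 0 = (sr 0 * r 1) * (r 1) ^ 2 := by
  decide
lemma d8_conj : (sr 0 : DihedralGroup 4) * (sr 0 * r 1) = (sr 0 * r 1) * (sr 0 * (r 1) ^ 2) := by
  decide
lemma d8_e1 : (r 2 : DihedralGroup 4) = (r 1) ^ 2 := by decide
lemma d8_e2 : (sr 2 : DihedralGroup 4) = sr 0 * (r 1) ^ 2 := by decide
lemma d8_e3 : (sr 1 : DihedralGroup 4) = sr 0 * r 1 := by decide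
lemma d8_e4 : (sr 3 : DihedralGroup 4) = sr 0 * r 1 * (r 1) ^ 2 := by decide

omit [Finite S] [Finite M] in
lemma inv_pow_of_inv (ρ : Representation (ZMod 2) S M) (N : Submodule (ZMod 2) M) (g : S)
    (h : ∀ m ∈ N, ρ g m ∈ N) (k : ℕ) : ∀ m ∈ N, ρ (g ^ k) m ∈ N := by
  induction k with
  | zero => intro m hm; rw [pow_zero, rho_one]; exact hm
  | succ k ih => intro m hm; rw [pow_succ, rho_mul]; exact ih _ (h m hm)

omit [Finite S] [Finite M] in
lemma inv_mul_of_inv (ρ : Representation (ZMod 2) S M) (N : Submodule (ZMod 2) M) (g h : S)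
    (hg : ∀ m ∈ N, ρ g m ∈ N) (hh : ∀ m ∈ N, ρ h m ∈ N) : ∀ m ∈ N, ρ (g * h) m ∈ N := by
  intro m hm; rw [rho_mul]; exact hg _ (hh m hm)

omit [Finite S] in
lemma gen_rel (a b : S) (hab : a * b = b * a) (ha3 : a ^ 3 = 1) (hb3 : b ^ 3 = 1) :
    a = ((a * b) * (a * b⁻¹)) ^ 2 ∧ b = ((a * b) * (a * b⁻¹) ^ 2) ^ 2 := by
  have hcj1 : b * a * b⁻¹ = a := by rw [← hab]; group
  have hcj2 : a * (b * b) * a⁻¹ = b * b := by
    have h : a * (b * b) = (b * b) * a := by rw [← mul_assoc, hab, mul_assoc, hab, ← mul_assoc]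
    rw [h]; group
  have e1 : a * b * (a * b⁻¹) = a * a := by
    calc a * b * (a * b⁻¹) = a * (b * a * b⁻¹) := by group
      _ = a * a := by rw [hcj1]
  have e2 : a * b * (a * b⁻¹)⁻¹ = b * b := by
    calc a * b * (a * b⁻¹)⁻¹ = a * (b * b) * a⁻¹ := by group
      _ = b * b := hcj2
  have e3 : ∀ g : S, g ^ 3 = 1 → g * g * (g * g) = g := by
    intro g hg
    have h : g * g * g = 1 := by rw [← hg, pow_succ, pow_two]
    calc g * g * (g * g) = (g * g * g) * g := by simp only [mul_assoc]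
      _ = g := by rw [h, one_mul]
  have hd3 : (a * b⁻¹) ^ 3 = 1 := by
    have hc : Commute a b⁻¹ := (show Commute a b from hab).inv_right
    rw [hc.mul_pow, ha3, inv_pow, hb3, inv_one, one_mul]
  have hdinv : (a * b⁻¹) ^ 2 = (a * b⁻¹)⁻¹ := by
    symm; apply inv_eq_of_mul_eq_one_right; rw [← pow_succ', hd3]
  constructor
  · rw [e1, sq]; exact (e3 a ha3).symm
  · rw [hdinv, e2, sq]; exact (e3 b hb3).symm

omit [Finite S] [Finite M] in
lemma fixcard (ρ : Representation (ZMod 2) S M) (V : Subgroup S) (t z : S)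
    (hV : ∀ g, g ∈ V ↔ (g = 1 ∨ g = z ∨ g = t ∨ g = t * z)) :
    Nat.card {m : M // ∀ b ∈ V, ρ b m = m} = Nat.card {m : M // ρ t m = m ∧ ρ z m = m} := by
  apply Nat.card_congr
  apply Equiv.subtypeEquivRight
  intro m
  constructor
  · intro h
    exact ⟨h t ((hV t).2 (Or.inr (Or.inr (Or.inl rfl)))), h z ((hV z).2 (Or.inr (Or.inl rfl)))⟩
  · rintro ⟨ht, hz⟩ b hb
    rcases (hV b).1 hb with rfl | rfl | rfl | rfl
    · exact rho_one ρ m
    · exact hz
    · exact ht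
    · rw [rho_mul, hz, ht]

omit [Finite S] [Finite M] in
lemma final (X V Vbad : Subgroup S) (hV : V ≤ X) (hVc : Nat.card V = 4)
    (hV2 : ∀ b ∈ V, b ^ 2 = 1)
    (hclass : ∀ B : Subgroup S, B ≤ X → Nat.card B = 4 → (∀ b ∈ B, b ^ 2 = 1) →
      B = V ∨ B = Vbad)
    (ρ : Representation (ZMod 2) S M)
    (hgood : Nat.card {m : M // ∀ b ∈ V, ρ b m = m} = 2)
    (hbad : Nat.card {m : M // ∀ b ∈ Vbad, ρ b m = m} ≠ 2) :
    ∃! B : Subgroup S, B ≤ X ∧ Nat.card B = 4 ∧ (∀ b ∈ B, b ^ 2 = 1) ∧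
      Nat.card {m : M // ∀ b ∈ B, ρ b m = m} = 2 := by
  refine ⟨V, ⟨hV, hVc, hV2, hgood⟩, ?_⟩
  rintro B ⟨hB, hBc, hB2, hBf⟩
  rcases hclass B hB hBc hB2 with h | h
  · exact h
  · exfalso; rw [h] at hBf; exact hbad hBf

theorem main_aux (A X : Subgroup S) [hAN : A.Normal]
    (hAc : ∀ a ∈ A, ∀ b ∈ A, a * b = b * a) (hA3 : ∀ a ∈ A, a ^ 3 = 1) (hA9 : Nat.card A = 9)
    (hAC : Subgroup.centralizer (A : Set S) = A) (hAX : A ⊔ X = ⊤)
    (rr ss : S)
    (hr4 : rr ^ 4 = 1) (hr2 : rr ^ 2 ≠ 1) (hs2 : ss ^ 2 = 1) (hsr2 : (ss * rr) ^ 2 = 1)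
    (hsne : ss ≠ rr ^ 2) (hz2 : (rr ^ 2) ^ 2 = 1) (hzs : rr ^ 2 * ss = ss * rr ^ 2)
    (hzsr : rr ^ 2 * (ss * rr) = (ss * rr) * rr ^ 2)
    (hrel : (ss * rr) * ss * (ss * rr) = ss * rr ^ 2)
    (hrel' : ss * (ss * rr) * ss = (ss * rr) * rr ^ 2)
    (hconj : ss * (ss * rr) = (ss * rr) * (ss * rr ^ 2))
    (hXgen : ∀ g ∈ X, ∃ k l : ℕ, g = ss ^ k * rr ^ l)
    (ρ : Representation (ZMod 2) S M) (hfaith : Function.Injective ρ)
    (hirr : ∀ N : Submodule (ZMod 2) M, (∀ s : S, ∀ m ∈ N, ρ s m ∈ N) → N = ⊥ ∨ N = ⊤)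
    (hM : Nontrivial M) :
    Nat.card M = 16 ∧
    ((Nat.card {m : M // ρ (ss * rr) m = m ∧ ρ (rr ^ 2) m = m} = 2 ∧
        Nat.card {m : M // ρ ss m = m ∧ ρ (rr ^ 2) m = m} ≠ 2) ∨
     (Nat.card {m : M // ρ ss m = m ∧ ρ (rr ^ 2) m = m} = 2 ∧
        Nat.card {m : M // ρ (ss * rr) m = m ∧ ρ (rr ^ 2) m = m} ≠ 2)) := by
  have hzA := z_inverts A hAc hA3 hA9 hAC rr hr4 hr2
  obtain ⟨a0, ha0, ha01, hsa0⟩ :=
    exists_fixed A hAc hA3 hAC ss (rr ^ 2) hs2 hz2 hzs.symm hsne hzA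
  have hAn : ∀ g : S, ∀ a ∈ A, cj g a ∈ A := fun g a ha => hAN.conj_mem a ha g
  obtain ⟨x', hx'⟩ : ∃ x', x' = ss * rr := ⟨_, rfl⟩
  obtain ⟨z, hz⟩ : ∃ z, z = rr ^ 2 := ⟨_, rfl⟩
  rw [← hx'] at hsr2 hzsr hrel hrel' hconj
  rw [← hz] at hz2 hzs hzsr hrel hrel' hconj hzA hsne
  rw [← hx', ← hz]
  have hx'x' : x' * x' = 1 := by rw [← sq]; exact hsr2
  have hss : ss * ss = 1 := by rw [← sq]; exact hs2
  obtain ⟨b0, hb0def⟩ : ∃ b0, b0 = cj x' a0 := ⟨_, rfl⟩
  have hb0 : b0 ∈ A := by rw [hb0def]; exact hAn _ _ ha0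
  have hx'b0 : cj x' b0 = a0 := by rw [hb0def, cj_cj, hx'x', cj_one]
  have hsb0 : cj ss b0 = b0⁻¹ := by
    rw [hb0def, cj_cj, hconj, ← cj_cj, ← cj_cj, hzA a0 ha0, cj_inv, hsa0, cj_inv]
  have hb01 : b0 ≠ 1 := by
    intro h
    apply ha01
    rw [← hx'b0, h, cj_one']
  have hbasis := basis A hA3 hA9 ss a0 b0 ha0 hb0 ha01 hb01 hsa0 hsb0
  have hab0 : a0 * b0 = b0 * a0 := hAc a0 ha0 b0 hb0
  -- invariance under the generators implies invariance under the whole group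
  have hgen : ∀ N : Submodule (ZMod 2) M, (∀ m ∈ N, ρ a0 m ∈ N) → (∀ m ∈ N, ρ b0 m ∈ N) →
      (∀ m ∈ N, ρ ss m ∈ N) → (∀ m ∈ N, ρ x' m ∈ N) → N = ⊥ ∨ N = ⊤ := by
    intro N h1 h2 h3 h4
    apply hirr N
    have hrrinv : ∀ m ∈ N, ρ rr m ∈ N := by
      have e : rr = ss * x' := by rw [hx', ← mul_assoc, hss, one_mul]
      rw [e]
      exact inv_mul_of_inv ρ N _ _ h3 h4
    intro g
    have hg : g ∈ ((A ⊔ X : Subgroup S) : Set S) := by rw [hAX]; trivial
    rw [Subgroup.normal_mul] at hg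
    obtain ⟨a, ha, h, hh, rfl⟩ := Set.mem_mul.1 hg
    obtain ⟨i, j, rfl⟩ := hbasis a ha
    obtain ⟨k, l, rfl⟩ := hXgen h hh
    exact inv_mul_of_inv ρ N _ _
      (inv_mul_of_inv ρ N _ _ (inv_pow_of_inv ρ N _ h1 i) (inv_pow_of_inv ρ N _ h2 j))
      (inv_mul_of_inv ρ N _ _ (inv_pow_of_inv ρ N _ h3 k) (inv_pow_of_inv ρ N _ hrrinv l))
  have hza0 : z * a0 = a0⁻¹ * z := by rw [mul_eq_cj_mul, hzA a0 ha0]
  have hzb0 : z * b0 = b0⁻¹ * z := by rw [mul_eq_cj_mul, hzA b0 hb0]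
  by_cases hI : ∃ m : M, m ≠ 0 ∧ ρ a0 m = m
  · -- Case I
    have hc := core ρ hfaith a0 b0 ss x' z (hA3 a0 ha0) (hA3 b0 hb0) hab0 ha01 hs2 hsr2 hz2
      (by rw [mul_eq_cj_mul, hsa0]) (by rw [mul_eq_cj_mul, hsb0])
      (by rw [mul_eq_cj_mul, ← hb0def])
      hzs hzsr hza0 hzb0 hrel hgen hI
    exact ⟨hc.1, Or.inl ⟨hc.2.1, hc.2.2⟩⟩
  · obtain ⟨a1, ha1def⟩ : ∃ a1, a1 = a0 * b0 := ⟨_, rfl⟩
    obtain ⟨b1, hb1def⟩ : ∃ b1, b1 = a0 * b0⁻¹ := ⟨_, rfl⟩
    have ha1 : a1 ∈ A := by rw [ha1def]; exact A.mul_mem ha0 hb0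
    have hb1 : b1 ∈ A := by rw [hb1def]; exact A.mul_mem ha0 (A.inv_mem hb0)
    have hsb1 : cj ss b1 = a1 := by
      rw [hb1def, ha1def, cj_mul, cj_inv, hsa0, hsb0, inv_inv]
    by_cases hII : ∃ m : M, m ≠ 0 ∧ ρ a1 m = m
    · have ha11 : a1 ≠ 1 := by
        intro h
        rw [ha1def] at h
        have h' : a0 = b0⁻¹ := eq_inv_of_mul_eq_one_left h
        have h2 : cj ss a0 = a0⁻¹ := by
          nth_rewrite 1 [h']
          rw [cj_inv, hsb0, inv_inv, h', inv_inv]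
        rw [hsa0] at h2
        apply ha01
        apply one_of_sq_cube _ (hA3 a0 ha0)
        rw [sq]; nth_rewrite 1 [h2]; exact inv_mul_cancel a0
      have hx'a1 : cj x' a1 = a1 := by
        rw [ha1def, cj_mul, hx'b0, ← hb0def]; exact hab0.symm
      have hx'b1 : cj x' b1 = b1⁻¹ := by
        rw [hb1def, cj_mul, cj_inv, hx'b0, ← hb0def, mul_inv_rev, inv_inv]
      have hsa1 : cj ss a1 = b1 := by
        rw [ha1def, hb1def, cj_mul, hsa0, hsb0]
      have hgen' : ∀ N : Submodule (ZMod 2) M, (∀ m ∈ N, ρ a1 m ∈ N) →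
          (∀ m ∈ N, ρ b1 m ∈ N) → (∀ m ∈ N, ρ x' m ∈ N) → (∀ m ∈ N, ρ ss m ∈ N) →
          N = ⊥ ∨ N = ⊤ := by
        intro N h1 h2 h3 h4
        obtain ⟨e1, e2⟩ := gen_rel a0 b0 hab0 (hA3 a0 ha0) (hA3 b0 hb0)
        rw [← ha1def, ← hb1def] at e1 e2
        apply hgen N _ _ h4 h3
        · rw [e1]; exact inv_pow_of_inv ρ N _ (inv_mul_of_inv ρ N _ _ h1 h2) 2
        · rw [e2]
          exact inv_pow_of_inv ρ N _ (inv_mul_of_inv ρ N _ _ h1 (inv_pow_of_inv ρ N _ h2 2)) 2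
      have hc := core ρ hfaith a1 b1 x' ss z (hA3 a1 ha1) (hA3 b1 hb1) (hAc a1 ha1 b1 hb1) ha11
        hsr2 hs2 hz2
        (by rw [mul_eq_cj_mul, hx'a1]) (by rw [mul_eq_cj_mul, hx'b1])
        (by rw [mul_eq_cj_mul, hsa1])
        hzsr hzs (by rw [mul_eq_cj_mul, hzA a1 ha1]) (by rw [mul_eq_cj_mul, hzA b1 hb1])
        hrel' hgen' hII
      exact ⟨hc.1, Or.inr ⟨hc.2.1, hc.2.2⟩⟩
    · exfalso
      have h1 : ∀ m, ρ a0 m = m → m = 0 := fun m hm => by
        by_contra hne; exact hI ⟨m, hne, hm⟩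
      have h3 : ∀ m, ρ (a0 * b0) m = m → m = 0 := fun m hm => by
        by_contra hne; exact hII ⟨m, hne, by rw [ha1def]; exact hm⟩
      have h2 : ∀ m, ρ b0 m = m → m = 0 := by
        intro m hm
        have e : x' * b0 = a0 * x' := by rw [mul_eq_cj_mul, hx'b0]
        have h := rho_rel ρ e m
        rw [hm] at h
        have h0 := h1 _ h.symm
        have h5 := rho_sq ρ hsr2 m
        rw [h0, map_zero] at h5
        exact h5.symm
      have h4 : ∀ m, ρ (a0 * b0⁻¹) m = m → m = 0 := by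
        intro m hm
        have e : ss * (a0 * b0⁻¹) = (a0 * b0) * ss := by
          rw [mul_eq_cj_mul, ← hb1def, hsb1, ha1def]
        have h := rho_rel ρ e m
        rw [hm] at h
        have h0 := h3 _ h.symm
        have h5 := rho_sq ρ hs2 m
        rw [h0, map_zero] at h5
        exact h5.symm
      obtain ⟨m, hm⟩ := exists_ne (0 : M)
      exact hm (no_fix_contra ρ a0 b0 (hA3 a0 ha0) (hA3 b0 hb0) hab0 h1 h2 h3 h4 m)

theorem main (A X : Subgroup S) [hAN : A.Normal]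
    (hAc : ∀ a ∈ A, ∀ b ∈ A, a * b = b * a) (hA3 : ∀ a ∈ A, a ^ 3 = 1) (hA9 : Nat.card A = 9)
    (hAC : Subgroup.centralizer (A : Set S) = A) (hX : Nonempty (X ≃* DihedralGroup 4))
    (hAX : A ⊔ X = ⊤)
    (ρ : Representation (ZMod 2) S M) (hfaith : Function.Injective ρ)
    (hirr : ∀ N : Submodule (ZMod 2) M, (∀ s : S, ∀ m ∈ N, ρ s m ∈ N) → N = ⊥ ∨ N = ⊤)
    (hM : Nontrivial M) :
    Nat.card M = 16 ∧
      ∃! B : Subgroup S, B ≤ X ∧ Nat.card B = 4 ∧ (∀ b ∈ B, b ^ 2 = 1) ∧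
        Nat.card {m : M // ∀ b ∈ B, ρ b m = m} = 2 := by
  obtain ⟨e⟩ := hX
  let φ : DihedralGroup 4 →* S := X.subtype.comp e.symm.toMonoidHom
  have hφinj : Function.Injective φ := by
    intro u v h
    exact e.symm.injective (Subtype.ext h)
  have hφX : ∀ u, φ u ∈ X := fun u => (e.symm u).2
  have hφsurj : ∀ g ∈ X, ∃ u, φ u = g := by
    intro g hg
    refine ⟨e ⟨g, hg⟩, ?_⟩
    show ((e.symm (e ⟨g, hg⟩) : X) : S) = g
    rw [e.symm_apply_apply]
  obtain ⟨rr, hrr⟩ : ∃ rr, rr = φ (r 1) := ⟨_, rfl⟩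
  obtain ⟨ss, hss⟩ : ∃ ss, ss = φ (sr 0) := ⟨_, rfl⟩
  have hr4 : rr ^ 4 = 1 := by rw [hrr, ← map_pow, d8_r4, map_one]
  have hr2 : rr ^ 2 ≠ 1 := by
    rw [hrr, ← map_pow, ← map_one φ]; exact fun h => d8_r2 (hφinj h)
  have hs2 : ss ^ 2 = 1 := by rw [hss, ← map_pow, d8_s2, map_one]
  have hsr2 : (ss * rr) ^ 2 = 1 := by rw [hss, hrr, ← map_mul, ← map_pow, d8_sr2, map_one]
  have hsne : ss ≠ rr ^ 2 := by
    rw [hss, hrr, ← map_pow]; exact fun h => d8_s_ne (hφinj h)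
  have hz2 : (rr ^ 2) ^ 2 = 1 := by rw [hrr, ← map_pow, ← map_pow, d8_z2, map_one]
  have hzs : rr ^ 2 * ss = ss * rr ^ 2 := by
    have h := congrArg φ d8_zs
    simp only [map_mul, map_pow, ← hrr, ← hss] at h
    exact h
  have hzsr : rr ^ 2 * (ss * rr) = (ss * rr) * rr ^ 2 := by
    have h := congrArg φ d8_zsr
    simp only [map_mul, map_pow, ← hrr, ← hss] at h
    exact h
  have hrel : (ss * rr) * ss * (ss * rr) = ss * rr ^ 2 := by
    have h := congrArg φ d8_rel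
    simp only [map_mul, map_pow, ← hrr, ← hss] at h
    exact h
  have hrel' : ss * (ss * rr) * ss = (ss * rr) * rr ^ 2 := by
    have h := congrArg φ d8_rel'
    simp only [map_mul, map_pow, ← hrr, ← hss] at h
    exact h
  have hconj : ss * (ss * rr) = (ss * rr) * (ss * rr ^ 2) := by
    have h := congrArg φ d8_conj
    simp only [map_mul, map_pow, ← hrr, ← hss] at h
    exact h
  have hXgen : ∀ g ∈ X, ∃ k l : ℕ, g = ss ^ k * rr ^ l := by
    intro g hg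
    obtain ⟨u, rfl⟩ := hφsurj g hg
    obtain ⟨k, -, l, -, hu⟩ := d8_gen u
    refine ⟨k, l, ?_⟩
    rw [hu, map_mul, map_pow, map_pow, ← hrr, ← hss]
  obtain ⟨h16, hcases⟩ := main_aux A X hAc hA3 hA9 hAC hAX rr ss hr4 hr2 hs2 hsr2 hsne hz2 hzs
    hzsr hrel hrel' hconj hXgen ρ hfaith hirr hM
  refine ⟨h16, ?_⟩
  have he1 : φ (r 2) = rr ^ 2 := by rw [d8_e1, map_pow, ← hrr]
  have he2 : φ (sr 2) = ss * rr ^ 2 := by rw [d8_e2, map_mul, map_pow, ← hrr, ← hss]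
  have he3 : φ (sr 1) = ss * rr := by rw [d8_e3, map_mul, ← hrr, ← hss]
  have he4 : φ (sr 3) = ss * rr * rr ^ 2 := by
    rw [d8_e4, map_mul, map_mul, map_pow, ← hrr, ← hss]
  have hV1mem : ∀ g, g ∈ W1.map φ ↔ (g = 1 ∨ g = rr ^ 2 ∨ g = ss ∨ g = ss * rr ^ 2) := by
    intro g
    constructor
    · rintro ⟨u, hu, rfl⟩
      rcases (mem_W1 u).1 hu with rfl | rfl | rfl | rfl
      · left; exact map_one φ
      · right; left; exact he1
      · right; right; left; exact hss.symm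
      · right; right; right; exact he2
    · rintro (rfl | rfl | rfl | rfl)
      · exact Subgroup.one_mem _
      · exact ⟨r 2, (mem_W1 _).2 (Or.inr (Or.inl rfl)), he1⟩
      · exact ⟨sr 0, (mem_W1 _).2 (Or.inr (Or.inr (Or.inl rfl))), hss.symm⟩
      · exact ⟨sr 2, (mem_W1 _).2 (Or.inr (Or.inr (Or.inr rfl))), he2⟩
  have hV2mem : ∀ g, g ∈ W2.map φ ↔
      (g = 1 ∨ g = rr ^ 2 ∨ g = ss * rr ∨ g = ss * rr * rr ^ 2) := by
    intro g
    constructor
    · rintro ⟨u, hu, rfl⟩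
      rcases (mem_W2 u).1 hu with rfl | rfl | rfl | rfl
      · left; exact map_one φ
      · right; left; exact he1
      · right; right; left; exact he3
      · right; right; right; exact he4
    · rintro (rfl | rfl | rfl | rfl)
      · exact Subgroup.one_mem _
      · exact ⟨r 2, (mem_W2 _).2 (Or.inr (Or.inl rfl)), he1⟩
      · exact ⟨sr 1, (mem_W2 _).2 (Or.inr (Or.inr (Or.inl rfl))), he3⟩
      · exact ⟨sr 3, (mem_W2 _).2 (Or.inr (Or.inr (Or.inr rfl))), he4⟩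
  have hVX : ∀ W : Subgroup (DihedralGroup 4), W.map φ ≤ X := by
    rintro W _ ⟨u, -, rfl⟩
    exact hφX u
  have hV1c : Nat.card (W1.map φ) = 4 := by
    rw [Subgroup.card_map_of_injective hφinj, card_W1]
  have hV2c : Nat.card (W2.map φ) = 4 := by
    rw [Subgroup.card_map_of_injective hφinj, card_W2]
  have hV1sq : ∀ b ∈ W1.map φ, b ^ 2 = 1 := by
    rintro _ ⟨u, hu, rfl⟩
    rw [← map_pow, W1_sq u hu, map_one]
  have hV2sq : ∀ b ∈ W2.map φ, b ^ 2 = 1 := by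
    rintro _ ⟨u, hu, rfl⟩
    rw [← map_pow, W2_sq u hu, map_one]
  have hclass : ∀ B : Subgroup S, B ≤ X → Nat.card B = 4 → (∀ b ∈ B, b ^ 2 = 1) →
      B = W1.map φ ∨ B = W2.map φ := by
    intro B hBX hBc hB2
    have hBr : B ≤ φ.range := by
      intro b hb
      obtain ⟨u, hu⟩ := hφsurj b (hBX hb)
      exact ⟨u, hu⟩
    have hmc : (B.comap φ).map φ = B := Subgroup.map_comap_eq_self hBr
    have hc : Nat.card (B.comap φ) = 4 := by
      rw [← Subgroup.card_map_of_injective hφinj, hmc, hBc]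
    have he : ∀ u ∈ B.comap φ, u ^ 2 = 1 := by
      intro u hu
      apply hφinj
      rw [map_pow, map_one]
      exact hB2 _ hu
    rcases d8_sub (B.comap φ) hc he with h | h
    · left; rw [← hmc, h]
    · right; rw [← hmc, h]
  have hf1 := fixcard ρ (W1.map φ) ss (rr ^ 2) hV1mem
  have hf2 := fixcard ρ (W2.map φ) (ss * rr) (rr ^ 2) hV2mem
  rcases hcases with ⟨hg, hb⟩ | ⟨hg, hb⟩
  · exact final X (W2.map φ) (W1.map φ) (hVX W2) hV2c hV2sq
      (fun B h1 h2 h3 => (hclass B h1 h2 h3).symm) ρ (hf2.trans hg) (by rw [hf1]; exact hb)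
  · exact final X (W1.map φ) (W2.map φ) (hVX W1) hV1c hV1sq hclass ρ (hf1.trans hg)
      (by rw [hf2]; exact hb)

end main

end Cfsg.Agent.H73.S3D8
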