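import Mathlib
import Cfsg.Agent.H45.S7Defs
/-!
S2357 team project (helper45), piece S7-OrdCls (ORDCLS): the class count for elements of a
given order (same double count as S8-CLS).
-/
set_option autoImplicit false

namespace Cfsg.Agent.H73.S7

open Cfsg.Agent.H45.S8 Cfsg.Agent.H45.S7

universe u

/-- conjugation preserves the order -/
theorem orderOf_conj' {G : Type*} [Group G] (c g : G) : orderOf (c * g * c⁻¹) = orderOf g :=
  (MulAut.conj c).orderOf_eq g

/-- (ORDCLS) counting the pairs `(c, g)` with `orderOf g = i` and `c g c⁻¹ ∈ C` in two ways. -/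
theorem ordCount : StOrdCount.{u} := by
  intro G _ _ C i hC
  classical
  have hpow : ∀ (c g : G), orderOf (c * g * c⁻¹) = i ↔ orderOf g = i := by
    intro c g
    rw [orderOf_conj']
  -- the pairs
  have e1 : {p : G × G // orderOf p.2 = i ∧ p.1 * p.2 * p.1⁻¹ ∈ C} ≃
      G × {x : G // x ∈ C ∧ orderOf x = i} :=
    { toFun := fun p => (p.1.1, ⟨p.1.1 * p.1.2 * p.1.1⁻¹, p.2.2, (hpow _ _).2 p.2.1⟩)
      invFun := fun q => ⟨(q.1, q.1⁻¹ * q.2.1 * q.1), by
        have h1 : q.1 * (q.1⁻¹ * q.2.1 * q.1) * q.1⁻¹ = q.2.1 := by group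
        refine ⟨?_, ?_⟩
        · have := q.2.2.2
          rw [← h1] at this
          exact (hpow _ _).1 this
        · show q.1 * (q.1⁻¹ * q.2.1 * q.1) * q.1⁻¹ ∈ C
          rw [h1]
          exact q.2.2.1⟩
      left_inv := by
        rintro ⟨⟨c, g⟩, h⟩
        apply Subtype.ext
        apply Prod.ext
        · rfl
        · show c⁻¹ * (c * g * c⁻¹) * c = g
          group
      right_inv := by
        rintro ⟨c, ⟨x, hx⟩⟩
        apply Prod.ext
        · rfl
        · apply Subtype.ext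
          show c * (c⁻¹ * x * c) * c⁻¹ = x
          group }
  -- a conjugating element for each element of the conjugacy set
  have hch : ∀ g : {g : G // orderOf g = i ∧ ∃ c : G, c * g * c⁻¹ ∈ C},
      ∃ c : G, c * g.1 * c⁻¹ ∈ C := fun g => g.2.2
  choose c₀ hc₀ using hch
  -- the normaliser
  have hnorm : ∀ (n x₀ : G), x₀ ∈ C → orderOf x₀ = i → n * x₀ * n⁻¹ ∈ C →
      n ∈ Subgroup.normalizer (C : Set G) := by
    intro n x₀ hx₀ hx₀d hx
    have hxd : orderOf (n * x₀ * n⁻¹) = i := (hpow _ _).2 hx₀d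
    have hC0 := hC x₀ hx₀ hx₀d
    have hC1 := hC _ hx hxd
    rw [Subgroup.mem_normalizer_iff]
    intro h
    constructor
    · intro hh
      rw [← hC0, Subgroup.mem_centralizer_singleton_iff] at hh
      rw [← hC1, Subgroup.mem_centralizer_singleton_iff]
      have : n * h * n⁻¹ * (n * x₀ * n⁻¹) = n * (h * x₀) * n⁻¹ := by group
      rw [this, hh]
      group
    · intro hh
      rw [← hC1, Subgroup.mem_centralizer_singleton_iff] at hh
      rw [← hC0, Subgroup.mem_centralizer_singleton_iff]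
      have : h * x₀ = n⁻¹ * (n * h * n⁻¹ * (n * x₀ * n⁻¹)) * n := by group
      rw [this, hh]
      group
  have e2 : {p : G × G // orderOf p.2 = i ∧ p.1 * p.2 * p.1⁻¹ ∈ C} ≃
      {g : G // orderOf g = i ∧ ∃ c : G, c * g * c⁻¹ ∈ C} ×
        (Subgroup.normalizer (C : Set G)) :=
    { toFun := fun p =>
        (⟨p.1.2, p.2.1, p.1.1, p.2.2⟩,
          ⟨p.1.1 * (c₀ ⟨p.1.2, p.2.1, p.1.1, p.2.2⟩)⁻¹, by
            have h0 := hc₀ ⟨p.1.2, p.2.1, p.1.1, p.2.2⟩
            refine hnorm _ _ h0 ((hpow _ _).2 p.2.1) ?_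
            have : p.1.1 * (c₀ ⟨p.1.2, p.2.1, p.1.1, p.2.2⟩)⁻¹ *
                (c₀ ⟨p.1.2, p.2.1, p.1.1, p.2.2⟩ * p.1.2 * (c₀ ⟨p.1.2, p.2.1, p.1.1, p.2.2⟩)⁻¹) *
                (p.1.1 * (c₀ ⟨p.1.2, p.2.1, p.1.1, p.2.2⟩)⁻¹)⁻¹ = p.1.1 * p.1.2 * p.1.1⁻¹ := by
              group
            rw [this]
            exact p.2.2⟩)
      invFun := fun q => ⟨(q.2.1 * c₀ q.1, q.1.1), q.1.2.1, by
        show q.2.1 * c₀ q.1 * q.1.1 * (q.2.1 * c₀ q.1)⁻¹ ∈ C
        have h0 := hc₀ q.1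
        have hn := (Subgroup.mem_normalizer_iff.1 q.2.2 _).1 h0
        have : q.2.1 * c₀ q.1 * q.1.1 * (q.2.1 * c₀ q.1)⁻¹ =
            q.2.1 * (c₀ q.1 * q.1.1 * (c₀ q.1)⁻¹) * q.2.1⁻¹ := by group
        rw [this]
        exact hn⟩
      left_inv := by
        rintro ⟨⟨c, g⟩, h⟩
        apply Subtype.ext
        apply Prod.ext
        · show c * (c₀ ⟨g, h.1, c, h.2⟩)⁻¹ * c₀ ⟨g, h.1, c, h.2⟩ = c
          group
        · rfl
      right_inv := by
        rintro ⟨⟨g, hg⟩, ⟨n, hn⟩⟩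
        apply Prod.ext
        · rfl
        · apply Subtype.ext
          show n * c₀ ⟨g, hg⟩ * (c₀ ⟨g, _⟩)⁻¹ = n
          group }
  rw [← Nat.card_prod, ← Nat.card_prod]
  exact Nat.card_congr (e2.symm.trans e1)

example : StOrdCount.{u} := ordCount

end Cfsg.Agent.H73.S7
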