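import Mathlib
import Cfsg.Agent.H45.S7Defs
import Cfsg.Agent.H73.S8Part
import Cfsg.Agent.H73.S7OrdCls
/-!
S2357 team project (helper45), piece S7-HallCnt (HALLCNT): the elements of order `i > 1` dividing
`|A|` for a cyclic self-centralising subgroup `A` with `|N(A)| = 6|A|`.
-/
set_option autoImplicit false

namespace Cfsg.Agent.H73.S7

open Cfsg.Agent.H45.S8 Cfsg.Agent.H45.S7

universe u

/-- (HALLCNT) -/
theorem hallCnt : StHallCnt.{u} := by
  intro G _ _ A hcyc hself hN hsyl hOC i hi hidvd
  classical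
  -- every element of order i is conjugate into A
  have hconj : ∀ g : G, orderOf g = i → ∃ c : G, c * g * c⁻¹ ∈ A := by
    intro g hg
    obtain ⟨p, hp, hpi⟩ := Nat.exists_prime_and_dvd (show i ≠ 1 by omega)
    have : Fact p.Prime := ⟨hp⟩
    have hpA : p ∣ Nat.card A := dvd_trans hpi hidvd
    obtain ⟨y, hy⟩ := exists_prime_orderOf_dvd_card' p hpA
    have hyo : orderOf (y : G) = p := (Subgroup.orderOf_coe y).trans hy
    have hz : orderOf (g ^ (i / p)) = p := by
      have h := orderOf_pow_orderOf_div (x := g) (n := p) (by rw [hg]; omega) (by rw [hg]; exact hpi)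
      rw [hg] at h
      exact h
    obtain ⟨c, hc⟩ := Cfsg.Agent.H73.S8.exists_conj_mem_zpowers p (hsyl p hpA) (g ^ (i / p))
      (y : G) hz hyo
    refine ⟨c, ?_⟩
    have hzA : c * g ^ (i / p) * c⁻¹ ∈ A := by
      have hle : Subgroup.zpowers (y : G) ≤ A := by
        rw [Subgroup.zpowers_le]
        exact y.2
      exact hle hc
    have hz1 : c * g ^ (i / p) * c⁻¹ ≠ 1 := by
      intro h1
      have h2 : orderOf (c * g ^ (i / p) * c⁻¹) = p := by rw [orderOf_conj', hz]
      rw [h1, orderOf_one] at h2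
      exact hp.one_lt.ne h2
    have hcent := hself _ hzA hz1
    rw [← hcent, Subgroup.mem_centralizer_singleton_iff]
    have h7 : g * g ^ (i / p) = g ^ (i / p) * g := by rw [← pow_succ', ← pow_succ]
    calc c * g * c⁻¹ * (c * g ^ (i / p) * c⁻¹) = c * (g * g ^ (i / p)) * c⁻¹ := by group
      _ = c * (g ^ (i / p) * g) * c⁻¹ := by rw [h7]
      _ = c * g ^ (i / p) * c⁻¹ * (c * g * c⁻¹) := by group
  -- the number of elements of order i of A
  have hphi : Nat.card {x : G // x ∈ A ∧ orderOf x = i} = Nat.totient i := by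
    have : Fintype ↥A := Fintype.ofFinite _
    have e : {y : ↥A // orderOf y = i} ≃ {x : G // x ∈ A ∧ orderOf x = i} :=
      { toFun := fun y => ⟨y.1.1, y.1.2, (Subgroup.orderOf_coe y.1).trans y.2⟩
        invFun := fun x => ⟨⟨x.1, x.2.1⟩, (Subgroup.orderOf_mk x.1 x.2.1).trans x.2.2⟩
        left_inv := fun y => rfl
        right_inv := fun x => rfl }
    rw [← Nat.card_congr e, Nat.card_eq_fintype_card, Fintype.card_subtype]
    exact IsCyclic.card_orderOf_eq_totient (by rw [← Nat.card_eq_fintype_card]; exact hidvd)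
  have hOC' := hOC G A i (fun x hx hxi => hself x hx (by
    intro h1
    rw [h1, orderOf_one] at hxi
    omega))
  have e2 : {g : G // orderOf g = i ∧ ∃ c : G, c * g * c⁻¹ ∈ A} ≃ {g : G // orderOf g = i} :=
    { toFun := fun g => ⟨g.1, g.2.1⟩
      invFun := fun g => ⟨g.1, g.2, hconj g.1 g.2⟩
      left_inv := fun g => rfl
      right_inv := fun g => rfl }
  rw [Nat.card_congr e2, hN, hphi] at hOC'
  rw [← hOC']
  ring

example : StHallCnt.{u} := hallCnt

end Cfsg.Agent.H73.S7
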