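import Mathlib
import Cfsg.Agent.H45.S7Defs
import Cfsg.Agent.H91.S8GamK
import Cfsg.Agent.H73.S8Part
import Cfsg.Agent.H73.S7OrdCls
/-!
S2357 team project (helper45), piece S7-QuartCnt1 (QUARTCNT1): the elements of order `i > 1`
dividing `k = (q+1)/4`. The structure of `C(A)` follows helper91's S8-GAMK.
-/
set_option autoImplicit false

namespace Cfsg.Agent.H73.S7

open Cfsg.Agent.H45.S8 Cfsg.Agent.H45.S7

universe u

/-- The structure of `C₁ = C(A)` for a cyclic subgroup `A` of order `k = (q+1)/4`. -/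
theorem quart_core {G : Type u} [Group G] [Finite G] (m : ℕ) (hQ : HQuarter G m)
    (hSyl : HSyl G (kk m)) (A : Subgroup G) (hAc : IsCyclic ↥A) (hAk : Nat.card ↥A = kk m) :
    ∃ C₁ : Subgroup G, C₁ = Subgroup.centralizer (A : Set G) ∧ A ≤ C₁ ∧
      (∀ x ∈ C₁, ∀ y ∈ C₁, x * y = y * x) ∧
      (∀ x ∈ C₁, x ^ 4 ∈ A) ∧
      (∀ x ∈ C₁, x ^ 2 ≠ 1 → Subgroup.centralizer ({x} : Set G) = C₁) ∧
      Nat.card {x : G // x ∈ C₁ ∧ x ^ 2 = 1} = 4 ∧
      (∀ g : G, (∃ s : ℕ, s.Prime ∧ s ∣ kk m ∧ s ∣ orderOf g) → ∃ c : G, c * g * c⁻¹ ∈ C₁) := by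
  obtain ⟨hcomm, hcard, hno4, hsub⟩ := hQ A hAc hAk
  obtain ⟨C₁, hC₁⟩ : ∃ C₁ : Subgroup G, C₁ = Subgroup.centralizer (A : Set G) := ⟨_, rfl⟩
  rw [← hC₁] at hcomm hcard hno4 hsub
  have h4k := Cfsg.Agent.H91.S8.four_kk m
  have hkodd := Cfsg.Agent.H91.S8.kk_odd m
  have hkpos : 0 < kk m := hkodd.pos
  have hk : Nat.card C₁ = 4 * kk m := by rw [hcard, h4k]
  have hAC : A ≤ C₁ := by
    intro x hx
    rw [hC₁, Subgroup.mem_centralizer_iff]
    intro y hy
    have := (IsCyclic.isMulCommutative (α := ↥A)).is_comm.comm ⟨y, hy⟩ ⟨x, hx⟩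
    exact congrArg Subtype.val this
  have hindex : (A.subgroupOf C₁).index = 4 := by
    have h1 := Subgroup.card_mul_index (A.subgroupOf C₁)
    rw [Nat.card_congr (Subgroup.subgroupOfEquivOfLe hAC).toEquiv, hAk, hk] at h1
    have h2 : kk m * (A.subgroupOf C₁).index = kk m * 4 := by rw [h1]; ring
    exact Nat.eq_of_mul_eq_mul_left hkpos h2
  have hnorm : (A.subgroupOf C₁).Normal := by
    constructor
    intro n hn g
    rw [Subgroup.mem_subgroupOf] at hn ⊢
    have h1 : ((g * n * g⁻¹ : ↥C₁) : G) = (n : G) := by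
      have h2 : (g : G) * (n : G) = (n : G) * (g : G) := hcomm _ g.2 _ n.2
      simp only [Subgroup.coe_mul, Subgroup.coe_inv]
      rw [h2, mul_inv_cancel_right]
    rw [h1]; exact hn
  have hpow4 : ∀ x ∈ C₁, x ^ 4 ∈ A := by
    intro x hx
    have h1 := Subgroup.pow_index_mem (A.subgroupOf C₁) (⟨x, hx⟩ : ↥C₁)
    rw [hindex, Subgroup.mem_subgroupOf] at h1
    exact h1
  have hsq : ∀ x ∈ C₁, x ^ 4 = 1 → x ^ 2 = 1 := by
    intro x hx h4
    have hd : orderOf x ∣ 4 := orderOf_dvd_of_pow_eq_one h4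
    have hne := hno4 x hx
    have hle : orderOf x ≤ 4 := Nat.le_of_dvd (by norm_num) hd
    have h12 : orderOf x ∣ 2 := by
      interval_cases h : orderOf x
      · simp at hd
      · exact one_dvd 2
      · exact dvd_rfl
      · norm_num at hd
      · exact absurd rfl hne
    exact orderOf_dvd_iff_pow_eq_one.mp h12
  have hcent : ∀ x ∈ C₁, x ^ 2 ≠ 1 → Subgroup.centralizer ({x} : Set G) = C₁ := by
    intro x hx hx2
    have hx4 : x ^ 4 ≠ 1 := fun h => hx2 (hsq x hx h)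
    have hA₀ : Subgroup.zpowers (x ^ 4) ≤ A := by
      rw [Subgroup.zpowers_le]; exact hpow4 x hx
    have hA₀ne : Subgroup.zpowers (x ^ 4) ≠ ⊥ := by
      rw [Ne, Subgroup.zpowers_eq_bot]; exact hx4
    have hC := hsub _ hA₀ hA₀ne
    apply le_antisymm
    · rw [← hC]
      intro g hg
      rw [Subgroup.mem_centralizer_iff] at hg ⊢
      intro y hy
      obtain ⟨i, rfl⟩ := Subgroup.mem_zpowers_iff.mp hy
      have hxg : Commute x g := hg x rfl
      exact ((hxg.pow_left 4).zpow_left i).eq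
    · intro g hg
      rw [Subgroup.mem_centralizer_iff]
      intro y hy
      rw [Set.mem_singleton_iff.mp hy]
      exact hcomm x hx g hg
  obtain ⟨E, hE⟩ : ∃ E : Subgroup G, ∀ x : G, x ∈ E ↔ x ∈ C₁ ∧ x ^ 2 = 1 := by
    refine ⟨{ carrier := {x | x ∈ C₁ ∧ x ^ 2 = 1}
              mul_mem' := ?_
              one_mem' := ⟨C₁.one_mem, one_pow 2⟩
              inv_mem' := ?_ }, fun x => Iff.rfl⟩
    · rintro a b ⟨ha, ha2⟩ ⟨hb, hb2⟩
      have hab : Commute a b := hcomm a ha b hb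
      exact ⟨C₁.mul_mem ha hb, by rw [hab.mul_pow, ha2, hb2, one_mul]⟩
    · rintro a ⟨ha, ha2⟩
      exact ⟨C₁.inv_mem ha, by rw [inv_pow, ha2, inv_one]⟩
  have hEC : E ≤ C₁ := fun x hx => ((hE x).mp hx).1
  have hE4 : Nat.card E = 4 := by
    have : Fact (Nat.Prime 2) := ⟨Nat.prime_two⟩
    have hp : IsPGroup 2 E := by
      intro g
      refine ⟨1, ?_⟩
      have := ((hE g).mp g.2).2
      apply Subtype.ext
      simpa using this
    obtain ⟨n, hn⟩ := hp.exists_card_eq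
    have hdvd : Nat.card E ∣ 4 * kk m := by rw [← hk]; exact Subgroup.card_dvd_of_le hEC
    have hcop : Nat.Coprime (2 ^ n) (kk m) :=
      Nat.Coprime.pow_left n (Nat.coprime_two_left.mpr hkodd)
    have hd4 : Nat.card E ∣ 4 := by
      rw [hn] at hdvd ⊢
      exact hcop.dvd_of_dvd_mul_right hdvd
    have hle : Nat.card E ≤ 4 := Nat.le_of_dvd (by norm_num) hd4
    have hge : 4 ≤ Nat.card E := by
      obtain ⟨K, hK⟩ := Sylow.exists_subgroup_card_pow_prime (G := ↥C₁) 2 (n := 2)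
        (by rw [hk]; exact Dvd.intro _ rfl)
      have hKE : K.map C₁.subtype ≤ E := by
        rintro _ ⟨y, hy, rfl⟩
        rw [hE]
        refine ⟨y.2, hsq _ y.2 ?_⟩
        have h1 : (⟨y, hy⟩ : ↥K) ^ 4 = 1 := by
          have := pow_card_eq_one' (G := ↥K) (x := ⟨y, hy⟩)
          rwa [hK] at this
        have h2 := congrArg (fun z : ↥K => ((z : ↥C₁) : G)) h1
        simpa using h2
      have h3 := Subgroup.card_le_of_le hKE
      rw [Subgroup.card_map_of_injective C₁.subtype_injective, hK] at h3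
      exact h3
    omega
  refine ⟨C₁, hC₁, hAC, hcomm, hpow4, hcent, ?_, ?_⟩
  · rw [← hE4]
    exact Nat.card_congr (Equiv.subtypeEquivRight (fun x => (hE x).symm))
  · rintro g ⟨s, hs, hsk, hsg⟩
    have : Fact s.Prime := ⟨hs⟩
    have hg0 : orderOf g ≠ 0 := (orderOf_pos g).ne'
    have hzo : orderOf (g ^ (orderOf g / s)) = s := orderOf_pow_orderOf_div hg0 hsg
    obtain ⟨w', hw'⟩ := exists_prime_orderOf_dvd_card' (G := ↥A) s (by rw [hAk]; exact hsk)
    have hwo : orderOf (w' : G) = s := (Subgroup.orderOf_coe w').trans hw'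
    obtain ⟨c, hc⟩ := Cfsg.Agent.H73.S8.exists_conj_mem_zpowers s (hSyl s hsk)
      (g ^ (orderOf g / s)) (w' : G) hzo hwo
    have hczA : c * g ^ (orderOf g / s) * c⁻¹ ∈ A := by
      have hle : Subgroup.zpowers (w' : G) ≤ A := by
        rw [Subgroup.zpowers_le]
        exact w'.2
      exact hle hc
    have hcz1 : c * g ^ (orderOf g / s) * c⁻¹ ≠ 1 := by
      intro h
      have h2 : orderOf (c * g ^ (orderOf g / s) * c⁻¹) = s := by rw [orderOf_conj', hzo]
      rw [h, orderOf_one] at h2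
      exact hs.one_lt.ne h2
    have hC := hsub (Subgroup.zpowers (c * g ^ (orderOf g / s) * c⁻¹))
      (by rw [Subgroup.zpowers_le]; exact hczA)
      (by rw [Ne, Subgroup.zpowers_eq_bot]; exact hcz1)
    refine ⟨c, ?_⟩
    rw [← hC, Subgroup.mem_centralizer_iff]
    intro y hy
    obtain ⟨j, rfl⟩ := Subgroup.mem_zpowers_iff.mp hy
    have hgz : Commute (g ^ (orderOf g / s)) g := (Commute.refl g).pow_left _
    have h1 : Commute (c * g ^ (orderOf g / s) * c⁻¹) (c * g * c⁻¹) := by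
      unfold Commute SemiconjBy
      have := hgz.eq
      calc c * g ^ (orderOf g / s) * c⁻¹ * (c * g * c⁻¹)
          = c * (g ^ (orderOf g / s) * g) * c⁻¹ := by group
        _ = c * (g * g ^ (orderOf g / s)) * c⁻¹ := by rw [this]
        _ = c * g * c⁻¹ * (c * g ^ (orderOf g / s) * c⁻¹) := by group
    exact (h1.zpow_left j).eq

/-- The number of elements of order `i` of a cyclic subgroup. -/
theorem card_orderOf_cyclic {G : Type u} [Group G] [Finite G] (A : Subgroup G)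
    (hAc : IsCyclic ↥A) (i : ℕ) (hi : i ∣ Nat.card ↥A) :
    Nat.card {x : G // x ∈ A ∧ orderOf x = i} = Nat.totient i := by
  classical
  have : Fintype ↥A := Fintype.ofFinite _
  have e : {y : ↥A // orderOf y = i} ≃ {x : G // x ∈ A ∧ orderOf x = i} :=
    { toFun := fun y => ⟨y.1.1, y.1.2, (Subgroup.orderOf_coe y.1).trans y.2⟩
      invFun := fun x => ⟨⟨x.1, x.2.1⟩, (Subgroup.orderOf_mk x.1 x.2.1).trans x.2.2⟩
      left_inv := fun y => rfl
      right_inv := fun x => rfl }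
  rw [← Nat.card_congr e, Nat.card_eq_fintype_card, Fintype.card_subtype]
  exact IsCyclic.card_orderOf_eq_totient (by rw [← Nat.card_eq_fintype_card]; exact hi)

/-- In `C₁`, the elements of odd order `i` are those of `A`. -/
theorem card_orderOf_quart {G : Type u} [Group G] [Finite G] (A C₁ : Subgroup G)
    (hAc : IsCyclic ↥A) (hAC : A ≤ C₁) (hpow4 : ∀ x ∈ C₁, x ^ 4 ∈ A) (i : ℕ)
    (hi : i ∣ Nat.card ↥A) (hodd : Odd i) :
    Nat.card {x : G // x ∈ C₁ ∧ orderOf x = i} = Nat.totient i := by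
  rw [← card_orderOf_cyclic A hAc i hi]
  apply Nat.card_congr
  refine Equiv.subtypeEquivRight (fun x => ?_)
  constructor
  · rintro ⟨hx, hxi⟩
    refine ⟨?_, hxi⟩
    obtain ⟨t, ht⟩ := hodd
    have hxi' : x ^ i = 1 := by
      rw [← hxi]
      exact pow_orderOf_eq_one x
    have h1 : x = (x ^ 4) ^ ((t + 1) ^ 2) := by
      rw [← pow_mul]
      have h2 : 4 * (t + 1) ^ 2 = i * (i + 2) + 1 := by
        rw [ht]
        ring
      rw [h2, pow_succ, pow_mul, hxi', one_pow, one_mul]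
    rw [h1]
    exact A.pow_mem (hpow4 x hx) _
  · rintro ⟨hx, hxi⟩
    exact ⟨hAC hx, hxi⟩

/-- `q³ + 1 = (q + 1)(q² - q + 1)` -/
theorem cube_add_one (q : ℕ) (hq : 1 ≤ q) : q ^ 3 + 1 = (q + 1) * (q ^ 2 - q + 1) := by
  obtain ⟨t, rfl⟩ : ∃ t, q = t + 1 := ⟨q - 1, by omega⟩
  have h1 : (t + 1) ^ 2 - (t + 1) = t ^ 2 + t := by
    have h2 : (t + 1) ^ 2 = t ^ 2 + t + (t + 1) := by ring
    omega
  rw [h1]
  ring

theorem qq_pos (m : ℕ) : 1 ≤ qq m := by
  unfold qq
  exact Nat.one_le_pow _ _ (by norm_num)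

/-- (QUARTCNT1) -/
theorem quartCnt1 : StQuartCnt1.{u} := by
  intro G _ _ m hm hG hQ hSyl hOC hAr A hAc hAk hN i hi hik
  obtain ⟨C₁, hC₁, hAC, hcomm, hpow4, hcent, hE4, hconj⟩ := quart_core m hQ hSyl A hAc hAk
  rw [← hC₁] at hN
  have hkodd := Cfsg.Agent.H91.S8.kk_odd m
  have hiodd : Odd i := by
    rcases Nat.even_or_odd i with he | ho
    · exact absurd (he.two_dvd.trans hik) (by
        rw [← even_iff_two_dvd]
        exact Nat.not_even_iff_odd.mpr hkodd)
    · exact ho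
  -- elements of order i of C₁ have centraliser C₁
  have hcent' : ∀ x ∈ C₁, orderOf x = i → Subgroup.centralizer ({x} : Set G) = C₁ := by
    intro x hx hxi
    apply hcent x hx
    intro h2
    have h3 : orderOf x ∣ 2 := orderOf_dvd_of_pow_eq_one h2
    rw [hxi] at h3
    have h4 : i ≤ 2 := Nat.le_of_dvd (by norm_num) h3
    obtain ⟨t, ht⟩ := hiodd
    omega
  have hOC' := hOC G C₁ i hcent'
  -- every element of order i is conjugate into C₁
  have hconj' : ∀ g : G, orderOf g = i → ∃ c : G, c * g * c⁻¹ ∈ C₁ := by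
    intro g hg
    obtain ⟨s, hs, hsi⟩ := Nat.exists_prime_and_dvd (show i ≠ 1 by omega)
    exact hconj g ⟨s, hs, hsi.trans hik, by rw [hg]; exact hsi⟩
  have e2 : {g : G // orderOf g = i ∧ ∃ c : G, c * g * c⁻¹ ∈ C₁} ≃ {g : G // orderOf g = i} :=
    { toFun := fun g => ⟨g.1, g.2.1⟩
      invFun := fun g => ⟨g.1, g.2, hconj' g.1 g.2⟩
      left_inv := fun g => rfl
      right_inv := fun g => rfl }
  rw [Nat.card_congr e2, hN, card_orderOf_quart A C₁ hAc hAC hpow4 i (by rw [hAk]; exact hik) hiodd,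
    hG] at hOC'
  have hq := qq_pos m
  have hcube := cube_add_one (qq m) hq
  unfold GG at hOC'
  rw [hcube] at hOC'
  have hpos : 0 < qq m + 1 := by omega
  apply Nat.eq_of_mul_eq_mul_right hpos
  calc 6 * Nat.card {g : G // orderOf g = i} * (qq m + 1)
      = Nat.card {g : G // orderOf g = i} * (6 * (qq m + 1)) := by ring
    _ = qq m ^ 3 * (qq m - 1) * ((qq m + 1) * (qq m ^ 2 - qq m + 1)) * Nat.totient i := hOC'
    _ = Nat.totient i * qq m ^ 3 * (qq m - 1) * (qq m ^ 2 - qq m + 1) * (qq m + 1) := by ring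

example : StQuartCnt1.{u} := quartCnt1

end Cfsg.Agent.H73.S7
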