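import Mathlib
import Cfsg.Agent.H45.S7Defs
import Cfsg.Agent.H73.S7OrdCls
/-!
S2357 team project (helper45), piece S7-SixCnt (SIXCNT): the elements of order 6 are the products
of an involution and a commuting element of order 3.
-/
set_option autoImplicit false

namespace Cfsg.Agent.H73.S7

open Cfsg.Agent.H45.S8 Cfsg.Agent.H45.S7

universe u

/-- conjugates of commuting elements commute -/
theorem comm_conj {G : Type*} [Group G] (d a w z : G) (h : d * a * d⁻¹ = z)
    (hwa : w * a = a * w) : Commute z (d * w * d⁻¹) := by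
  subst h
  show d * a * d⁻¹ * (d * w * d⁻¹) = d * w * d⁻¹ * (d * a * d⁻¹)
  calc d * a * d⁻¹ * (d * w * d⁻¹) = d * (a * w) * d⁻¹ := by group
    _ = d * (w * a) * d⁻¹ := by rw [hwa]
    _ = d * w * d⁻¹ * (d * a * d⁻¹) := by group

/-- the conjugate of `g ^ 4` commutes with `a` when `g ^ 3` is the conjugate of `a` -/
theorem comm_conj_pow {G : Type*} [Group G] (d a g : G) (h : d * a * d⁻¹ = g ^ 3) :
    d⁻¹ * g ^ 4 * d * a = a * (d⁻¹ * g ^ 4 * d) := by
  obtain rfl : a = d⁻¹ * g ^ 3 * d := by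
    rw [← h]
    group
  have h7 : g ^ 4 * g ^ 3 = g ^ 3 * g ^ 4 := by
    rw [← pow_add, ← pow_add]
  calc d⁻¹ * g ^ 4 * d * (d⁻¹ * g ^ 3 * d) = d⁻¹ * (g ^ 4 * g ^ 3) * d := by group
    _ = d⁻¹ * (g ^ 3 * g ^ 4) * d := by rw [h7]
    _ = d⁻¹ * g ^ 3 * d * (d⁻¹ * g ^ 4 * d) := by group

/-- (SIXCNT) -/
theorem sixCnt : StSixCnt.{u} := by
  intro G _ _ a ha1 haa hconj
  classical
  have hinv : ∀ z : G, orderOf z = 2 → z ≠ 1 ∧ z * z = 1 := by
    intro z hz
    refine ⟨?_, ?_⟩
    · intro h1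
      rw [h1, orderOf_one] at hz
      omega
    · have h := pow_orderOf_eq_one z
      rw [hz, pow_two] at h
      exact h
  have hex : ∀ z : G, orderOf z = 2 → ∃ c : G, c * a * c⁻¹ = z :=
    fun z hz => hconj z (hinv z hz).1 (hinv z hz).2
  choose! c hc using hex
  have hord : ∀ (d x : G), orderOf (d⁻¹ * x * d) = orderOf x := by
    intro d x
    have h := orderOf_conj' d⁻¹ x
    rw [inv_inv] at h
    exact h
  have h3 : ∀ g : G, orderOf g = 6 → orderOf (g ^ 3) = 2 := by
    intro g hg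
    rw [orderOf_pow' g (by norm_num), hg]
    norm_num
  have h4 : ∀ g : G, orderOf g = 6 → orderOf (g ^ 4) = 3 := by
    intro g hg
    rw [orderOf_pow' g (by norm_num), hg]
    norm_num
  have e : {g : G // orderOf g = 6} ≃
      {g : G // orderOf g = 2} × {w : G // orderOf w = 3 ∧ w * a = a * w} :=
    { toFun := fun g => (⟨g.1 ^ 3, h3 g.1 g.2⟩,
        ⟨(c (g.1 ^ 3))⁻¹ * g.1 ^ 4 * c (g.1 ^ 3), by rw [hord]; exact h4 g.1 g.2,
          comm_conj_pow _ _ _ (hc (g.1 ^ 3) (h3 g.1 g.2))⟩)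
      invFun := fun q => ⟨q.1.1 * (c q.1.1 * q.2.1 * (c q.1.1)⁻¹), by
        have hz := q.1.2
        have hw := q.2.2.1
        have hwa := q.2.2.2
        have h := hc q.1.1 hz
        have hcomm : Commute q.1.1 (c q.1.1 * q.2.1 * (c q.1.1)⁻¹) :=
          comm_conj _ _ _ _ h hwa
        rw [hcomm.orderOf_mul_eq_mul_orderOf_of_coprime (by rw [orderOf_conj', hz, hw]; norm_num),
          orderOf_conj', hz, hw]⟩
      left_inv := by
        rintro ⟨g, hg⟩
        apply Subtype.ext
        show g ^ 3 * (c (g ^ 3) * ((c (g ^ 3))⁻¹ * g ^ 4 * c (g ^ 3)) * (c (g ^ 3))⁻¹) = g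
        have h1 : c (g ^ 3) * ((c (g ^ 3))⁻¹ * g ^ 4 * c (g ^ 3)) * (c (g ^ 3))⁻¹ = g ^ 4 := by
          group
        rw [h1, ← pow_add]
        have h6 : g ^ 6 = 1 := by
          have h := pow_orderOf_eq_one g
          rwa [hg] at h
        calc g ^ (3 + 4) = g ^ 6 * g := by rw [← pow_succ]
          _ = g := by rw [h6, one_mul]
      right_inv := by
        rintro ⟨⟨z, hz⟩, ⟨w, hw, hwa⟩⟩
        have h := hc z hz
        have hzz : z * z = 1 := (hinv z hz).2
        have hw3 : w ^ 3 = 1 := by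
          have h' := pow_orderOf_eq_one w
          rwa [hw] at h'
        have hcomm : Commute z (c z * w * (c z)⁻¹) := comm_conj _ _ _ _ h hwa
        have hw3' : (c z * w * (c z)⁻¹) ^ 3 = 1 := by
          rw [conj_pow, hw3]
          group
        have hz3 : z ^ 3 = z := by
          calc z ^ 3 = z * z * z := by rw [pow_succ, pow_two]
            _ = z := by rw [hzz, one_mul]
        have hz4 : z ^ 4 = 1 := by
          calc z ^ 4 = (z * z) * (z * z) := by rw [pow_succ, pow_succ, pow_two, mul_assoc]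
            _ = 1 := by rw [hzz, one_mul]
        have hg3 : (z * (c z * w * (c z)⁻¹)) ^ 3 = z := by
          rw [hcomm.mul_pow, hw3', hz3, mul_one]
        have hg4 : (z * (c z * w * (c z)⁻¹)) ^ 4 = c z * w * (c z)⁻¹ := by
          rw [hcomm.mul_pow, hz4, one_mul, pow_succ, hw3', one_mul]
        apply Prod.ext
        · apply Subtype.ext
          exact hg3
        · apply Subtype.ext
          show (c ((z * (c z * w * (c z)⁻¹)) ^ 3))⁻¹ * (z * (c z * w * (c z)⁻¹)) ^ 4 *
            c ((z * (c z * w * (c z)⁻¹)) ^ 3) = w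
          rw [hg3, hg4]
          group }
  rw [Nat.card_congr e, Nat.card_prod]

example : StSixCnt.{u} := sixCnt

end Cfsg.Agent.H73.S7
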