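import Mathlib
import Cfsg.Agent.H45.S7Defs
import Cfsg.Agent.H73.Syl
import Cfsg.Agent.H73.S7OrdCls
/-!
S2357 team project (helper45), piece S7-TICnt (TICNT): counting elements of order `p^j` when the
Sylow `p`-subgroups intersect trivially.
-/
set_option autoImplicit false

namespace Cfsg.Agent.H73.S7

open Cfsg.Agent.H45.S8 Cfsg.Agent.H45.S7

universe u

/-- (TICNT) -/
theorem tiCnt : StTICnt.{u} := by
  intro G _ _ p _ hTI P j hj
  classical
  have hp : p.Prime := Fact.out
  -- each element of order p^j lies in a Sylow subgroup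
  have hex : ∀ g : G, orderOf g = p ^ j → ∃ Q : Sylow p G, g ∈ (Q : Subgroup G) :=
    fun g hg => Cfsg.Agent.H73.exists_sylow_mem g j hg
  choose! Qg hQg using hex
  have hconj : ∀ Q : Sylow p G, ∃ c : G, c • P = Q := fun Q => MulAction.exists_smul_eq G P Q
  choose c hc using hconj
  have hne : ∀ g : G, orderOf g = p ^ j → g ≠ 1 := by
    intro g hg h1
    rw [h1, orderOf_one] at hg
    have h2 : 1 < p ^ j := Nat.one_lt_pow (by omega) hp.one_lt
    omega
  have huniq : ∀ (g : G) (Q Q' : Sylow p G), orderOf g = p ^ j → g ∈ (Q : Subgroup G) →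
      g ∈ (Q' : Subgroup G) → Q = Q' := by
    intro g Q Q' hg h1 h2
    by_contra hQQ
    have h3 := hTI Q Q' hQQ
    have hmem : g ∈ (Q : Subgroup G) ⊓ (Q' : Subgroup G) := ⟨h1, h2⟩
    rw [h3] at hmem
    exact hne g hg (Subgroup.mem_bot.mp hmem)
  have hmemP : ∀ (Q : Sylow p G) (x : G), x ∈ (Q : Subgroup G) ↔
      (c Q)⁻¹ * x * c Q ∈ (P : Subgroup G) := by
    intro Q x
    have h := Cfsg.Agent.H73.sylow_mem_smul_iff (c Q) P x
    rw [hc Q] at h
    exact h
  have hord : ∀ (d x : G), orderOf (d⁻¹ * x * d) = orderOf x := by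
    intro d x
    have h := orderOf_conj' d⁻¹ x
    rw [inv_inv] at h
    exact h
  have e : {g : G // orderOf g = p ^ j} ≃
      (Sylow p G) × {u : G // u ∈ (P : Subgroup G) ∧ orderOf u = p ^ j} :=
    { toFun := fun g => (Qg g.1, ⟨(c (Qg g.1))⁻¹ * g.1 * c (Qg g.1),
        (hmemP (Qg g.1) g.1).mp (hQg g.1 g.2), by rw [hord]; exact g.2⟩)
      invFun := fun q => ⟨c q.1 * q.2.1 * (c q.1)⁻¹, by rw [orderOf_conj']; exact q.2.2.2⟩
      left_inv := by
        rintro ⟨g, hg⟩
        apply Subtype.ext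
        show c (Qg g) * ((c (Qg g))⁻¹ * g * c (Qg g)) * (c (Qg g))⁻¹ = g
        group
      right_inv := by
        rintro ⟨Q, ⟨u, hu, huo⟩⟩
        have hord' : orderOf (c Q * u * (c Q)⁻¹) = p ^ j := by rw [orderOf_conj']; exact huo
        have hmem : c Q * u * (c Q)⁻¹ ∈ (Q : Subgroup G) := by
          rw [hmemP Q]
          have h1 : (c Q)⁻¹ * (c Q * u * (c Q)⁻¹) * c Q = u := by group
          rw [h1]
          exact hu
        have hQ : Qg (c Q * u * (c Q)⁻¹) = Q := huniq _ _ _ hord' (hQg _ hord') hmem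
        apply Prod.ext
        · exact hQ
        · apply Subtype.ext
          show (c (Qg (c Q * u * (c Q)⁻¹)))⁻¹ * (c Q * u * (c Q)⁻¹) *
            c (Qg (c Q * u * (c Q)⁻¹)) = u
          rw [hQ]
          group }
  rw [Nat.card_congr e, Nat.card_prod]

example : StTICnt.{u} := tiCnt

end Cfsg.Agent.H73.S7
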