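import Mathlib
import Cfsg.Agent.H17.TgDefs
/-!
S1904 team project (helper17), piece TG-CENT: a normal `A`-invariant subgroup of exponent 2 is
central.
-/
set_option autoImplicit false

namespace Cfsg.Agent.H73.Tg

open Cfsg.Agent.H17.Tg

universe u

/-- a group of exponent 2 is abelian (elementwise form) -/
theorem comm_of_sq_eq_one {X : Type*} [Group X] {a b : X} (ha : a ^ 2 = 1) (hb : b ^ 2 = 1)
    (hab : (a * b) ^ 2 = 1) : a * b = b * a := by
  have ha' : a⁻¹ = a := by rw [inv_eq_iff_mul_eq_one, ← sq, ha]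
  have hb' : b⁻¹ = b := by rw [inv_eq_iff_mul_eq_one, ← sq, hb]
  have h : (a * b)⁻¹ = a * b := by rw [inv_eq_iff_mul_eq_one, ← sq, hab]
  rw [← h, mul_inv_rev, ha', hb']

/-- a nontrivial normal subgroup of a finite `2`-group contains a nontrivial central element -/
theorem exists_central_of_normal {X : Type*} [Group X] [Finite X] (hX : IsPGroup 2 X)
    (U : Subgroup X) [U.Normal] (u : X) (huU : u ∈ U) (hu1 : u ≠ 1) :
    ∃ z ∈ U, z ≠ 1 ∧ ∀ x : X, x * z = z * x := by
  have hpg : IsPGroup 2 (ConjAct X) := hX.of_equiv ConjAct.toConjAct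
  have h2dvd : 2 ∣ Nat.card U := by
    obtain ⟨n, hn⟩ := (hX.to_subgroup U).exists_card_eq
    rcases Nat.eq_zero_or_pos n with h0 | h0
    · exfalso
      rw [h0, pow_zero] at hn
      have hbot : U = ⊥ := Subgroup.card_eq_one.mp hn
      rw [hbot, Subgroup.mem_bot] at huU
      exact hu1 huU
    · rw [hn]
      exact dvd_pow_self 2 (by omega)
  have h1fix : (1 : U) ∈ MulAction.fixedPoints (ConjAct X) U := by
    intro g
    exact smul_one g
  obtain ⟨b, hb, hb1⟩ := hpg.exists_fixed_point_of_prime_dvd_card_of_fixed_point U h2dvd h1fix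
  refine ⟨b, b.2, ?_, ?_⟩
  · intro h
    apply hb1
    apply Subtype.ext
    rw [h]
    rfl
  · intro x
    have h1 := hb (ConjAct.toConjAct x)
    have h2 : x * (b : X) * x⁻¹ = b := by
      have h3 := congrArg Subtype.val h1
      rw [ConjAct.Subgroup.val_conj_smul, ConjAct.smul_def, ConjAct.ofConjAct_toConjAct] at h3
      exact h3
    rw [← h2, inv_mul_cancel_right, h2]

/-- TG-CENT -/
theorem cent (hIdx2 : StIdx2.{u}) : StCent.{u} := by
  intro X _ _ A hyp U hUn hUA hU2
  have hcomm : ∀ a ∈ U, ∀ b ∈ U, a * b = b * a := fun a ha b hb =>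
    comm_of_sq_eq_one (hU2 a ha) (hU2 b hb) (hU2 _ (U.mul_mem ha hb))
  have hcard : Nat.card U ≤ 4 := hyp.rank U hUn hcomm U le_rfl hU2
  by_contra hnc
  obtain ⟨u, huU, huZ⟩ : ∃ u ∈ U, u ∉ Subgroup.center X := by
    by_contra h
    push Not at h
    exact hnc h
  have hu1 : u ≠ 1 := by
    intro h
    rw [h] at huZ
    exact huZ (Subgroup.one_mem _)
  obtain ⟨z, hzU, hz1, hzc⟩ := exists_central_of_normal hyp.pgrp U u huU hu1
  have hzZ : z ∈ Subgroup.center X := Subgroup.mem_center_iff.mpr hzc
  have huz : u ≠ z := fun h => huZ (h ▸ hzZ)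
  have hz2 : z * z = 1 := by rw [← sq]; exact hU2 z hzU
  have hu2 : u * u = 1 := by rw [← sq]; exact hU2 u huU
  -- the four elements of `U`
  have hT : ({1, z, u, u * z} : Set X) = (U : Set X) := by
    apply Set.eq_of_subset_of_ncard_le
    · intro w hw
      simp only [Set.mem_insert_iff, Set.mem_singleton_iff] at hw
      rcases hw with rfl | rfl | rfl | rfl
      · exact U.one_mem
      · exact hzU
      · exact huU
      · exact U.mul_mem huU hzU
    · have h4 : ({1, z, u, u * z} : Set X).ncard = 4 := by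
        rw [Set.ncard_insert_of_notMem, Set.ncard_insert_of_notMem, Set.ncard_pair]
        · intro h
          exact hz1 (left_eq_mul.mp h)
        · simp only [Set.mem_insert_iff, Set.mem_singleton_iff, not_or]
          refine ⟨fun h => huz h.symm, fun h => ?_⟩
          exact hu1 (right_eq_mul.mp h)
        · simp only [Set.mem_insert_iff, Set.mem_singleton_iff, not_or]
          refine ⟨fun h => hz1 h.symm, fun h => hu1 h.symm, fun h => ?_⟩
          apply huz
          have h' : u * z * z = z := by rw [← h, one_mul]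
          rw [mul_assoc, hz2, mul_one] at h'
          exact h'
      rw [h4]
      exact hcard
    · exact Set.toFinite _
  have hcases : ∀ w ∈ U, w = 1 ∨ w = z ∨ w = u ∨ w = u * z := by
    intro w hw
    have hw' : w ∈ ({1, z, u, u * z} : Set X) := by rw [hT]; exact hw
    simpa only [Set.mem_insert_iff, Set.mem_singleton_iff] using hw'
  obtain ⟨D, hD⟩ : ∃ D : Subgroup X, D = Subgroup.centralizer {u} := ⟨_, rfl⟩
  have hmemD : ∀ x : X, x ∈ D ↔ x * u = u * x := by
    intro x
    rw [hD, Subgroup.mem_centralizer_singleton_iff]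
  -- conjugates of `u`
  have hconj : ∀ x : X, x ∉ D → x * u * x⁻¹ = u * z := by
    intro x hx
    rcases hcases _ (hUn.conj_mem u huU x) with h | h | h | h
    · exfalso
      exact hu1 (conj_eq_one_iff.mp h)
    · exfalso
      apply huz
      have h' : u = x⁻¹ * z * x := by rw [← h]; group
      rw [h', mul_assoc, ← hzc x, inv_mul_cancel_left]
    · exfalso
      apply hx
      rw [hmemD]
      have h' := congrArg (fun g => g * x) h
      simpa using h'
    · exact h
  have hDU : ∀ x ∈ D, ∀ w ∈ U, x * w = w * x := by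
    intro x hx w hw
    have hxu := (hmemD x).mp hx
    rcases hcases w hw with rfl | rfl | rfl | rfl
    · rw [mul_one, one_mul]
    · exact hzc x
    · exact hxu
    · rw [← mul_assoc, hxu, mul_assoc, hzc x, mul_assoc]
  have hDA : AInv A D := by
    intro φ hφ x hx
    rw [hmemD]
    have hw : φ⁻¹ u ∈ U := hUA φ⁻¹ (A.inv_mem hφ) u huU
    have h1 := hDU x hx _ hw
    have h2 := congrArg φ h1
    rw [map_mul, map_mul, MulAut.apply_inv_self] at h2
    exact h2
  have hD2 : D.index = 2 := by
    obtain ⟨a, ha⟩ : ∃ a : X, a ∉ D := by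
      by_contra h
      push Not at h
      apply huZ
      rw [Subgroup.mem_center_iff]
      intro g
      exact (hmemD g).mp (h g)
    rw [Subgroup.index_eq_two_iff']
    refine ⟨a, fun b => ?_⟩
    by_cases hb : b ∈ D
    · right
      refine ⟨hb, fun hab => ha ?_⟩
      have h' := D.mul_mem hab (D.inv_mem hb)
      rwa [mul_inv_cancel_right] at h'
    · left
      refine ⟨?_, hb⟩
      rw [hmemD]
      have h1 := hconj a ha
      have h2 := hconj b hb
      have h3 : a * b * u * (a * b)⁻¹ = u := by
        calc a * b * u * (a * b)⁻¹ = a * (b * u * b⁻¹) * a⁻¹ := by group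
          _ = a * (u * z) * a⁻¹ := by rw [h2]
          _ = (a * u * a⁻¹) * (a * z * a⁻¹) := by group
          _ = u * z * z := by rw [h1, hzc a, mul_inv_cancel_right]
          _ = u := by rw [mul_assoc, hz2, mul_one]
      exact mul_inv_eq_iff_eq_mul.mp h3
  exact hIdx2 X A hyp D hDA hD2

example (hIdx2 : StIdx2.{u}) : StCent.{u} := cent hIdx2

end Cfsg.Agent.H73.Tg
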