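import Mathlib
import Cfsg.Agent.H17.TgDefs
/-!
S1904 team project (helper17), piece TG-L11: if `A` centralizes `Ω₁(B)` then `B` is central.
-/
set_option autoImplicit false

namespace Cfsg.Agent.H73.Tg

open Cfsg.Agent.H17.Tg

universe u

/-- `Ω₁(B)` for an abelian subgroup `B`, as a subgroup -/
def omegaOne {X : Type u} [Group X] (B : Subgroup X) (hBc : ∀ a ∈ B, ∀ b ∈ B, a * b = b * a) :
    Subgroup X where
  carrier := {v | v ∈ B ∧ v ^ 2 = 1}
  mul_mem' := by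
    rintro a b ⟨ha, ha2⟩ ⟨hb, hb2⟩
    refine ⟨B.mul_mem ha hb, ?_⟩
    rw [(show Commute a b from hBc a ha b hb).mul_pow, ha2, hb2, one_mul]
  one_mem' := ⟨B.one_mem, one_pow 2⟩
  inv_mem' := by
    rintro a ⟨ha, ha2⟩
    exact ⟨B.inv_mem ha, by rw [inv_pow, ha2, inv_one]⟩

theorem mem_omegaOne {X : Type u} [Group X] (B : Subgroup X)
    (hBc : ∀ a ∈ B, ∀ b ∈ B, a * b = b * a) (v : X) :
    v ∈ omegaOne B hBc ↔ v ∈ B ∧ v ^ 2 = 1 := Iff.rfl

theorem omegaOne_le {X : Type u} [Group X] (B : Subgroup X)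
    (hBc : ∀ a ∈ B, ∀ b ∈ B, a * b = b * a) : omegaOne B hBc ≤ B := fun _ hv => hv.1

theorem omegaOne_normal {X : Type u} [Group X] (B : Subgroup X) (hBn : B.Normal)
    (hBc : ∀ a ∈ B, ∀ b ∈ B, a * b = b * a) : (omegaOne B hBc).Normal :=
  ⟨fun v hv g => ⟨hBn.conj_mem v hv.1 g, by rw [conj_pow, hv.2, mul_one, mul_inv_cancel]⟩⟩

theorem omegaOne_ainv {X : Type u} [Group X] (A : Subgroup (MulAut X)) (B : Subgroup X)
    (hBA : AInv A B) (hBc : ∀ a ∈ B, ∀ b ∈ B, a * b = b * a) : AInv A (omegaOne B hBc) :=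
  fun φ hφ v hv => ⟨hBA φ hφ v hv.1, by rw [← map_pow, hv.2, map_one]⟩

/-- `Ω₁(B)` is central (from TG-CENT) -/
theorem omegaOne_central (hCent : StCent.{u}) {X : Type u} [Group X] [Finite X]
    (A : Subgroup (MulAut X)) (hyp : Hyp X A) (B : Subgroup X) (hB : NAI A B) :
    ∀ v ∈ B, v ^ 2 = 1 → v ∈ Subgroup.center X := by
  obtain ⟨hBn, hBA, hBc⟩ := hB
  intro v hv hv2
  exact hCent X A hyp (omegaOne B hBc) (omegaOne_normal B hBn hBc) (omegaOne_ainv A B hBA hBc)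
    (fun a ha => ha.2) ⟨hv, hv2⟩

/-- TG-L11 -/
theorem l11 (hCent : StCent.{u}) : StL11.{u} := by
  intro X _ _ A hyp B hB hfix
  have hVZ := omegaOne_central hCent A hyp B hB
  obtain ⟨hBn, hBA, hBc⟩ := hB
  have key : ∀ j : ℕ, ∀ b ∈ B, b ^ 2 ^ j = 1 → b ∈ Subgroup.center X := by
    intro j
    induction j with
    | zero =>
      intro b hb h
      rw [pow_zero, pow_one] at h
      rw [h]
      exact Subgroup.one_mem _
    | succ j ih =>
      intro b hb hbj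
      have hc : ∀ x : X, b * x * b⁻¹ * x⁻¹ ∈ B ∧ (b * x * b⁻¹ * x⁻¹) ^ 2 = 1 := by
        intro x
        have h1 : x * b⁻¹ * x⁻¹ ∈ B := hBn.conj_mem _ (B.inv_mem hb) x
        have e : b * x * b⁻¹ * x⁻¹ = b * (x * b⁻¹ * x⁻¹) := by group
        refine ⟨by rw [e]; exact B.mul_mem hb h1, ?_⟩
        rw [e, (show Commute b (x * b⁻¹ * x⁻¹) from hBc b hb _ h1).mul_pow, conj_pow]
        have hb2 : b ^ 2 ∈ Subgroup.center X := by
          apply ih (b ^ 2) (B.pow_mem hb 2)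
          rw [← pow_mul, ← pow_succ']
          exact hbj
        have h3 : x * (b⁻¹) ^ 2 * x⁻¹ = (b ^ 2)⁻¹ := by
          rw [inv_pow]
          have h4 := Subgroup.mem_center_iff.mp (Subgroup.inv_mem _ hb2) x
          rw [h4, mul_inv_cancel_right]
        rw [h3, mul_inv_cancel]
      have hφc : ∀ φ ∈ A, ∀ x : X, b * φ x * b⁻¹ * (φ x)⁻¹ = b * x * b⁻¹ * x⁻¹ := by
        intro φ hφ x
        have hφi : φ⁻¹ ∈ A := A.inv_mem hφ
        obtain ⟨b', hb'⟩ : ∃ b' : X, b' = φ⁻¹ b := ⟨_, rfl⟩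
        have hb'B : b' ∈ B := by rw [hb']; exact hBA _ hφi b hb
        have hφb' : φ b' = b := by rw [hb', MulAut.apply_inv_self]
        have hd : (b⁻¹ * b') ^ 2 ^ j = 1 := by
          rw [(show Commute b⁻¹ b' from hBc _ (B.inv_mem hb) _ hb'B).mul_pow, inv_pow, hb',
            ← map_pow]
          have hv : φ⁻¹ (b ^ 2 ^ j) = b ^ 2 ^ j := by
            apply hfix _ hφi _ (B.pow_mem hb _)
            rw [← pow_mul, ← pow_succ]
            exact hbj
          rw [hv, inv_mul_cancel]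
        have hdZ : b⁻¹ * b' ∈ Subgroup.center X := ih _ (B.mul_mem (B.inv_mem hb) hb'B) hd
        have h1 : b' * x * b'⁻¹ * x⁻¹ = b * x * b⁻¹ * x⁻¹ := by
          obtain ⟨d, hd'⟩ : ∃ d : X, d = b⁻¹ * b' := ⟨_, rfl⟩
          have hb'd : b' = b * d := by rw [hd']; group
          have hdx : ∀ g : X, g * d = d * g := by
            rw [hd']
            exact Subgroup.mem_center_iff.mp hdZ
          rw [hb'd, mul_inv_rev]
          calc b * d * x * (d⁻¹ * b⁻¹) * x⁻¹ = b * (d * x) * d⁻¹ * b⁻¹ * x⁻¹ := by group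
            _ = b * (x * d) * d⁻¹ * b⁻¹ * x⁻¹ := by rw [hdx x]
            _ = b * x * b⁻¹ * x⁻¹ := by group
        have h2 : φ (b' * x * b'⁻¹ * x⁻¹) = b' * x * b'⁻¹ * x⁻¹ := by
          rw [h1]
          exact hfix φ hφ _ (hc x).1 (hc x).2
        rw [← h1, ← h2, map_mul, map_mul, map_mul, map_inv, map_inv, hφb']
      have hle : Subgroup.closure {g : X | ∃ φ ∈ A, ∃ x : X, g = x⁻¹ * φ x} ≤
          Subgroup.centralizer {b} := by
        rw [Subgroup.closure_le]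
        rintro g ⟨φ, hφ, x, rfl⟩
        rw [SetLike.mem_coe, Subgroup.mem_centralizer_singleton_iff]
        have h1 := hφc φ hφ x
        obtain ⟨y, hy⟩ : ∃ y : X, y = φ x := ⟨_, rfl⟩
        rw [← hy] at h1 ⊢
        have h2 : y * b⁻¹ * y⁻¹ = x * b⁻¹ * x⁻¹ := by
          have h1' : b * (y * b⁻¹ * y⁻¹) = b * (x * b⁻¹ * x⁻¹) := by
            simpa only [mul_assoc] using h1
          exact mul_left_cancel h1'
        have h3 : x⁻¹ * y * b⁻¹ = b⁻¹ * (x⁻¹ * y) := by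
          calc x⁻¹ * y * b⁻¹ = x⁻¹ * (y * b⁻¹ * y⁻¹) * y := by group
            _ = x⁻¹ * (x * b⁻¹ * x⁻¹) * y := by rw [h2]
            _ = b⁻¹ * (x⁻¹ * y) := by group
        calc x⁻¹ * y * b = b * (b⁻¹ * (x⁻¹ * y)) * b := by group
          _ = b * (x⁻¹ * y * b⁻¹) * b := by rw [h3]
          _ = b * (x⁻¹ * y) := by group
      rw [hyp.gen] at hle
      rw [Subgroup.mem_center_iff]
      intro g
      exact Subgroup.mem_centralizer_singleton_iff.mp (hle (Subgroup.mem_top g))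
  intro b hb
  obtain ⟨k, hk⟩ := hyp.pgrp b
  exact key k b hb hk

example (hCent : StCent.{u}) : StL11.{u} := l11 hCent

end Cfsg.Agent.H73.Tg
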