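import Mathlib
import Cfsg.Agent.H72.ZasDefs
import Cfsg.Agent.H73.Syl

set_option autoImplicit false

namespace Cfsg.Agent.H73.ZG2

open Cfsg.Agent.H72.Zas

universe u

/-- In a finite cyclic group, the solutions of `v ^ 3 = 1` are `1, w, w⁻¹` for `w` of order 3. -/
theorem cyc3 {P : Type*} [Group P] [Finite P] [IsCyclic P] (w v : P) (hw : orderOf w = 3)
    (hv : v ^ 3 = 1) : v = 1 ∨ v = w ∨ v = w⁻¹ := by
  classical
  have := Fintype.ofFinite P
  have hle := IsCyclic.card_pow_eq_one_le (α := P) (n := 3) (by norm_num)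
  have hw3 : w ^ 3 = 1 := by rw [← hw]; exact pow_orderOf_eq_one w
  have hw1 : w ≠ 1 := by intro h; rw [h, orderOf_one] at hw; omega
  have hwinv : w⁻¹ ≠ w := by
    intro h
    have h2 : w ^ 2 = 1 := by
      rw [pow_two]; nth_rewrite 1 [← h]; exact inv_mul_cancel w
    have := orderOf_dvd_of_pow_eq_one h2
    rw [hw] at this; omega
  have hsub : ({1, w, w⁻¹} : Finset P) ⊆ Finset.univ.filter (fun a : P => a ^ 3 = 1) := by
    intro x hx
    simp only [Finset.mem_insert, Finset.mem_singleton] at hx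
    rw [Finset.mem_filter]
    refine ⟨Finset.mem_univ _, ?_⟩
    rcases hx with rfl | rfl | rfl
    · simp
    · exact hw3
    · rw [inv_pow, hw3, inv_one]
  have hcard : ({1, w, w⁻¹} : Finset P).card = 3 := by
    rw [Finset.card_insert_of_notMem, Finset.card_insert_of_notMem, Finset.card_singleton]
    · simp only [Finset.mem_singleton]; exact hwinv.symm
    · simp only [Finset.mem_insert, Finset.mem_singleton, not_or]
      refine ⟨hw1.symm, ?_⟩
      intro h; apply hw1; rw [← inv_inv w, ← h, inv_one]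
  have heq := Finset.eq_of_subset_of_card_le hsub (by rw [hcard]; exact hle)
  have : v ∈ ({1, w, w⁻¹} : Finset P) := by
    rw [heq, Finset.mem_filter]; exact ⟨Finset.mem_univ _, hv⟩
  simpa using this

/-- Two Sylow subgroups contained in a subgroup `C` are conjugate under `C`. -/
theorem sylow_conj_sub {G : Type*} [Group G] [Finite G] {p : ℕ} [Fact p.Prime] (P Q : Sylow p G)
    (C : Subgroup G) (hP : (P : Subgroup G) ≤ C) (hQ : (Q : Subgroup G) ≤ C) :
    ∃ c ∈ C, ∀ x : G, x ∈ (Q : Subgroup G) ↔ c⁻¹ * x * c ∈ (P : Subgroup G) := by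
  obtain ⟨c, hc⟩ := MulAction.exists_smul_eq ↥C (P.subtype hP) (Q.subtype hQ)
  refine ⟨c, c.2, fun x => ?_⟩
  constructor
  · intro hx
    have h1 : (⟨x, hQ hx⟩ : ↥C) ∈ ((Q.subtype hQ : Sylow p ↥C) : Subgroup ↥C) := by
      rw [Sylow.coe_subtype, Subgroup.mem_subgroupOf]; exact hx
    rw [← hc, Cfsg.Agent.H73.sylow_mem_smul_iff, Sylow.coe_subtype, Subgroup.mem_subgroupOf] at h1
    exact h1
  · intro hx
    have hxC : x ∈ C := by
      have := C.mul_mem (C.mul_mem c.2 (hP hx)) (C.inv_mem c.2)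
      simpa [mul_assoc] using this
    have h1 : (⟨x, hxC⟩ : ↥C) ∈ ((Q.subtype hQ : Sylow p ↥C) : Subgroup ↥C) := by
      rw [← hc, Cfsg.Agent.H73.sylow_mem_smul_iff, Sylow.coe_subtype, Subgroup.mem_subgroupOf]
      exact hx
    rw [Sylow.coe_subtype, Subgroup.mem_subgroupOf] at h1
    exact h1

/-- S0690-G2. -/
theorem g2 : StG2.{u} := by
  intro G _ _ hperf hcyc S w hw hS
  have : Fact (Nat.Prime 3) := ⟨by norm_num⟩
  have : Fact (Nat.Prime 2) := ⟨Nat.prime_two⟩
  have hw3 : w ^ 3 = 1 := by rw [← hw]; exact pow_orderOf_eq_one w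
  have hw1 : w ≠ 1 := by intro h; rw [h, orderOf_one] at hw; omega
  have hwinv : w⁻¹ ≠ w := by
    intro h
    have h2 : w ^ 2 = 1 := by
      rw [pow_two]; nth_rewrite 1 [← h]; exact inv_mul_cancel w
    have := orderOf_dvd_of_pow_eq_one h2
    rw [hw] at this; omega
  have hw2 : w ^ 2 = w⁻¹ := by
    rw [eq_inv_iff_mul_eq_one, ← pow_succ]; exact hw3
  -- (a) some element inverts `w`
  have ha : ∃ g : G, g * w * g⁻¹ = w⁻¹ := by
    by_contra hno
    push Not at hno
    obtain ⟨P, hwP⟩ := Cfsg.Agent.H73.exists_sylow_mem (p := 3) w 1 (by rw [hw, pow_one])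
    have := hcyc P
    let _ : CommGroup ↥(P : Subgroup G) := IsCyclic.commGroup
    have key : ∀ (k : ℕ) (g₀ : G), g₀⁻¹ * w ^ k * g₀ ∈ (P : Subgroup G) →
        g₀⁻¹ * w ^ k * g₀ = w ^ k := by
      intro k g₀ hmem
      have hv3 : (⟨g₀⁻¹ * w ^ k * g₀, hmem⟩ : ↥(P : Subgroup G)) ^ 3 = 1 := by
        apply Subtype.ext
        simp only [Subgroup.coe_pow, Subgroup.coe_one]
        have h0 : (g₀⁻¹ * w ^ k * g₀) ^ 3 = g₀⁻¹ * (w ^ k) ^ 3 * g₀ := by
          have := conj_pow (a := g₀⁻¹) (b := w ^ k) (i := 3)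
          rw [inv_inv] at this; exact this
        rw [h0, ← pow_mul, mul_comm k 3, pow_mul, hw3, one_pow]; group
      have hwo : orderOf (⟨w, hwP⟩ : ↥(P : Subgroup G)) = 3 := by
        rw [Subgroup.orderOf_mk]; exact hw
      have h3 := cyc3 (⟨w, hwP⟩ : ↥(P : Subgroup G)) ⟨g₀⁻¹ * w ^ k * g₀, hmem⟩ hwo hv3
      have h3' : g₀⁻¹ * w ^ k * g₀ = 1 ∨ g₀⁻¹ * w ^ k * g₀ = w ∨ g₀⁻¹ * w ^ k * g₀ = w⁻¹ := by
        rcases h3 with h | h | h
        · left; simpa using congrArg Subtype.val h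
        · right; left; simpa using congrArg Subtype.val h
        · right; right; simpa using congrArg Subtype.val h
      have hk : w ^ k = w ^ (k % 3) := by
        rw [← hw]; exact (pow_mod_orderOf w k).symm
      have hk3 : k % 3 < 3 := Nat.mod_lt _ (by norm_num)
      rw [hk] at h3' ⊢
      interval_cases (k % 3)
      · simp
      · rw [pow_one] at h3' ⊢
        rcases h3' with h | h | h
        · exfalso; apply hw1
          calc w = g₀ * (g₀⁻¹ * w * g₀) * g₀⁻¹ := by group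
            _ = 1 := by rw [h]; group
        · exact h
        · exfalso; apply hno g₀⁻¹; rw [inv_inv]; exact h
      · rw [hw2] at h3' ⊢
        rcases h3' with h | h | h
        · exfalso; apply hw1
          have : w⁻¹ = 1 := by
            calc w⁻¹ = g₀ * (g₀⁻¹ * w⁻¹ * g₀) * g₀⁻¹ := by group
              _ = 1 := by rw [h]; group
          rw [← inv_inv w, this, inv_one]
        · exfalso; apply hno g₀⁻¹; rw [inv_inv]
          calc g₀⁻¹ * w * g₀ = (g₀⁻¹ * w⁻¹ * g₀)⁻¹ := by group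
            _ = w⁻¹ := by rw [h]
        · exact h
    have htr := MonoidHom.transfer_eq_pow (MonoidHom.id ↥(P : Subgroup G)) w key
    have h1 : MonoidHom.transfer (MonoidHom.id ↥(P : Subgroup G)) w = 1 := by
      have hk : (MonoidHom.transfer (MonoidHom.id ↥(P : Subgroup G))).ker = ⊤ := by
        rw [eq_top_iff, ← hperf]; exact Abelianization.commutator_subset_ker _
      exact MonoidHom.mem_ker.mp (hk ▸ Subgroup.mem_top w)
    rw [h1] at htr
    have hpow : w ^ (P : Subgroup G).index = 1 := by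
      simpa using (congrArg Subtype.val htr).symm
    have hdvd := orderOf_dvd_of_pow_eq_one hpow
    rw [hw] at hdvd
    exact P.not_dvd_index hdvd
  -- (b) contradiction
  obtain ⟨g, hg⟩ := ha
  have hg' : g⁻¹ * w * g = w⁻¹ := by
    have : g⁻¹ * w⁻¹ * g = w := by rw [← hg]; group
    calc g⁻¹ * w * g = (g⁻¹ * w⁻¹ * g)⁻¹ := by group
      _ = w⁻¹ := by rw [this]
  have hSC : (S : Subgroup G) ≤ Subgroup.centralizer ({w} : Set G) := by
    intro x hx
    rw [Subgroup.mem_centralizer_iff]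
    intro h hh
    rw [Set.mem_singleton_iff.mp hh]
    exact (hS x hx).symm
  have hgSC : ((g • S : Sylow 2 G) : Subgroup G) ≤ Subgroup.centralizer ({w} : Set G) := by
    intro x hx
    rw [Cfsg.Agent.H73.sylow_mem_smul_iff] at hx
    have h1 := hS _ hx
    rw [Subgroup.mem_centralizer_iff]
    intro h hh
    rw [Set.mem_singleton_iff.mp hh]
    have h2 : x * w⁻¹ = w⁻¹ * x := by
      calc x * w⁻¹ = x * (g * w * g⁻¹) := by rw [hg]
        _ = g * (g⁻¹ * x * g * w) * g⁻¹ := by group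
        _ = g * (w * (g⁻¹ * x * g)) * g⁻¹ := by rw [h1]
        _ = (g * w * g⁻¹) * x := by group
        _ = w⁻¹ * x := by rw [hg]
    calc w * x = w * (x * w⁻¹) * w := by group
      _ = w * (w⁻¹ * x) * w := by rw [h2]
      _ = x * w := by group
  obtain ⟨c, hcC, hc⟩ := sylow_conj_sub (g • S) S _ hgSC hSC
  have hcw : c⁻¹ * w * c = w := by
    have := Subgroup.mem_centralizer_iff.mp hcC w rfl
    calc c⁻¹ * w * c = c⁻¹ * (w * c) := by group
      _ = c⁻¹ * (c * w) := by rw [this]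
      _ = w := by group
  obtain ⟨h, hh⟩ : ∃ h : G, h = g⁻¹ * c⁻¹ := ⟨_, rfl⟩
  have hhw : h * w * h⁻¹ = w⁻¹ := by
    rw [hh]
    calc g⁻¹ * c⁻¹ * w * (g⁻¹ * c⁻¹)⁻¹ = g⁻¹ * (c⁻¹ * w * c) * g := by group
      _ = w⁻¹ := by rw [hcw, hg']
  have hhN : h ∈ Subgroup.normalizer ((S : Subgroup G) : Set G) := by
    rw [Subgroup.mem_normalizer_iff]
    intro x
    rw [hc x, Cfsg.Agent.H73.sylow_mem_smul_iff, hh]
    have : g⁻¹ * c⁻¹ * x * (g⁻¹ * c⁻¹)⁻¹ = g⁻¹ * (c⁻¹ * x * c) * g := by group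
    rw [this]
  have hh2 : h * h ∈ Subgroup.centralizer ({w} : Set G) := by
    rw [Subgroup.mem_centralizer_iff]
    intro y hy
    rw [Set.mem_singleton_iff.mp hy]
    have e1 : h * w = w⁻¹ * h := by
      calc h * w = (h * w * h⁻¹) * h := by group
        _ = w⁻¹ * h := by rw [hhw]
    have e2 : h * w⁻¹ = w * h := by
      calc h * w⁻¹ = (h * w * h⁻¹)⁻¹ * h := by group
        _ = w * h := by rw [hhw, inv_inv]
    calc w * (h * h) = (w * h) * h := by group
      _ = h * w⁻¹ * h := by rw [e2]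
      _ = h * (w⁻¹ * h) := by group
      _ = h * (h * w) := by rw [e1]
      _ = h * h * w := by group
  have hord : orderOf h ≠ 0 := (orderOf_pos h).ne'
  obtain ⟨e, m, hm, hem⟩ := Nat.exists_eq_two_pow_mul_odd hord
  obtain ⟨i, hi⟩ := hm
  have hpm : (h ^ m) ^ (2 ^ e) = 1 := by
    rw [← pow_mul, mul_comm, ← hem]; exact pow_orderOf_eq_one h
  have hpg : IsPGroup 2 (Subgroup.zpowers (h ^ m)) := by
    obtain ⟨j, -, hj⟩ := (Nat.dvd_prime_pow Nat.prime_two).mp (orderOf_dvd_of_pow_eq_one hpm)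
    exact IsPGroup.of_card (n := j) (by rw [Nat.card_zpowers, hj])
  have hmem : h ^ m ∈ Subgroup.zpowers (h ^ m) ⊓ Subgroup.normalizer ((S : Subgroup G) : Set G) :=
    ⟨Subgroup.mem_zpowers _, Subgroup.pow_mem _ hhN m⟩
  have hmem' : h ^ m ∈ Subgroup.zpowers (h ^ m) ⊓ (S : Subgroup G) := by
    rw [← hpg.inf_normalizer_sylow S]; exact hmem
  have hcomm := hS _ hmem'.2
  have hinv : h ^ m * w = w⁻¹ * h ^ m := by
    have hc2 : (h * h) ^ i ∈ Subgroup.centralizer ({w} : Set G) := Subgroup.pow_mem _ hh2 i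
    have hc3 := Subgroup.mem_centralizer_iff.mp (Subgroup.inv_mem _ hc2) w rfl
    have hc4 := Subgroup.mem_centralizer_iff.mp hc2 w rfl
    have e1 : h * w = w⁻¹ * h := by
      calc h * w = (h * w * h⁻¹) * h := by group
        _ = w⁻¹ * h := by rw [hhw]
    have hpow : h ^ m = (h * h) ^ i * h := by
      rw [hi, pow_succ, pow_mul, pow_two]
    have hc5 : (h * h) ^ i * w⁻¹ = w⁻¹ * (h * h) ^ i := by
      calc (h * h) ^ i * w⁻¹ = w⁻¹ * (w * (h * h) ^ i) * w⁻¹ := by group
        _ = w⁻¹ * ((h * h) ^ i * w) * w⁻¹ := by rw [hc4]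
        _ = w⁻¹ * (h * h) ^ i := by group
    rw [hpow]
    calc (h * h) ^ i * h * w = (h * h) ^ i * (h * w) := by group
      _ = (h * h) ^ i * (w⁻¹ * h) := by rw [e1]
      _ = ((h * h) ^ i * w⁻¹) * h := by group
      _ = w⁻¹ * ((h * h) ^ i * h) := by rw [hc5, mul_assoc]
  apply hwinv
  have : w⁻¹ * h ^ m = w * h ^ m := by rw [← hinv, hcomm]
  exact mul_right_cancel this

example : Cfsg.Agent.H72.Zas.StG2.{u} := Cfsg.Agent.H73.ZG2.g2

end Cfsg.Agent.H73.ZG2
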